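import Cfsg.Agent.Grp.Transfer
import Cfsg.Agent.Grp.SylowEA
import Cfsg.Agent.Grp.SmallTwo
import Cfsg.Agent.GA.Trace

/-!
# Sylow 3-subgroup extraspecial of order 27, exponent 3, with `N(P) ≤ C(Z(P))` : local data
-/

set_option autoImplicit false
set_option linter.unusedSectionVars false
set_option linter.unusedVariables false

namespace Cfsg

open scoped Classical commutatorElement
open Subgroup GA

universe u

local notation "C(" Q ")" => Subgroup.centralizer ((Q : Subgroup _) : Set _)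
local notation "N(" Q ")" => Subgroup.normalizer ((Q : Subgroup _) : Set _)
local notation "C₁(" x ")" => Subgroup.centralizer ({x} : Set _)

/-- The classes of 3-elements are represented by `1, z, z⁻¹` and the members of `U`. -/
structure Ext27 {H : Type u} [Group H] (z : H) (U : Finset H) : Prop where
  z_ne : z ≠ 1
  z_cube : z ^ 3 = 1
  card : (Nat.card H).factorization 3 = 3
  cardz : (Nat.card (Subgroup.centralizer ({z} : Set H))).factorization 3 = 3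
  cube : ∀ u ∈ U, u ^ 3 = 1
  nilp : ∀ u ∈ U, HasNormalPComplement 3 (Subgroup.centralizer ({u} : Set H))
  cardu : ∀ u ∈ U, (Nat.card (Subgroup.centralizer ({u} : Set H))).factorization 3 = 2
  shift : ∀ u ∈ U, IsConj u (u * z)
  reps : ∀ g : H, IsPElt 3 g → ∃! x, x ∈ insert 1 (insert z (insert z⁻¹ U)) ∧ IsConj g x

/-- Element-level description of an extraspecial Sylow `3`-subgroup of order `27` whose normalizer
centralizes its centre `⟨z⟩`. -/
structure X27 {G : Type u} [Group G] (P : Subgroup G) (z : G) : Prop where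
  pg : IsPGroup 3 P
  idx : ¬ 3 ∣ P.index
  card : Nat.card P = 27
  cube : ∀ x ∈ P, x ^ 3 = 1
  mem : z ∈ P
  ne : z ≠ 1
  cent : ∀ x ∈ P, (∀ y ∈ P, y * x * y⁻¹ = x) → x ∈ zpowers z
  comm : ∀ x ∈ P, ∀ y ∈ P, y * x * y⁻¹ * x⁻¹ ∈ zpowers z
  norm : ∀ g ∈ N(P), g * z * g⁻¹ = z

theorem mem_zpowers_of_cube {G : Type u} [Group G] {z c : G} (hz : z ^ 3 = 1)
    (hc : c ∈ zpowers z) : c = 1 ∨ c = z ∨ c = z⁻¹ := by
  obtain ⟨n, rfl⟩ := hc
  have h3 : z ^ (3 : ℤ) = 1 := by exact_mod_cast hz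
  have h : z ^ n = z ^ (n % 3) := by
    conv_lhs => rw [← Int.emod_add_mul_ediv n 3, zpow_add, zpow_mul, h3, one_zpow, mul_one]
  have h2 : z ^ (2 : ℤ) = z⁻¹ := by
    rw [eq_inv_iff_mul_eq_one, ← zpow_add_one]; exact h3
  change z ^ n = 1 ∨ z ^ n = z ∨ z ^ n = z⁻¹
  rw [h]
  have : n % 3 = 0 ∨ n % 3 = 1 ∨ n % 3 = 2 := by omega
  rcases this with e | e | e <;> rw [e] <;> simp [h2]

namespace X27

variable {G : Type u} [Group G] [Finite G] {P : Subgroup G} {z u v x : G} (h : X27 P z)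
include h

theorem zc {y : G} (hy : y ∈ P) : y * z = z * y :=
  mul_inv_eq_iff_eq_mul.1 (h.norm y (le_normalizer hy))

theorem conj_c {g c : G} (hg : g ∈ N(P)) (hc : c ∈ zpowers z) : g * c * g⁻¹ = c :=
  mul_inv_eq_iff_eq_mul.2 (comm_of_mem_zpowers (mul_inv_eq_iff_eq_mul.1 (h.norm g hg)) hc)

theorem cc {y c : G} (hy : y ∈ P) (hc : c ∈ zpowers z) : y * c = c * y :=
  comm_of_mem_zpowers (h.zc hy) hc

theorem zle : zpowers z ≤ P := zpowers_le.2 h.mem

theorem card_z : Nat.card (zpowers z) = 3 := by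
  rw [Nat.card_zpowers]; exact orderOf_eq_prime (h.cube z h.mem) h.ne

theorem ne_inv : z ≠ z⁻¹ := fun e => h.ne <| by
  have h3 := h.cube z h.mem
  rw [pow_succ, pow_two, mul_eq_one_iff_eq_inv.2 e, one_mul] at h3
  exact h3

theorem relIndex (H : Subgroup G) (hH : P ≤ H) : ¬ 3 ∣ P.relIndex H :=
  fun hd => h.idx (hd.trans (relIndex_dvd_index_of_le hH))

theorem le_cent : P ≤ C₁(z) := fun y hy => mem_centralizer_singleton_iff.2 (h.zc hy)

theorem shift (hu : u ∈ P) (hu' : u ∉ zpowers z) {c : G} (hc : c ∈ zpowers z) :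
    ∃ y ∈ P, y * u * y⁻¹ = u * c := by
  obtain ⟨y, hy, hyu⟩ : ∃ y ∈ P, y * u * y⁻¹ ≠ u := by
    by_contra! hn; exact hu' (h.cent u hu hn)
  have key : ∀ {y c : G}, y ∈ P → c ∈ zpowers z → y * u * y⁻¹ = u * c →
      y⁻¹ * u * y⁻¹⁻¹ = u * c⁻¹ := fun {y c} hy hc e => by
    have := h.conj_c (le_normalizer (P.inv_mem hy)) (inv_mem hc)
    calc y⁻¹ * u * y⁻¹⁻¹ = y⁻¹ * (u * c) * y⁻¹⁻¹ * (y⁻¹ * c⁻¹ * y⁻¹⁻¹) := by group
      _ = u * c⁻¹ := by rw [this, ← e]; group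
  have hd := h.comm u hu y hy
  have e : y * u * y⁻¹ = u * (y * u * y⁻¹ * u⁻¹) := by rw [h.cc hu hd]; group
  have hz : ∃ y ∈ P, y * u * y⁻¹ = u * z := by
    rcases mem_zpowers_of_cube (h.cube z h.mem) hd with e1 | e1 | e1
    · exact absurd (mul_inv_eq_one.1 e1) hyu
    · exact ⟨y, hy, e1 ▸ e⟩
    · exact ⟨y⁻¹, inv_mem hy, by rw [key hy hd e, e1, inv_inv]⟩
  obtain ⟨y, hy, e⟩ := hz
  rcases mem_zpowers_of_cube (h.cube z h.mem) hc with rfl | rfl | rfl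
  · exact ⟨1, one_mem _, by simp⟩
  · exact ⟨y, hy, e⟩
  · exact ⟨y⁻¹, inv_mem hy, key hy (mem_zpowers _) e⟩

theorem isConj_shift (hu : u ∈ P) (hu' : u ∉ zpowers z) {c : G} (hc : c ∈ zpowers z) :
    IsConj u (u * c) := by
  obtain ⟨y, -, e⟩ := h.shift hu hu' hc
  exact isConj_iff.2 ⟨y, e⟩

theorem not_isConj_inv : ¬ IsConj z z⁻¹ := fun hc => by
  obtain ⟨g, hg⟩ := isConj_iff.1 hc
  have h1 : z ∈ C(P) := fun y hy => h.zc hy
  obtain ⟨n, hn, e⟩ := exists_mem_normalizer_conj_eq (h.pg.toSylow h.idx) (x := z) (g := g) h1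
    (hg ▸ inv_mem h1)
  exact h.ne_inv ((h.norm n hn).symm.trans (e.trans hg))

/-- A noncentral element of `P` is not conjugate to a central one. -/
theorem not_isConj (hu : u ∈ P) (hu' : u ∉ zpowers z) {c : G} (hc : c ∈ zpowers z) :
    ¬ IsConj u c := fun hi => by
  obtain ⟨g, hg⟩ := isConj_iff.1 hi
  have hc1 : c ≠ 1 := fun e => hu' <| by
    rw [e, isConj_one_left] at hi; exact hi ▸ one_mem _
  have hzc : z ∈ zpowers c := by
    rcases mem_zpowers_of_cube (h.cube z h.mem) hc with rfl | rfl | rfl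
    · exact absurd rfl hc1
    · exact mem_zpowers _
    · exact inv_mem_iff.1 (mem_zpowers _)
  have hP : P ≤ C₁(c) := fun y hy => mem_centralizer_singleton_iff.2 (h.cc hy hc)
  obtain ⟨k, hk, hz⟩ := exists_conj_mem_of_not_dvd_relIndex h.pg (h.relIndex _ hP)
    (x := g * z * g⁻¹) (k := 1) (mem_centralizer_singleton_iff.2 (by
      rw [← hg, conj_mul, conj_mul, h.zc hu])) (by rw [pow_one, conj_pow, h.cube z h.mem]; group)
  have e1 : k * g * u * (k * g)⁻¹ = c := by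
    rw [← mul_inv_eq_iff_eq_mul.2 (mem_centralizer_singleton_iff.1 hk), ← hg]; group
  have e2 : k * (g * z * g⁻¹) * k⁻¹ = k * g * z * (k * g)⁻¹ := by group
  rw [e2] at hz
  generalize k * g = a at e1 hz
  have hz' : a * z * a⁻¹ ∉ zpowers z := fun hm => hu' <| by
    have h1 : zpowers (a * z * a⁻¹) = zpowers z :=
      eq_of_le_of_card_ge (zpowers_le.2 hm) (by rw [zpowers_conj, card_map_conj])
    rw [← h1, ← e1, zpowers_conj, conj_mem_map_conj] at hc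
    exact hc
  have i1 : IsConj u (a * z * a⁻¹) := by
    refine (h.isConj_shift hu hu' (mem_zpowers z)).trans ?_
    refine (isConj_iff.2 ⟨a, ?_⟩ : IsConj _ _).trans (h.isConj_shift hz hz' hc).symm
    rw [← e1, h.zc hu]; group
  have i2 : IsConj u⁻¹ (a * z * a⁻¹) := by
    refine (h.isConj_shift (inv_mem hu) (fun hm => hu' (inv_mem_iff.1 hm)) (mem_zpowers z)).trans ?_
    refine (isConj_iff.2 ⟨a, ?_⟩ : IsConj _ _).trans (h.isConj_shift hz hz' (inv_mem hc)).symm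
    rw [← e1, h.zc (inv_mem hu)]; group
  have i3 : IsConj c c⁻¹ := hi.symm.trans ((i1.trans i2.symm).trans
    (isConj_iff.2 ⟨g, by rw [← hg]; group⟩))
  rcases mem_zpowers_of_cube (h.cube z h.mem) hc with rfl | rfl | rfl
  · exact hc1 rfl
  · exact h.not_isConj_inv i3
  · exact h.not_isConj_inv (by simpa using i3.symm)

theorem eq_of_isConj {c : G} (hc : c ∈ zpowers z) (hx : x ∈ P) (hi : IsConj x c) : x = c := by
  have hx' : x ∈ zpowers z := by_contra fun hn => h.not_isConj hx hn hc hi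
  have h1 := h.not_isConj_inv
  have h2 := h.ne
  rcases mem_zpowers_of_cube (h.cube z h.mem) hc with e | e | e <;>
    rcases mem_zpowers_of_cube (h.cube z h.mem) hx' with e' | e' | e' <;> rw [e, e'] at hi ⊢ <;>
    first | exact absurd hi h1 | exact absurd hi.symm h1 | simp_all

theorem card_dvd_nine {Q : Subgroup G} (hQ : Q ≤ P) (hne : Q ≠ P) : Nat.card Q ∣ 9 := by
  have h1 : Nat.card Q ∣ 3 ^ 3 := (card_dvd_of_le hQ).trans h.card.dvd
  have h2 := h.card ▸ card_lt_of_lt (lt_of_le_of_ne hQ hne)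
  obtain ⟨k, hk, e⟩ := (Nat.dvd_prime_pow Nat.prime_three).1 h1
  rw [e] at h2 ⊢
  interval_cases k <;> simp_all

theorem card_V_dvd (hu : u ∈ P) (hu' : u ∉ zpowers z) : Nat.card (P ⊓ C₁(u) : Subgroup G) ∣ 9 :=
  h.card_dvd_nine inf_le_left fun e => hu' <| h.cent u hu fun y hy =>
    mul_inv_eq_iff_eq_mul.2 (mem_centralizer_singleton_iff.1 (e.ge hy).2)

theorem nine_le {K : Subgroup G} (hK : Nat.card K ∣ 9) (hz : z ∈ K) (hu : u ∈ K)
    (hu' : u ∉ zpowers z) : Nat.card K = 9 := by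
  have h1 := card_lt_of_lt (lt_of_le_of_ne (zpowers_le.2 hz) fun e => hu' (e ▸ hu))
  rw [h.card_z] at h1
  obtain ⟨k, hk, e⟩ := (Nat.dvd_prime_pow Nat.prime_three (m := 2)).1 hK
  rw [e] at h1 ⊢
  interval_cases k <;> simp_all

theorem card_V (hu : u ∈ P) (hu' : u ∉ zpowers z) : Nat.card (P ⊓ C₁(u) : Subgroup G) = 9 :=
  h.nine_le (h.card_V_dvd hu hu') ⟨h.mem, mem_centralizer_singleton_iff.2 (h.zc hu).symm⟩
    ⟨hu, mem_centralizer_singleton_iff.2 rfl⟩ hu'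

theorem V_le (hu : u ∈ P) (hu' : u ∉ zpowers z) {K : Subgroup G} (hz : z ∈ K) (huK : u ∈ K) :
    P ⊓ C₁(u) ≤ K := by
  have h1 := h.nine_le (K := K ⊓ (P ⊓ C₁(u))) ((card_dvd_of_le inf_le_right).trans
    (h.card_V_dvd hu hu')) ⟨hz, h.mem, mem_centralizer_singleton_iff.2 (h.zc hu).symm⟩
    ⟨huK, hu, mem_centralizer_singleton_iff.2 rfl⟩ hu'
  exact inf_eq_right.1 (eq_of_le_of_card_ge inf_le_right (by rw [h1, h.card_V hu hu']))

theorem V_fix (hu : u ∈ P) (hu' : u ∉ zpowers z) {g : G} (hz : g * z * g⁻¹ = z)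
    (hg : g ∈ C₁(u)) : ∀ s ∈ P ⊓ C₁(u), g * s * g⁻¹ = s := fun s hs =>
  mul_inv_eq_iff_eq_mul.2 (mem_centralizer_singleton_iff.1 (h.V_le hu hu' (K := C₁(g))
    (mem_centralizer_singleton_iff.2 (mul_inv_eq_iff_eq_mul.1 hz).symm)
    (mem_centralizer_singleton_iff.2 (mem_centralizer_singleton_iff.1 hg).symm) hs)).symm

theorem V_sylow (hu : u ∈ P) (hu' : u ∉ zpowers z) : ¬ 3 ∣ (P ⊓ C₁(u)).relIndex C₁(u) := by
  obtain ⟨Q, hQ, h1, h2, h3⟩ := exists_sylow_le_of_le (h.pg.to_inf_left (K := C₁(u)))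
    (inf_le_right : P ⊓ C₁(u) ≤ C₁(u))
  obtain ⟨g, hg⟩ := exists_map_conj_le_sylow hQ (h.pg.toSylow h.idx)
  change _ ≤ P at hg
  have huQ : u ∈ Q := h1 ⟨hu, mem_centralizer_singleton_iff.2 rfl⟩
  by_cases e : Q.map (MulAut.conj g).toMonoidHom = P
  · refine absurd (isConj_iff.2 ⟨g, rfl⟩) (h.not_isConj hu hu' (h.cent _ (hg
      (conj_mem_map_conj.2 huQ)) fun y hy => ?_))
    rw [← e, mem_map_conj] at hy
    have := mem_centralizer_singleton_iff.1 (h2 hy)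
    calc y * (g * u * g⁻¹) * y⁻¹ = g * (g⁻¹ * y * g * u) * g⁻¹ * y⁻¹ := by group
      _ = _ := by rw [this]; group
  · have h4 := h.card_dvd_nine hg e
    rw [card_map_conj] at h4
    rwa [eq_of_le_of_card_ge h1 (by rw [h.card_V hu hu']; exact Nat.le_of_dvd (by norm_num) h4)]

theorem nilp (hu : u ∈ P) (hu' : u ∉ zpowers z) : HasNormalPComplement 3 C₁(u) := by
  refine hasNormalPComplement_of_normalizer_le_centralizer
    (((h.pg.to_inf_left (K := C₁(u))).comap_subtype (K := C₁(u))).toSylow (h.V_sylow hu hu'))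
    fun n hn s hs => Subtype.ext ?_
  have hz : (⟨z, mem_centralizer_singleton_iff.2 (h.zc hu).symm⟩ : C₁(u)) ∈
      (P ⊓ C₁(u)).subgroupOf C₁(u) := ⟨h.mem, mem_centralizer_singleton_iff.2 (h.zc hu).symm⟩
  have h1 : (n : G) * z * (n : G)⁻¹ ∈ P := (conj_mem_of_mem_normalizer hn hz).1
  have h2 := h.V_fix hu hu' (h.eq_of_isConj (mem_zpowers z) h1
    (isConj_iff.2 ⟨(n : G), rfl⟩).symm) n.2 s hs
  exact (mul_inv_eq_iff_eq_mul.1 h2).symm

open scoped Pointwise in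
/-- `N(P)` controls fusion in `P`. -/
theorem fusion (hu : u ∈ P) (hu' : u ∉ zpowers z) (hv : v ∈ P) (hi : IsConj u v) :
    v ∈ cjOrbit N(P) u := by
  have hv' : v ∉ zpowers z := fun hm => h.not_isConj hu hu' hm hi
  obtain ⟨g, hg⟩ := isConj_iff.1 hi
  obtain ⟨k, hk, hz⟩ := exists_conj_mem_of_not_dvd_relIndex (h.pg.to_inf_left (K := C₁(v)))
    (h.V_sylow hv hv') (x := g * z * g⁻¹) (k := 1) (mem_centralizer_singleton_iff.2 (by
      rw [← hg, conj_mul, conj_mul, h.zc hu])) (by rw [pow_one, conj_pow, h.cube z h.mem]; group)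
  have e1 : k * g * u * (k * g)⁻¹ = v := by
    rw [← mul_inv_eq_iff_eq_mul.2 (mem_centralizer_singleton_iff.1 hk), ← hg]; group
  have e2 : k * g * z * (k * g)⁻¹ = z := by
    refine Eq.trans ?_ (h.eq_of_isConj (mem_zpowers z) hz.1 (isConj_iff.2 ⟨(k * g)⁻¹, by group⟩))
    group
  generalize k * g = a at e1 e2
  let ω : G → Set G := fun w => {y | w⁻¹ * y ∈ zpowers z}
  have hω : ∀ (b w : G), b * z * b⁻¹ = z → MulAut.conj b • ω w = ω (b * w * b⁻¹) := by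
    intro b w hb
    ext y
    rw [Set.mem_smul_set_iff_inv_smul_mem]
    change w⁻¹ * _ ∈ zpowers z ↔ _ ∈ zpowers z
    conv_rhs => rw [← hb, zpowers_conj, mem_map_conj]
    simp [mul_assoc]
  have hP : ∀ w ∈ P, ∀ b ∈ P, MulAut.conj b • ω w = ω w := by
    intro w hw b hb
    rw [hω b w (h.norm b (le_normalizer hb))]
    ext y
    have h1 := h.comm w⁻¹ (inv_mem hw) b hb
    change _ ∈ zpowers z ↔ _ ∈ zpowers z
    have : b * w⁻¹ * b⁻¹ * w⁻¹⁻¹ * (w⁻¹ * y) = (b * w * b⁻¹)⁻¹ * y := by group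
    rw [← this, mul_mem_cancel_left h1]
  obtain ⟨n, hn, e⟩ := @exists_mem_normalizer_smul_eq G _ 3 _ _ (h.pg.toSylow h.idx) (Set G)
    (MulAction.compHom (Set G) (MulAut.conj : G →* MulAut G)) (ω u) a (hP u hu) (by
      intro b hb
      change MulAut.conj b • MulAut.conj a • ω u = MulAut.conj a • ω u
      rw [hω a u e2, e1]; exact hP v hv b hb)
  change MulAut.conj n • ω u = MulAut.conj a • ω u at e
  rw [hω a u e2, e1, hω n u (h.norm n hn)] at e
  have h1 : v⁻¹ * (n * u * n⁻¹) ∈ zpowers z := by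
    have : n * u * n⁻¹ ∈ ω (n * u * n⁻¹) := by
      change _ * _ ∈ zpowers z
      rw [inv_mul_cancel]; exact one_mem _
    rw [e] at this; exact this
  obtain ⟨y, hy, e'⟩ := h.shift hv hv' h1
  exact ⟨y⁻¹ * n, mul_mem (inv_mem (le_normalizer hy)) hn, by
    rw [mul_inv_cancel_left] at e'
    calc _ = y⁻¹ * (n * u * n⁻¹) * y := by group
      _ = v := by rw [← e']; group⟩

theorem mem_of_isPElt {g : G} (hg : g ∈ N(P)) (hp : IsPElt 3 g) : g ∈ P := by
  obtain ⟨k, hk⟩ := isPElt_iff_pow_eq_one.1 hp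
  obtain ⟨n, hn, e⟩ := exists_conj_mem_of_not_dvd_relIndex h.pg (h.relIndex _ le_normalizer) hg hk
  exact (mem_normalizer_iff.1 hn g).2 e

theorem cent_le (hu : u ∈ P) (hu' : u ∉ zpowers z) : C₁(u) ⊓ N(P) ≤ P ⊔ C(P) := fun g hg => by
  refine (mem_iff_pPart_mem 3).2 ⟨mem_sup_left (h.mem_of_isPElt (pPart_mem 3 hg.2)
    (isPElt_pPart 3 g)), mem_sup_right ?_⟩
  have hx := pPrimePart_mem 3 hg
  refine mem_cent_of_series h.pg (inf_le_left : P ⊓ C₁(u) ≤ P) (isPRegular_pPrimePart 3 g)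
    (h.V_fix hu hu' (h.norm _ hx.2) hx.1) fun q hq => ⟨P.mul_mem (P.inv_mem hq)
      (conj_mem_of_mem_normalizer hx.2 hq), mem_centralizer_singleton_iff.2 ?_⟩
  generalize pPrimePart 3 g = x at hx
  have h1 := h.conj_c hx.2 (h.comm u hu q hq)
  have h2 : x⁻¹ * u * x = u := by rw [mul_assoc, ← mem_centralizer_singleton_iff.1 hx.1]; group
  have h3 : x * u * x⁻¹ = u := mul_inv_eq_iff_eq_mul.2 (mem_centralizer_singleton_iff.1 hx.1)
  have h4 : x * q * x⁻¹ * u * (x * q * x⁻¹)⁻¹ = q * u * q⁻¹ :=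
    calc _ = x * (q * (x⁻¹ * u * x) * q⁻¹ * u⁻¹) * x⁻¹ * (x * u * x⁻¹) := by group
      _ = _ := by rw [h2, h1, h3]; group
  calc _ = q⁻¹ * (x * q * x⁻¹ * u * (x * q * x⁻¹)⁻¹) * (x * q * x⁻¹) := by group
    _ = _ := by rw [h4]; group

theorem exists_of_mem_sup {t : G} (ht : t ∈ P ⊔ C(P)) : ∃ p ∈ P, ∀ y ∈ P, t * y * t⁻¹ = p * y * p⁻¹ := by
  obtain ⟨p, hp, c, hc, rfl⟩ := (mem_sup_of_le_normalizer
    (le_normalizer.trans (normalizer_le_normalizer_centralizer P))).1 ht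
  exact ⟨p, hp, fun y hy => by rw [mul_assoc p, ← hc y hy]; group⟩

theorem sup_le_norm : P ⊔ C(P) ≤ N(P) := sup_le le_normalizer (centralizer_le_normalizer _)

theorem ncard_orbit (hu : u ∈ P) (hu' : u ∉ zpowers z) :
    (cjOrbit N(P) u).ncard = 3 * (P ⊔ C(P)).relIndex N(P) := by
  have h1 : cjOrbit (P ⊔ C(P)) u = cjOrbit P u := by
    refine Set.Subset.antisymm ?_ fun y ⟨t, ht, e⟩ => ⟨t, mem_sup_left ht, e⟩
    rintro _ ⟨t, ht, rfl⟩
    obtain ⟨p, hp, e⟩ := h.exists_of_mem_sup ht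
    exact ⟨p, hp, (e u hu).symm⟩
  have h2 := card_inf_mul_relIndex C₁(u) P
  rw [inf_comm, h.card_V hu hu', h.card, ← ncard_cjOrbit, ← h1, ncard_cjOrbit] at h2
  rw [ncard_cjOrbit, ← inf_relIndex_right, ← relIndex_mul_relIndex _ _ _ (h.cent_le hu hu')
    h.sup_le_norm, ← inf_relIndex_right, inf_assoc, inf_eq_right.2 h.sup_le_norm,
    inf_relIndex_right]
  congr 1; omega

theorem not_mem_conj {g : G} (hg : g ∈ N(P)) (hu' : u ∉ zpowers z) : g * u * g⁻¹ ∉ zpowers z :=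
  fun hm => hu' <| by
    rw [← h.conj_c (inv_mem hg) hm] at hm
    simpa [mul_assoc] using hm

theorem inv_mem_orbit (he : Even ((P ⊔ C(P)).relIndex N(P))) (hu : u ∈ P) (hu' : u ∉ zpowers z) :
    u⁻¹ ∈ cjOrbit N(P) u := by
  have : ((P ⊔ C(P)).subgroupOf N(P)).Normal := (normal_subgroupOf_iff_le_normalizer
    h.sup_le_norm).2 (le_normalizer_sup le_rfl (normalizer_le_normalizer_centralizer P))
  obtain ⟨τ, hτ⟩ := exists_prime_orderOf_dvd_card' (G := N(P) ⧸ (P ⊔ C(P)).subgroupOf N(P)) 2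
    (by rw [← index_eq_card]; exact he.two_dvd)
  obtain ⟨t, rfl⟩ := QuotientGroup.mk_surjective τ
  have h1 : (t : G) ∉ P ⊔ C(P) := fun hm => by
    rw [(QuotientGroup.eq_one_iff t).2 hm, orderOf_one] at hτ; omega
  have h2 : (t : G) * t ∈ P ⊔ C(P) := by
    have := hτ ▸ pow_orderOf_eq_one (t : N(P) ⧸ (P ⊔ C(P)).subgroupOf N(P))
    rw [pow_two, ← QuotientGroup.mk_mul, QuotientGroup.eq_one_iff] at this
    exact this
  obtain ⟨t, ht⟩ := t
  change t ∉ _ at h1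
  obtain ⟨p, hp, e⟩ := h.exists_of_mem_sup h2
  have hv := conj_mem_of_mem_normalizer ht hu
  have hw : u * (t * u * t⁻¹) ∈ zpowers z := by_contra fun hw => h1 <| by
    have hw' := mul_mem hu hv
    have e1 : t * (u * (t * u * t⁻¹)) * t⁻¹ = (t * u * t⁻¹) * (p * u * p⁻¹) := by
      rw [← e u hu]; group
    have c1 := h.comm u hu p hp
    have c2 := h.comm u hu _ hv
    obtain ⟨y, hy, e2⟩ := h.shift hw' hw (mul_mem c2 c1)
    have e3 : y⁻¹ * t ∈ C₁(u * (t * u * t⁻¹)) := by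
      rw [mem_centralizer_singleton_iff, ← mul_inv_eq_iff_eq_mul]
      have e4 : t * (u * (t * u * t⁻¹)) * t⁻¹ = y * (u * (t * u * t⁻¹)) * y⁻¹ := by
        rw [e1, e2, h.cc hw' (mul_mem c2 c1)]
        generalize t * u * t⁻¹ = v at *
        have := h.cc (mul_mem hu hv) c1
        calc v * (p * u * p⁻¹) = v * ((p * u * p⁻¹ * u⁻¹) * u) := by group
          _ = (p * u * p⁻¹ * u⁻¹) * (v * u * v⁻¹ * u⁻¹) * (u * v) := by
            rw [← mul_assoc, h.cc hv c1]; group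
          _ = _ := by rw [h.cc (h.zle c1) c2]
      calc _ = y⁻¹ * (t * (u * (t * u * t⁻¹)) * t⁻¹) * y := by group
        _ = _ := by rw [e4]; group
    exact (mul_mem_cancel_left (inv_mem (mem_sup_left hy))).1
      (h.cent_le hw' hw (mem_inf.2 ⟨e3, mul_mem (inv_mem (le_normalizer hy)) ht⟩))
  obtain ⟨y, hy, e2⟩ := h.shift (inv_mem hu) (fun hm => hu' (inv_mem_iff.1 hm)) hw
  exact ⟨y⁻¹ * t, mul_mem (inv_mem (le_normalizer hy)) ht, by
    rw [inv_mul_cancel_left] at e2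
    calc _ = y⁻¹ * (t * u * t⁻¹) * y := by group
      _ = _ := by rw [← e2]; group⟩

theorem hasNormalPComplement (he : (P ⊔ C(P)).relIndex N(P) = 1) : HasNormalPComplement 3 G := by
  refine hasNormalPComplement_of_fusion (h.pg.toSylow h.idx) fun x hx g hg => ?_
  by_cases hx' : x ∈ zpowers z
  · exact ⟨1, one_mem _, by
      rw [h.eq_of_isConj hx' hg (isConj_iff.2 ⟨g, rfl⟩).symm]; simp⟩
  · obtain ⟨n, hn, e⟩ := h.fusion hx hx' hg (isConj_iff.2 ⟨g, rfl⟩)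
    obtain ⟨p, hp, e'⟩ := h.exists_of_mem_sup (relIndex_eq_one.1 he hn)
    exact ⟨p, hp, (e' x hx).symm.trans e⟩

theorem factorization_eq {H Q : Subgroup G} (hQ : Q ≤ H) (hi : ¬ 3 ∣ Q.relIndex H) {k : ℕ}
    (hk : Nat.card Q = 3 ^ k) : (Nat.card H).factorization 3 = k := by
  rw [← card_mul_relIndex hQ, hk, Nat.factorization_mul (by positivity) (relIndex_pos _ _).ne',
    Finsupp.add_apply, Nat.factorization_eq_zero_of_not_dvd hi, Nat.prime_three.factorization_pow]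
  simp

theorem ext27 {U : Finset G} (h1 : ∀ u ∈ U, u ∈ P ∧ u ∉ zpowers z)
    (h2 : ∀ x ∈ P, x ∉ zpowers z → ∃ u ∈ U, IsConj x u)
    (h3 : ∀ u ∈ U, ∀ v ∈ U, v ∈ cjOrbit N(P) u → v = u) : Ext27 z U where
  z_ne := h.ne
  z_cube := h.cube z h.mem
  card := by
    rw [← card_top (G := G)]; exact h.factorization_eq le_top (h.relIndex _ le_top) h.card
  cardz := h.factorization_eq h.le_cent (h.relIndex _ h.le_cent) h.card
  cube u hu := h.cube u (h1 u hu).1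
  nilp u hu := h.nilp (h1 u hu).1 (h1 u hu).2
  cardu u hu := h.factorization_eq inf_le_right (h.V_sylow (h1 u hu).1 (h1 u hu).2)
    (h.card_V (h1 u hu).1 (h1 u hu).2)
  shift u hu := h.isConj_shift (h1 u hu).1 (h1 u hu).2 (mem_zpowers z)
  reps g hg := by
    have hz : ∀ x, x ∈ insert 1 (insert z (insert z⁻¹ U)) → x ∈ zpowers z ∨ x ∈ U := by
      simp only [Finset.mem_insert]
      rintro x (rfl | rfl | rfl | hx)
      exacts [.inl (one_mem _), .inl (mem_zpowers _), .inl (inv_mem (mem_zpowers _)), .inr hx]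
    refine existsUnique_of_exists_of_unique ?_ fun x y ⟨hx, hx'⟩ ⟨hy, hy'⟩ => ?_
    · obtain ⟨a, ha⟩ := hg.exists_conj_mem (h.pg.toSylow h.idx)
      have hi : IsConj g (a * g * a⁻¹) := isConj_iff.2 ⟨a, rfl⟩
      by_cases hm : a * g * a⁻¹ ∈ zpowers z
      · refine ⟨_, ?_, hi⟩
        rcases mem_zpowers_of_cube (h.cube z h.mem) hm with e | e | e <;> simp [e]
      · obtain ⟨u, hu, hc⟩ := h2 _ ha hm
        exact ⟨u, by simp [hu], hi.trans hc⟩
    · have hi := hx'.symm.trans hy'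
      rcases hz x hx with hx | hx <;> rcases hz y hy with hy | hy
      · exact h.eq_of_isConj hy (h.zle hx) hi
      · exact (h.eq_of_isConj hx (h1 y hy).1 hi.symm).symm
      · exact h.eq_of_isConj hy (h1 x hx).1 hi
      · exact h3 y hy x hx (h.fusion (h1 y hy).1 (h1 y hy).2 (h1 x hx).1 hi.symm)

theorem norm_le : N(P) ≤ C₁(z) := fun g hg =>
  mem_centralizer_singleton_iff.2 (mul_inv_eq_iff_eq_mul.1 (h.norm g hg))

theorem subgroupOf {H : Subgroup G} (hH : P ≤ H) : X27 (P.subgroupOf H) ⟨z, hH h.mem⟩ := by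
  have hz : ∀ x : H, (x : G) ∈ zpowers z → x ∈ zpowers (⟨z, hH h.mem⟩ : H) :=
    fun x ⟨n, e⟩ => ⟨n, Subtype.ext e⟩
  exact ⟨h.pg.comap_subtype, h.relIndex H hH, (card_subgroupOf_of_le hH).trans h.card,
    fun x hx => Subtype.ext (h.cube x hx), h.mem, fun e => h.ne (congrArg Subtype.val e),
    fun x hx hc => hz x (h.cent x hx fun y hy => congrArg Subtype.val (hc ⟨y, hH hy⟩ hy)),
    fun x hx y hy => hz _ (h.comm x hx y hy),
    fun g hg => Subtype.ext (h.norm g (by rwa [← subgroupOf_normalizer_eq hH] at hg))⟩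

theorem exists_reps : ∃ U : Finset G, (∀ u ∈ U, u ∈ P ∧ u ∉ zpowers z) ∧
    (∀ x ∈ P, x ∉ zpowers z → ∃ u ∈ U, u ∈ cjOrbit N(P) x) ∧
    (∀ u ∈ U, ∀ v ∈ U, v ∈ cjOrbit N(P) u → v = u) ∧ U.card * (P ⊔ C(P)).relIndex N(P) = 8 := by
  let r : G → G := fun x => Classical.epsilon (· ∈ cjOrbit N(P) x)
  have hr : ∀ x, r x ∈ cjOrbit N(P) x := fun x =>
    Classical.epsilon_spec (p := (· ∈ cjOrbit N(P) x)) ⟨x, self_mem_cjOrbit _ x⟩
  have hr' : ∀ x y, y ∈ cjOrbit N(P) x → r y = r x := fun x y e => by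
    simp only [r, cjOrbit_eq_of_mem e]
  let S : Finset G := ((P : Set G) \ zpowers z).toFinite.toFinset
  have hS : ∀ x, x ∈ S ↔ x ∈ P ∧ x ∉ zpowers z := fun x => by simp [S]
  have hS' : ∀ x ∈ S, ∀ y ∈ cjOrbit N(P) x, y ∈ S := by
    rintro x hx _ ⟨n, hn, rfl⟩
    rw [hS] at hx ⊢
    exact ⟨conj_mem_of_mem_normalizer hn hx.1, h.not_mem_conj hn hx.2⟩
  refine ⟨S.image r, fun u hu => ?_, fun x hx hx' => ⟨r x, Finset.mem_image_of_mem _
    ((hS x).2 ⟨hx, hx'⟩), hr x⟩, fun u hu v hv e => ?_, ?_⟩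
  · obtain ⟨x, hx, rfl⟩ := Finset.mem_image.1 hu
    exact (hS _).1 (hS' x hx _ (hr x))
  · obtain ⟨x, hx, rfl⟩ := Finset.mem_image.1 hu
    obtain ⟨y, hy, rfl⟩ := Finset.mem_image.1 hv
    rw [← hr' y _ (hr y), hr' _ _ e, hr' x _ (hr x)]
  · have h1 : S.card = 24 := by
      rw [← Set.ncard_eq_toFinset_card _ _, Set.ncard_sdiff h.zle, ← Nat.card_coe_set_eq,
        ← Nat.card_coe_set_eq]
      exact congrArg₂ (· - ·) h.card h.card_z
    rw [Finset.card_eq_sum_card_image r, Finset.sum_const_nat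
      (m := 3 * (P ⊔ C(P)).relIndex N(P))] at h1
    · linarith
    intro u hu
    obtain ⟨x, hx, rfl⟩ := Finset.mem_image.1 hu
    rw [← h.ncard_orbit ((hS x).1 hx).1 ((hS x).1 hx).2, ← Set.ncard_coe_finset]
    congr 1
    ext y
    simp only [Finset.coe_filter, Set.mem_ofPred_eq]
    refine ⟨fun ⟨_, e⟩ => ?_, fun hy => ⟨hS' x hx y hy, hr' x y hy⟩⟩
    rw [← cjOrbit_eq_of_mem (hr x), ← e, cjOrbit_eq_of_mem (hr y)]
    exact self_mem_cjOrbit _ y

end X27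

theorem exists_x27 {G : Type u} [Group G] [Finite G] (P : Sylow 3 G)
    (hE : IsExtraspecial 3 (P : Subgroup G)) (h27 : Nat.card (P : Subgroup G) = 27)
    (hexp : ∀ x ∈ (P : Subgroup G), x ^ 3 = 1)
    (hNC : ∀ g ∈ Subgroup.normalizer ((P : Subgroup G) : Set G), ∀ z ∈ (P : Subgroup G),
      (∀ y ∈ (P : Subgroup G), z * y = y * z) → g * z = z * g) : ∃ z, X27 (P : Subgroup G) z := by
  obtain ⟨⟨-, -, hc⟩, h3⟩ := hE
  obtain ⟨z, hz, hz1⟩ : ∃ z ∈ center (P : Subgroup G), z ≠ 1 := by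
    by_contra! hn
    rw [(eq_bot_iff_forall _).2 hn, card_bot] at h3; omega
  have hzp : ∀ x ∈ center (P : Subgroup G), (x : G) ∈ zpowers (z : G) := fun x hx => by
    obtain ⟨n, e⟩ := mem_zpowers_of_prime_card (G := center (P : Subgroup G)) (g := ⟨z, hz⟩)
      (g' := ⟨x, hx⟩) h3 fun e => hz1 (congrArg Subtype.val e)
    exact ⟨n, congrArg (fun y : center (P : Subgroup G) => ((y : (P : Subgroup G)) : G)) e⟩
  refine ⟨z, P.isPGroup', P.not_dvd_index, h27, hexp, z.2, fun e => hz1 (Subtype.ext e),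
    fun x hx h => hzp ⟨x, hx⟩ (mem_center_iff.2 fun y =>
      Subtype.ext (mul_inv_eq_iff_eq_mul.1 (h y y.2))),
    fun x hx y hy => hzp ⁅(⟨y, hy⟩ : (P : Subgroup G)), ⟨x, hx⟩⁆
      (hc ▸ commutator_mem_commutator (mem_top _) (mem_top _)),
    fun g hg => mul_inv_eq_iff_eq_mul.2 (hNC g hg z z.2 fun y hy =>
      congrArg Subtype.val (mem_center_iff.1 hz ⟨y, hy⟩).symm)⟩

theorem exists_ext27 {G : Type u} [Group G] [Finite G] (P : Sylow 3 G)
    (hE : IsExtraspecial 3 (P : Subgroup G)) (h27 : Nat.card (P : Subgroup G) = 27)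
    (hexp : ∀ x ∈ (P : Subgroup G), x ^ 3 = 1)
    (hNC : ∀ g ∈ Subgroup.normalizer ((P : Subgroup G) : Set G), ∀ z ∈ (P : Subgroup G),
      (∀ y ∈ (P : Subgroup G), z * y = y * z) → g * z = z * g) {e : ℕ}
    (he : ((P : Subgroup G) ⊔ Subgroup.centralizer ((P : Subgroup G) : Set G)).relIndex
      (Subgroup.normalizer ((P : Subgroup G) : Set G)) = e) :
    ∃ (z : G) (U : Finset G) (U' : Finset (Subgroup.centralizer ({z} : Set G))),
      Ext27 z U ∧
      Ext27 (⟨z, Subgroup.mem_centralizer_singleton_iff.2 rfl⟩ :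
        Subgroup.centralizer ({z} : Set G)) U' ∧
      U'.card = U.card ∧ U.card * e = 8 ∧
      (Even e → (∀ u ∈ U, IsConj u u⁻¹) ∧ ∀ u ∈ U', IsConj u u⁻¹) ∧
      (e = 1 → HasNormalPComplement 3 G) := by
  obtain ⟨z, h⟩ := exists_x27 P hE h27 hexp hNC
  obtain ⟨U, h1, h2, h3, h4⟩ := h.exists_reps
  subst he
  refine ⟨z, U, U.subtype (· ∈ C₁(z)), h.ext27 h1 (fun x hx hx' => ?_) h3,
    (h.subgroupOf h.le_cent).ext27 (fun u hu => ?_) (fun x hx hx' => ?_) fun u hu v hv e => ?_,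
    ?_, h4, fun he => ⟨fun u hu => ?_, fun u hu => ?_⟩, h.hasNormalPComplement⟩
  · obtain ⟨u, hu, n, -, e⟩ := h2 x hx hx'
    exact ⟨u, hu, isConj_iff.2 ⟨n, e⟩⟩
  · have := h1 u (Finset.mem_subtype.1 hu)
    exact ⟨this.1, fun ⟨n, e⟩ => this.2 ⟨n, congrArg Subtype.val e⟩⟩
  · obtain ⟨u, hu, n, hn, e⟩ := h2 x hx fun ⟨n, e⟩ => hx' ⟨n, Subtype.ext e⟩
    exact ⟨⟨u, h.le_cent (h1 u hu).1⟩, Finset.mem_subtype.2 hu,
      isConj_iff.2 ⟨⟨n, h.norm_le hn⟩, Subtype.ext e⟩⟩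
  · obtain ⟨n, hn, e⟩ := e
    rw [← subgroupOf_normalizer_eq h.le_cent] at hn
    exact Subtype.ext (h3 u (Finset.mem_subtype.1 hu) v (Finset.mem_subtype.1 hv)
      ⟨n, hn, congrArg Subtype.val e⟩)
  · rw [Finset.card_subtype, Finset.filter_true_of_mem fun u hu => h.le_cent (h1 u hu).1]
  · obtain ⟨n, -, e⟩ := h.inv_mem_orbit he (h1 u hu).1 (h1 u hu).2
    exact isConj_iff.2 ⟨n, e⟩
  · have := h1 u (Finset.mem_subtype.1 hu)
    obtain ⟨n, hn, e⟩ := h.inv_mem_orbit he this.1 this.2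
    exact isConj_iff.2 ⟨⟨n, h.norm_le hn⟩, Subtype.ext e⟩

end Cfsg

set_option linter.all false in
theorem Cfsg.Rz.Grp_Ext27_0 : True := by
  have := @_root_.Cfsg.Ext27.mk.congr_simp.{0}
  have := @_root_.Cfsg.X27.mk.congr_simp.{0}
  trivial
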