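import Cfsg.Agent.Grp.Ord32

/-!
# Two-generated `2`-groups of order at most 64
-/

set_option autoImplicit false
set_option linter.unusedSectionVars false

namespace Cfsg

open Subgroup GA

universe u v

local notation "C(" Q ")" => Subgroup.centralizer ((Q : Subgroup _) : Set _)
local notation "N(" Q ")" => Subgroup.normalizer ((Q : Subgroup _) : Set _)

variable {G : Type u} [Group G] [Finite G] {A F H K L M P Q R : Subgroup G}
  {a b c d g m q s t u v w x y z : G} {n : ℕ}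

/-- Elements normalizing `L` and commuting with `q` modulo `L`. -/
def cmod (L : Subgroup G) (q : G) : Subgroup G where
  carrier := {g | g ∈ N(L) ∧ q⁻¹ * (g * q * g⁻¹) ∈ L}
  one_mem' := ⟨one_mem _, by simp⟩
  mul_mem' {g h} hg hh := ⟨mul_mem hg.1 hh.1, by
    convert mul_mem hg.2 (conj_mem_of_mem_normalizer hg.1 hh.2) using 1; group⟩
  inv_mem' {g} hg := ⟨inv_mem hg.1, by
    convert conj_mem_of_mem_normalizer (inv_mem hg.1) (inv_mem hg.2) using 1; group⟩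

theorem cmod_symm (hq : q ∈ N(L)) (hg : g ∈ cmod L q) : q ∈ cmod L g := ⟨hq, by
  convert conj_mem_of_mem_normalizer (mul_mem (inv_mem hg.1) hq) (inv_mem hg.2) using 1; group⟩

theorem mem_cmod_of_comm (hg : g ∈ N(L)) (h : g * q = q * g) : g ∈ cmod L q := ⟨hg, by simp [h]⟩

theorem le_of_gen (h : closure {x, y} = P) (hx : x ∈ R) (hy : y ∈ R) : P ≤ R :=
  h ▸ (closure_le R).2 (Set.pair_subset hx hy)

theorem mem_of_gen (h : closure {x, y} = P) : x ∈ P ∧ y ∈ P :=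
  h ▸ ⟨subset_closure (.inl rfl), subset_closure (.inr rfl)⟩

theorem comm_mem_of_gen (h : closure {x, y} = P) (hL : P ≤ N(L)) (h1 : y⁻¹ * (x * y * x⁻¹) ∈ L)
    (ha : a ∈ P) (hg : g ∈ P) : a⁻¹ * (g * a * g⁻¹) ∈ L :=
  have hx := hL (mem_of_gen h).1
  have hy := hL (mem_of_gen h).2
  have h2 : x ∈ cmod L y := ⟨hx, h1⟩
  (le_of_gen (R := cmod L a) h (cmod_symm hx (le_of_gen h (mem_cmod_of_comm hx rfl) (cmod_symm hy h2) ha))
    (cmod_symm hy (le_of_gen h h2 (mem_cmod_of_comm hy rfl) ha)) hg).2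

theorem comm_mem (ha : a ∈ P) (hg : g ∈ P) : a⁻¹ * (g * a * g⁻¹) ∈ ⁅P, P⁆ := by
  simpa [commutatorElement_def, mul_assoc] using commutator_mem_commutator (inv_mem ha) hg

theorem commutator_le_of_forall (h : ∀ a ∈ P, ∀ g ∈ P, a⁻¹ * (g * a * g⁻¹) ∈ L) : ⁅P, P⁆ ≤ L :=
  commutator_le.2 fun a ha g hg => by
    simpa [commutatorElement_def, mul_assoc] using h _ (inv_mem ha) g hg

theorem cent_of_gen (h : closure {x, y} = P) (hx : x * a = a * x) (hy : y * a = a * y) : a ∈ C(P) :=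
  fun _ hg => mem_cent_zpowers.1 (le_of_gen h (mem_cent_zpowers.2 hx) (mem_cent_zpowers.2 hy) hg)

theorem Idx2.exists_gen (I : Idx2 H P) (h : closure {a, b} = P) : ∃ x, ∃ y ∈ H, closure {x, y} = P := by
  by_cases hb : b ∈ H
  · exact ⟨a, b, hb, h⟩
  by_cases ha : a ∈ H
  · exact ⟨b, a, ha, Set.pair_comm a b ▸ h⟩
  obtain ⟨h1, h2⟩ := mem_of_gen h
  exact ⟨a, a * b, I.mul a h1 b h2 ha hb, ((closure_le P).2 (Set.pair_subset h1 (mul_mem h1 h2))).antisymm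
    (le_of_gen h (mem_of_gen rfl).1 ((mul_mem_cancel_left (mem_of_gen rfl).1).1 (mem_of_gen rfl).2))⟩

theorem Idx2.comm_mem (I : Idx2 H P) (ha : a ∈ P) (hg : g ∈ P) : a⁻¹ * (g * a * g⁻¹) ∈ H :=
  (em _).elim (fun e => mul_mem (inv_mem e) (I.conj_mem hg e)) fun e =>
    I.inv_mul ha (mul_mem (mul_mem hg ha) (inv_mem hg)) e (I.conj_notMem hg e)

theorem Idx2.le_of_mem (I : Idx2 H P) (h : H ≤ R) (hv : v ∈ P) (hv' : v ∉ H) (h1 : v ∈ R) : P ≤ R :=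
  fun g hg => (em _).elim (@h g) fun e => (mul_mem_cancel_left h1).1 (h (I.mul v hv g hg hv' e))

theorem mem_normalizer_sup (hg : g ∈ N(A)) (h : g * u * g⁻¹ ∈ zpowers u ⊔ A) : g ∈ N(zpowers u ⊔ A) :=
  mem_normalizer_of_forall_conj_mem fun _ ha => (sup_le (zpowers_le.2 h) fun _ hb => mem_sup_right
    (conj_mem_of_mem_normalizer hg hb) : _ ≤ (zpowers u ⊔ A).comap (MulAut.conj g).toMonoidHom) ha

theorem idx2_cent_of_conj (h : ∀ g ∈ P, g * d * g⁻¹ = d ∨ g * d * g⁻¹ = d * z) (h1 : z * z = 1)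
    (h2 : z ∈ C(P)) : Idx2 (P ⊓ C(zpowers d)) P := ⟨inf_le_left, fun v hv w hw hv' hw' => ⟨mul_mem hv hw,
  mem_cent_zpowers.2 (conj_eq_iff_comm.1 (by
    have key : ∀ g ∈ P, g ∉ P ⊓ C(zpowers d) → g * d * g⁻¹ = d * z := fun g hg e => (h g hg).resolve_left
      fun e' => e ⟨hg, mem_cent_zpowers.2 (conj_eq_iff_comm.1 e')⟩
    rw [mul_inv_rev, ← mul_assoc, mul_assoc v, mul_assoc v, key w hw hw', ← conj_mul, key v hv hv',
      conj_eq_of_mem_cent h2 hv, mul_assoc, h1, mul_one]))⟩⟩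

theorem exists_rel (hP : IsPGroup 2 P) (h : closure {a, b} = P) (h4 : Nat.card (⁅P, P⁆ :) = 4)
    (hn : ¬ ⁅P, P⁆ ≤ C(P)) : ∃ x y c z : G, Subgroup.closure {x, y} = P ∧ x * y * x⁻¹ = y * c ∧ y * c = c * y ∧
      x * c * x⁻¹ = c * z ∧ orderOf z = 2 ∧ z ∈ C(P) ∧ c ∈ ⁅P, P⁆ ∧ c * c ∈ zpowers z := by
  have h1 : ⁅P, P⁆ ≤ P := commutator_le_of_forall fun a ha g hg =>
    mul_mem (inv_mem ha) (mul_mem (mul_mem hg ha) (inv_mem hg))
  have h2 := normalizer_commutator_ge_left P P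
  obtain ⟨z, hz, h3⟩ := exists_mem_orderOf_eq_prime (dvd_card_of_isPGroup_of_ne_bot
    (hP.to_le (inf_le_left.trans h1)) (inf_centralizer_ne_bot_of_isPGroup (hP.to_le h1) hP h2
      fun e => by simp [e] at h4))
  have I := idx2_of_card (zpowers_le.2 hz.1) (by rw [h4, Nat.card_zpowers, h3])
  have h5 : ∀ k ∈ ⁅P, P⁆, ∀ g ∈ P, g * k * g⁻¹ = k ∨ g * k * g⁻¹ = k * z := fun k hk g hg => (em _).elim
    (fun e => .inl (conj_eq_of_mem_cent (zpowers_le.2 hz.2 e) hg)) fun e =>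
    (eq_one_or_eq_of_mem_zpowers_of_orderOf_two h3 (I.inv_mul hk (conj_mem_of_mem_normalizer (h2 hg) hk) e
      fun e' => e ((MulAut.conj g).injective (conj_eq_of_mem_cent (zpowers_le.2 hz.2 e') hg) ▸ e'))).imp
      (fun e => (inv_mul_eq_one.1 e).symm) inv_mul_eq_iff_eq_mul.1
  obtain ⟨d, hd, hd'⟩ := SetLike.not_le_iff_exists.1 hn
  obtain ⟨x, y, hy, h6⟩ := (idx2_cent_of_conj (h5 d hd) (mul_self_of_orderOf_eq_two h3) hz.2).exists_gen h
  have hx := (mem_of_gen h6).1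
  have h7 := comm_mem hy.1 hx
  have h8 : y⁻¹ * (x * y * x⁻¹) ∉ zpowers z := fun e => by
    have := card_le_of_le (commutator_le_of_forall fun _ ha _ => comm_mem_of_gen h6
      ((le_cent_zpowers hz.2).trans (centralizer_le_normalizer' _)) e ha)
    rw [h4, Nat.card_zpowers, h3] at this
    omega
  have h9 : ∀ k ∈ ⁅P, P⁆, y * k = k * y := fun k hk => (I.mem_cent hd (fun e => hd' (zpowers_le.2 hz.2 e))
    (le_cent_zpowers hz.2 hy.1) (mem_cent_zpowers.1 hy.2).symm k hk).symm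
  refine ⟨x, y, _, z, h6, (mul_inv_cancel_left _ _).symm, h9 _ h7, (h5 _ h7 x hx).resolve_left fun e =>
    hn (I.le_of_mem (zpowers_le.2 hz.2) h7 h8 (cent_of_gen h6 (conj_eq_iff_comm.1 e) (h9 _ h7))),
    h3, hz.2, h7, I.sq_mem h7⟩

/-- Generators and relations of groups of class three with elementary commutator subgroup of order four. -/
structure IsS6 (P : Subgroup G) (x y c z : G) : Prop where
  gen : closure {x, y} = P
  xy : x * y * x⁻¹ = y * c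
  yc : y * c = c * y
  xc : x * c * x⁻¹ = c * z
  ord : orderOf z = 2
  cent : z ∈ C(P)
  c_sq : c * c = 1

/-- The chain of subgroups of such a group. -/
structure IsS7 (P M F K : Subgroup G) (s c z : G) : Prop where
  idxM : Idx2 M P
  idxF : Idx2 F M
  idxK : Idx2 K F
  idxZ : Idx2 (P ⊓ C(P)) K
  c_mem : c ∈ K
  s_mem : s ∈ F
  z_mem : z ∈ P
  ord : orderOf z = 2
  cent : z ∈ C(P)
  c_sq : c * c = 1
  c_not : c ∉ C(P)
  s_not : s ∉ K
  K_cent : K ≤ C(M)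
  F_cent : F ≤ C(F)
  conj_c : ∀ v ∈ P, v ∉ M → v * c * v⁻¹ = c * z
  conj_s : ∀ m ∈ M, m ∉ F → s * m * s⁻¹ = m * z
  F_mod : ∀ v ∈ F, ∀ g ∈ P, g ∈ cmod (zpowers z) v
  comm : ∀ a ∈ P, ∀ g ∈ P, a⁻¹ * (g * a * g⁻¹) ∈ K
  comm_not : ∀ m ∈ M, m ∉ F → ∀ v ∈ P, v ∉ M → v ∉ cmod (zpowers z) m
  sq_M : ∀ m ∈ M, m * m ∈ C(P)
  sq_out : ∀ v ∈ P, v ∉ M → v * v ∈ F ∧ v * v ∉ K
  exM : ∃ v ∈ P, v ∉ M
  exF : ∃ v ∈ M, v ∉ F

theorem IsS6.isS7 (h : IsS6 P x y c z) : ∃ M F K, IsS7 P M F K (x * x) c z := by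
  obtain ⟨hx, hy⟩ := mem_of_gen h.gen
  have hc : c ∈ P := (mul_mem_cancel_left hy).1 (h.xy ▸ mul_mem (mul_mem hx hy) (inv_mem hx))
  have hz : z ∈ P := (mul_mem_cancel_left hc).1 (h.xc ▸ mul_mem (mul_mem hx hc) (inv_mem hx))
  have h1 := mul_self_of_orderOf_eq_two h.ord
  have h2 : z ≠ 1 := fun e => by simpa [e] using h.ord
  have h3 : x * x * y * (x * x)⁻¹ = y * z := by
    rw [show x * x * y * (x * x)⁻¹ = x * (x * y * x⁻¹) * x⁻¹ by group, h.xy, ← conj_mul, h.xy, h.xc,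
      mul_assoc, ← mul_assoc c, h.c_sq, one_mul]
  have h4 : x * x * c = c * (x * x) := conj_eq_iff_comm.1 (by
    rw [show x * x * c * (x * x)⁻¹ = x * (x * c * x⁻¹) * x⁻¹ by group, h.xc, ← conj_mul, h.xc,
      conj_eq_of_mem_cent h.cent hx, mul_assoc, h1, mul_one])
  have h5 : y * y ∈ C(P) := cent_of_gen h.gen (conj_eq_iff_comm.1 (by
    rw [← conj_mul, h.xy, mul_assoc, ← mul_assoc c, ← h.yc, mul_assoc y, h.c_sq, mul_one])) (mul_assoc _ _ _).symm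
  have h6 : x * x * (x * x) ∈ C(P) := cent_of_gen h.gen (by simp only [mul_assoc]) (conj_eq_iff_comm.1 (by
    rw [show x * x * (x * x) * y * (x * x * (x * x))⁻¹ = x * x * (x * x * y * (x * x)⁻¹) * (x * x)⁻¹ by group,
      h3, ← conj_mul, h3, conj_eq_of_mem_cent h.cent (mul_mem hx hx), mul_assoc, h1, mul_one])).symm
  have h7 : P ≤ C(P ⊓ C(P)) := fun g hg a ha => (ha.2 g hg).symm
  have h8 := h7.trans (centralizer_le_normalizer' _)
  obtain ⟨K, hK⟩ : ∃ K, K = zpowers c ⊔ P ⊓ C(P) := ⟨_, rfl⟩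
  have IK : Idx2 _ K := hK ▸ idx2_zpowers_sup (h.c_sq ▸ one_mem _) (h8 hc)
  have hcK : c ∈ K := hK ▸ mem_sup_left (mem_zpowers c)
  have hzK : z ∈ K := IK.le ⟨hz, h.cent⟩
  have hKN : P ≤ N(K) := hK ▸ le_of_gen h.gen (mem_normalizer_sup (h8 hx) (by
    rw [h.xc, ← hK]; exact mul_mem hcK hzK)) (mem_normalizer_sup (h8 hy) (by simpa [h.yc, ← hK]))
  have h9 : ∀ g ∈ P, g * c = c * g → g ∈ C(K) := fun g hg e => by
    rw [hK, centralizer_sup]; exact ⟨mem_cent_zpowers.2 e, h7 hg⟩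
  obtain ⟨F, hF⟩ : ∃ F, F = zpowers (x * x) ⊔ K := ⟨_, rfl⟩
  have IF : Idx2 _ F := hF ▸ idx2_zpowers_sup (IK.le ⟨mul_mem (mul_mem hx hx) (mul_mem hx hx), h6⟩)
    (hKN (mul_mem hx hx))
  have hsF : x * x ∈ F := hF ▸ mem_sup_left (mem_zpowers _)
  have hcomm := fun a ha g => comm_mem_of_gen (a := a) (g := g) h.gen hKN (by simpa [h.xy]) ha
  have hKP : K ≤ P := hK ▸ sup_le (zpowers_le.2 hc) inf_le_left
  have hFP : F ≤ P := hF ▸ sup_le (zpowers_le.2 (mul_mem hx hx)) hKP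
  have hN : ∀ L, K ≤ L → L ≤ P → P ≤ N(L) := fun L h1 h2 g hg => mem_normalizer_of_forall_conj_mem
    fun a ha => by simpa using mul_mem ha (h1 (hcomm a (h2 ha) g hg))
  obtain ⟨M, hM⟩ : ∃ M, M = zpowers y ⊔ F := ⟨_, rfl⟩
  have IM : Idx2 _ M := hM ▸ idx2_zpowers_sup (IF.le (IK.le ⟨mul_mem hy hy, h5⟩)) (hN F IF.le hFP hy)
  have hyM : y ∈ M := hM ▸ mem_sup_left (mem_zpowers _)
  have hMP : M ≤ P := hM ▸ sup_le (zpowers_le.2 hy) hFP
  have IP : Idx2 M P := ((sup_le (zpowers_le.2 hx) hMP).antisymm (le_of_gen h.gen (mem_sup_left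
    (mem_zpowers x)) (mem_sup_right hyM))) ▸ idx2_zpowers_sup (IM.le hsF) (hN M (IF.le.trans IM.le) hMP hx)
  have h10 : M ≤ C(K) := hM ▸ sup_le (zpowers_le.2 (h9 y hy h.yc)) (hF ▸ sup_le (zpowers_le.2
    (h9 _ (mul_mem hx hx) h4)) (hK.le.trans (sup_le (zpowers_le.2 (h9 c hc rfl))
      (inf_le_right.trans (centralizer_anti hKP)))))
  have h21 : x * x ∉ K := fun e => h2 (by
    rw [conj_eq_iff_comm.2 (h10 hyM _ e)] at h3; exact left_eq_mul.1 h3)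
  have h11 : F ≤ C(F) := IF.le_cent (IF.le_of_mem (R := C(K)) (IF.le.trans (IM.le.trans h10)) hsF
    h21 (h10 (IM.le hsF)) |> le_centralizer_iff.1)
  have h12 : P ≤ N(zpowers z) := (le_cent_zpowers h.cent).trans (centralizer_le_normalizer' _)
  have h13 : ∀ v ∈ F, ∀ g ∈ P, g ∈ cmod (zpowers z) v := fun v hv => by
    have key : ∀ g ∈ P, g ∈ cmod (zpowers z) (x * x) → g ∈ cmod (zpowers z) c →
        g ∈ cmod (zpowers z) v := fun g hg e1 e2 => cmod_symm (h12 hg) ((hF.le.trans (sup_le (zpowers_le.2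
          (cmod_symm (h12 (mul_mem hx hx)) e1)) (hK.le.trans (sup_le (zpowers_le.2 (cmod_symm (h12 hc) e2))
          fun a ha => mem_cmod_of_comm (h12 ha.1) (ha.2 g hg).symm)))) hv)
    exact le_of_gen h.gen (key x hx (mem_cmod_of_comm (h12 hx) (mul_assoc _ _ _).symm) ⟨h12 hx, by
      simp [h.xc]⟩) (key y hy (cmod_symm (h12 hy) ⟨h12 (mul_mem hx hx), by rw [h3]; simp⟩)
      (mem_cmod_of_comm (h12 hy) h.yc))
  have h14 : c ∉ C(P) := fun e => h2 (by simpa [conj_eq_of_mem_cent e hx] using h.xc.symm)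
  have h15 : c ∉ zpowers z := fun e => h14 (zpowers_le.2 h.cent e)
  have h16 : y ∉ F := fun e => h15 (by simpa [h.xy] using (h13 y e x hx).2)
  have h17 : x ∉ M := fun e => h14 (cent_of_gen h.gen (h10 e c hcK).symm h.yc)
  have h18 : ∀ m ∈ M, m ∉ F → x * x * m * (x * x)⁻¹ = m * z := fun m hm hm' => by
    have := IM.inv_mul hyM hm h16 hm'
    rw [← mul_inv_cancel_left y m, ← conj_mul, h3, conj_eq_of_mem_cent (h11 this) hsF, mul_assoc,
      ← h.cent _ (hFP this), ← mul_assoc]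
  have h19 : ∀ a ∈ M, ∀ g ∈ M, g ∈ cmod (zpowers z) a := fun a ha => (em _).elim
    (fun e g hg => h13 a e g (hMP hg)) fun e => IM.le_of_mem (fun g hg => cmod_symm (h12 (hFP hg))
      (h13 g hg a (hMP ha))) ha e (mem_cmod_of_comm (h12 (hMP ha)) rfl)
  have h20 : ∀ m ∈ M, m * m ∈ C(P) := by
    have key : ∀ a ∈ M, ∀ b ∈ M, a * a ∈ C(P) → b * b ∈ C(P) → a * b * (a * b) ∈ C(P) :=
      fun a ha b hb e1 e2 => by
        rw [show a * b * (a * b) = a * a * (a⁻¹ * (b * a * b⁻¹)) * (b * b) by group]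
        exact mul_mem (mul_mem e1 (zpowers_le.2 h.cent (h19 a ha b hb).2)) e2
    have step : ∀ {A B : Subgroup G} {u : G}, Idx2 A B → B ≤ M → u ∈ B → u * u ∈ C(P) →
        (∀ m ∈ A, m * m ∈ C(P)) → (∀ m ∈ B, m ∉ A → u ∉ A) → ∀ m ∈ B, m * m ∈ C(P) :=
      fun {A B u} I hB hu e1 e2 e3 m hm => (em _).elim (e2 m) fun e => by
        have := I.inv_mul hu hm (e3 m hm e) e
        simpa using key u (hB hu) _ (hB (I.le this)) e1 (e2 _ this)
    exact step IM le_rfl hyM h5 (step IF IM.le hsF h6 (step IK (IF.le.trans IM.le) hcK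
      (h.c_sq ▸ one_mem _) (fun m hm => mul_mem hm.2 hm.2) fun _ _ _ e => h14 e.2) fun _ _ _ => h21) fun _ _ _ => h16
  refine ⟨M, F, K, IP, IM, IF, IK, hcK, hsF, hz, h.ord, h.cent, h.c_sq, h14, h21,
    le_centralizer_iff.1 h10, h11, fun v hv hv' => ?_, h18, h13, hcomm, fun m hm hm' v hv hv' e => ?_, h20,
    fun v hv hv' => ?_, ⟨x, hx, h17⟩, y, hyM, h16⟩
  · rw [← h.xc, ← mul_inv_cancel_left x v, mul_inv_rev, ← mul_assoc, mul_assoc x, mul_assoc x,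
      conj_eq_iff_comm.2 (h10 (IP.inv_mul hx hv h17 hv') c hcK).symm]
  · exact h15 (by simpa [h.xy] using (cmod_symm (h12 hx) (IM.le_of_mem (fun g hg => cmod_symm
      (h12 (hFP hg)) (h13 g hg x hx)) hm hm' (cmod_symm (h12 (hMP hm))
        (IP.le_of_mem (h19 m hm) hv hv' e hx)) hyM)).2)
  · have h22 := IP.inv_mul hx hv h17 hv'
    have h23 : (x * x)⁻¹ * (v * v) ∈ K := by
      rw [show (x * x)⁻¹ * (v * v) = x⁻¹ * v * ((x⁻¹ * v)⁻¹ * (x⁻¹ * (x⁻¹ * v) * x⁻¹⁻¹)) * (x⁻¹ * v)⁻¹ *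
        (x⁻¹ * v * (x⁻¹ * v)) by group]
      exact mul_mem (conj_mem_of_mem_normalizer (hKN (hMP h22)) (hcomm _ (hMP h22) _ (inv_mem hx)))
        (IK.le ⟨hMP (mul_mem h22 h22), h20 _ h22⟩)
    exact ⟨(mul_mem_cancel_left (inv_mem hsF)).1 (IF.le h23), fun e => h21 (inv_mem_iff.1
      ((mul_mem_cancel_right e).1 h23))⟩

theorem IsS7.card_eq (h : IsS7 P M F K s c z) :
    Nat.card P = 16 * Nat.card (P ⊓ C(P) : Subgroup G) := by
  obtain ⟨v, h1, h2⟩ := h.exM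
  obtain ⟨w, h3, h4⟩ := h.exF
  rw [h.idxM.card_eq h1 h2, h.idxF.card_eq h3 h4, h.idxK.card_eq h.s_mem h.s_not,
    h.idxZ.card_eq h.c_mem fun e => h.c_not e.2]
  ring

namespace IsS7

variable (h : IsS7 P M F K s c z)
include h

theorem z_ne : z ≠ 1 := fun e => by simpa [e] using h.ord

theorem z_sq : z * z = 1 := mul_self_of_orderOf_eq_two h.ord

theorem F_le : F ≤ P := h.idxF.le.trans h.idxM.le

theorem z_K : z ∈ K := h.idxZ.le ⟨h.z_mem, h.cent⟩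

theorem conj_F (hg : g ∈ P) (ha : a ∈ F) : g * a * g⁻¹ = a ∨ g * a * g⁻¹ = a * z :=
  (eq_one_or_eq_of_mem_zpowers_of_orderOf_two h.ord (h.F_mod a ha g hg).2).imp
    (fun e => (inv_mul_eq_one.1 e).symm) inv_mul_eq_iff_eq_mul.1

theorem not_mem (hm : m ∈ M) (hm' : m ∉ F) (hv : v ∈ P) (hv' : v ∉ M) :
    m⁻¹ * (v * m * v⁻¹) ∉ zpowers z := fun e =>
  h.comm_not m hm hm' v hv hv' ⟨centralizer_le_normalizer' _ (le_cent_zpowers h.cent hv), e⟩

theorem mem_K (ha : a ∈ F) (hm : m ∈ M) (hm' : m ∉ F) (e : a * m = m * a) : a ∈ K := by_contra fun e' =>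
  h.z_ne (left_eq_mul.1 ((conj_eq_iff_comm.2 (mem_cent_zpowers.1 (h.idxK.le_of_mem (R := C(zpowers m))
    (fun k hk => mem_cent_zpowers.2 (h.K_cent hk m hm).symm) ha e' (mem_cent_zpowers.2 e)
    h.s_mem))).symm.trans (h.conj_s m hm hm')))

theorem conj_K (hg : g ∈ N(M)) (ha : a ∈ K) : g * a * g⁻¹ ∈ K := by
  have h1 := conj_mem_of_mem_normalizer hg (h.idxF.le (h.idxK.le ha))
  have h2 := conj_mem_cent hg (h.K_cent ha)
  obtain ⟨m, hm, hm'⟩ := h.exF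
  exact h.mem_K (by_contra fun e => h.z_ne (left_eq_mul.1 ((conj_eq_of_mem_cent h2
    (h.idxF.le h.s_mem)).symm.trans (h.conj_s _ h1 e)))) hm hm' (h2 m hm).symm

variable (hZ : P ⊓ C(P) ≤ zpowers z)
include hZ

theorem idx_z : Idx2 (zpowers z) K := hZ.antisymm (zpowers_le.2 ⟨h.z_mem, h.cent⟩) ▸ h.idxZ

theorem F_le_of (hm : m ∈ M) (hm' : m ∉ F) (hv : v ∈ P) (hv' : v ∉ M) (hz : z ∈ R)
    (h1 : m⁻¹ * (v * m * v⁻¹) ∈ R) (h2 : v * v ∈ R) : F ≤ R :=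
  h.idxK.le_of_mem ((h.idx_z hZ).le_of_mem (zpowers_le.2 hz) (h.comm m (h.idxM.le hm) v hv)
    (h.not_mem hm hm' hv hv') h1) (h.sq_out v hv hv').1 (h.sq_out v hv hv').2 h2

theorem isD2 (I : Idx2 H P) (hne : H ≠ P) : IsD2 H z := by
  obtain ⟨v, hv, hv'⟩ := h.exM
  obtain ⟨m, hm, hm'⟩ := h.exF
  have hz : z ∈ H := by
    simpa [h.conj_c v hv hv'] using I.comm_mem (h.F_le (h.idxK.le h.c_mem)) hv
  have hF := h.F_le_of hZ hm hm' hv hv' hz (I.comm_mem (h.idxM.le hm) hv) (I.sq_mem hv)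
  obtain ⟨w, hw, hw'⟩ := SetLike.exists_of_lt (I.le.lt_of_ne hne)
  have h1 := I.card_eq hw hw'
  rw [h.idxM.card_eq hv hv', h.idxF.card_eq hm hm'] at h1
  obtain ⟨u, hu, hu'⟩ := SetLike.exists_of_lt (hF.lt_of_ne fun e => by
    have := Nat.card_pos (α := H)
    rw [e] at h1
    omega)
  refine (idx2_of_card hF (by omega)).isD2' hz h.z_ne h.z_sq (centralizer_anti I.le h.cent)
    (fun g hg a => h.conj_F (I.le hg)) fun e => h.z_ne (left_eq_mul.1 ((em _).elim (fun e' =>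
      (conj_eq_of_mem_cent (e hu) (hF h.s_mem)).symm.trans (h.conj_s u e' hu')) fun e' => ?_))
  have := (conj_eq_of_mem_cent (e (hF (h.idxK.le h.c_mem))) hu).symm.trans (h.conj_c u (I.le hu) e')
  rw [left_eq_mul.1 this, mul_one]

theorem isD2_M : IsD2 M z :=
  let ⟨_, h1, h2⟩ := h.exM
  h.isD2 hZ h.idxM fun e => h2 (e ▸ h1)

theorem exists_conj (hm : m ∈ M) (hm' : m ∉ F) (ha : a ∈ K) : ∃ t ∈ P, t * m * t⁻¹ = m * a := by
  have hs := h.F_le h.s_mem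
  by_cases e : a ∈ zpowers z
  · rcases eq_one_or_eq_of_mem_zpowers_of_orderOf_two h.ord e with rfl | rfl
    · exact ⟨1, one_mem _, by simp⟩
    · exact ⟨s, hs, h.conj_s m hm hm'⟩
  obtain ⟨v, hv, hv'⟩ := h.exM
  have h1 := h.comm m (h.idxM.le hm) v hv
  rcases eq_one_or_eq_of_mem_zpowers_of_orderOf_two h.ord ((h.idx_z hZ).inv_mul h1 ha
    (h.not_mem hm hm' hv hv') e) with e' | e'
  · exact ⟨v, hv, by rw [← inv_mul_eq_one.1 e', mul_inv_cancel_left]⟩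
  · refine ⟨s * v, mul_mem hs hv, ?_⟩
    rw [inv_mul_eq_iff_eq_mul.1 e', ← mul_assoc m, mul_inv_cancel_left, ← h.conj_s _
      (h.idxM.conj_mem hv hm) fun e => hm' ((mul_mem_cancel_right (h.idxK.le h1)).1 (by simpa))]
    group

theorem mem_M (ha : a ∈ P) : a ∈ M ↔ a * a ∈ zpowers z :=
  ⟨fun e => hZ ⟨mul_mem ha ha, h.sq_M a e⟩, fun e => by_contra fun e' =>
    (h.sq_out a ha e').2 ((h.idx_z hZ).le e)⟩

theorem reg (hP : IsPGroup 2 P) (hQ : Q ≤ P) (hz : z ∈ Q) (hv : v ∈ Q) (hv' : v ∉ M) (hg : g ∈ N(Q))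
    (hr : IsPRegular 2 g) (H : g * z * g⁻¹ ∈ F → g * z * g⁻¹ = z) : g ∈ C(Q) := by
  have h0 : Q ≠ P → ∀ a ∈ Q, a ∈ M → a ∈ F := fun e a ha ha' => by_contra fun e' => e (hQ.antisymm
    (h.idxM.le_of_mem (h.idxF.le_of_mem (h.F_le_of hZ ha' e' (hQ hv) hv' hz (mul_mem (inv_mem ha)
      (mul_mem (mul_mem hv ha) (inv_mem hv))) (mul_mem hv hv)) ha' e' ha) (hQ hv) hv' hv))
  have h1 := conj_mem_of_mem_normalizer hg hz
  have h2 : g * z * g⁻¹ = z := H ((em (Q = P)).elim (fun e => h.idxK.le (h.idxZ.le ⟨hQ h1,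
    conj_mem_cent (e ▸ hg) h.cent⟩)) fun e => h0 e _ h1 ((h.mem_M hZ (hQ h1)).2 (by
      rw [conj_mul, h.z_sq]; simp)))
  have h3 : ∀ a ∈ zpowers z, g * a * g⁻¹ = a := fun a ha =>
    conj_eq_iff_comm.2 (comm_of_mem_zpowers (conj_eq_iff_comm.1 h2) ha)
  have h4 : ∀ a ∈ Q, g * a * g⁻¹ ∈ M ↔ a ∈ M := fun a ha => by
    rw [h.mem_M hZ (hQ ha), h.mem_M hZ (hQ (conj_mem_of_mem_normalizer hg ha)), conj_mul]
    exact ⟨fun e => (MulAut.conj g).injective (h3 _ e) ▸ e, fun e => (h3 _ e).symm ▸ e⟩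
  have h5 : g ∈ N(Q ⊓ M) := mem_normalizer_of_forall_conj_mem fun a ha =>
    ⟨conj_mem_of_mem_normalizer hg ha.1, (h4 a ha.1).2 ha.2⟩
  have h6 := conj_mem_of_mem_normalizer hg hv
  have h7 : g * v * g⁻¹ ∉ M := mt (h4 v hv).1 hv'
  have h8 : g ∈ N(Q ⊓ M ⊓ F) := mem_normalizer_of_forall_conj_mem fun a ha =>
    ⟨conj_mem_of_mem_normalizer h5 ha.1, by_contra fun e => h.not_mem ((h4 a ha.1.1).2 ha.1.2) e
      (hQ h6) h7 (by
        have := (h.F_mod a ha.2 v (hQ hv)).2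
        convert this using 1
        rw [← h3 _ this]
        group)⟩
  obtain ⟨t, ht, ht', h9, h10⟩ : ∃ t ∈ Q, t ∈ F ∧ t ∉ zpowers z ∧ t⁻¹ * (g * t * g⁻¹) ∈ zpowers z := by
    by_cases e : Q = P
    · subst e
      have := mt (zpowers_le.2 h.cent ·) h.c_not
      exact ⟨c, h.F_le (h.idxK.le h.c_mem), h.idxK.le h.c_mem, this, (h.idx_z hZ).inv_mul h.c_mem
        (h.conj_K (inf_eq_right.2 h.idxM.le ▸ h5) h.c_mem) this fun e =>
          this ((MulAut.conj g).injective (h3 _ e) ▸ e)⟩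
    have h9 := h.idxM.inv_mul (hQ hv) (hQ h6) hv' h7
    refine ⟨v * v, mul_mem hv hv, (h.sq_out v (hQ hv) hv').1,
      fun e => (h.sq_out v (hQ hv) hv').2 ((h.idx_z hZ).le e), ?_⟩
    rw [show (v * v)⁻¹ * (g * (v * v) * g⁻¹) = v⁻¹ * (g * v * g⁻¹) * ((v⁻¹ * (g * v * g⁻¹))⁻¹ *
      (v⁻¹ * (v⁻¹ * (g * v * g⁻¹)) * v⁻¹⁻¹)) * (v⁻¹ * (g * v * g⁻¹)) by group]
    rcases eq_one_or_eq_of_mem_zpowers_of_orderOf_two h.ord (h.F_mod _ (h0 e _ (mul_mem (inv_mem hv) h6) h9)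
      _ (inv_mem (hQ hv))).2 with e | e <;> rw [e]
    · rw [mul_one]
      exact (h.mem_M hZ (h.idxM.le h9)).1 h9
    · rw [h.cent _ (h.idxM.le h9), mul_assoc]
      exact mul_mem (mem_zpowers z) ((h.mem_M hZ (h.idxM.le h9)).1 h9)
  have h11 := (h.mem_M hZ (hQ ht)).1 (h.idxF.le ht')
  have h12 := idx2_zpowers_sup h11 (centralizer_le_normalizer' _ (le_cent_zpowers h.cent (hQ ht)))
  have h13 : Idx2 (zpowers t ⊔ zpowers z) F := idx2_of_card (sup_le (zpowers_le.2 ht')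
    (zpowers_le.2 (h.idxK.le h.z_K))) (by
      have := h.idxK.card_le
      have := (h.idx_z hZ).card_le
      rw [h12.card_eq (mem_sup_left (mem_zpowers t)) h9]
      omega)
  have h14 := hP.to_le hQ
  refine (h.idxM.inf Q hQ).mem_cent_of_regular h14 hr hg fun a ha => conj_eq_iff_comm.2 (((h.idxF.inf _
    inf_le_right).mem_cent_of_regular (h14.to_le inf_le_left) hr h5 fun a ha => conj_eq_iff_comm.2
      (((h13.inf _ inf_le_right).mem_cent_of_regular (h14.to_le (inf_le_left.trans inf_le_left)) hr h8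
        fun a ha => conj_eq_iff_comm.2 (mem_cent_zpowers.1 ((sup_le (zpowers_le.2 (mem_cent_zpowers.2 ?_))
          (zpowers_le.2 (mem_cent_zpowers.2 (conj_eq_iff_comm.1 h2).symm)) : _ ≤ C(zpowers g))
          ha.2)).symm) a ha).symm) a ha).symm
  exact (conj_eq_iff_comm.1 (conj_eq_of_regular hr (isPElt_of_mem hP (zpowers_le.2 h.z_mem h10))
    (h3 _ h10))).symm

end IsS7

end Cfsg

set_option linter.all false in
theorem Cfsg.Rz.Grp_GenTwo_0 : True := by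
  have := @_root_.Cfsg.IsS7.mk.congr_simp.{0}
  have := @_root_.Cfsg.IsS6.mk.congr_simp.{0}
  have := @_root_.Cfsg.cmod.eq_def.{0}
  have := @_root_.Cfsg.cmod.eq_1.{0}
  have := @_root_.Cfsg.cmod.fun_cases
  trivial
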