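import Cfsg.Agent.Grp.CycFour

/-!
# Groups of order 32 with commutator subgroup of order four
-/

set_option autoImplicit false
set_option linter.unusedSectionVars false

namespace Cfsg

open Subgroup GA

universe u v

local notation "C(" Q ")" => Subgroup.centralizer ((Q : Subgroup _) : Set _)
local notation "N(" Q ")" => Subgroup.normalizer ((Q : Subgroup _) : Set _)

variable {G : Type u} [Group G] [Finite G] {A K P Q R : Subgroup G} {a b c d g s t u v w x y z : G} {n : ℕ}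

theorem two_mul_le_card (hP : IsPGroup 2 P) {j : ℕ} (hj : 2 ^ j < Nat.card P) :
    2 * 2 ^ j ≤ Nat.card P := by
  obtain ⟨i, hi⟩ := hP.exists_card_eq
  rw [hi] at hj ⊢
  exact pow_succ' 2 j ▸ Nat.pow_le_pow_right two_pos ((Nat.pow_lt_pow_iff_right one_lt_two).1 hj)

theorem card_sup_of_comm (hR : R ≤ C(R)) (hs : s ∈ C(R)) (h2 : s * s ∈ R) (h3 : s ∉ R) :
    zpowers s ⊔ R ≤ C(zpowers s ⊔ R) ∧ Nat.card (zpowers s ⊔ R : Subgroup G) = 2 * Nat.card R :=
  have I := idx2_zpowers_sup h2 (centralizer_le_normalizer' _ hs)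
  ⟨I.le_cent fun a ha => by
    rw [centralizer_sup]; exact ⟨mem_cent_zpowers.2 (hs a ha), hR ha⟩,
    I.card_eq (mem_sup_left (mem_zpowers s)) h3⟩

theorem Idx2.isD2' (I : Idx2 A P) (hz : z ∈ P) (h1 : z ≠ 1) (h2 : z * z = 1) (h3 : z ∈ C(P))
    (h6 : ∀ g ∈ P, ∀ a ∈ A, g * a * g⁻¹ = a ∨ g * a * g⁻¹ = a * z) (h5 : ¬ P ≤ C(P)) : IsD2 P z := by
  have h7 : ∀ g ∈ A, ∀ a ∈ P, g * a * g⁻¹ = a ∨ g * a * g⁻¹ = a * z := fun g hg a ha => by
    rw [show g * a * g⁻¹ = g * (a * g⁻¹ * a⁻¹) * a by group]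
    exact (h6 a ha _ (inv_mem hg)).imp (fun e => by simp [e]) fun e => by simp [e, h3 a ha]
  refine ⟨hz, h1, h2, h3, fun g hg a ha => (em _).elim (h6 g hg a) fun e => (em _).elim
    (h7 g · a ha) fun e' => ?_, h5⟩
  rw [show g * a * g⁻¹ = a * (a⁻¹ * g * a * (a⁻¹ * g)⁻¹) * a⁻¹ by group]
  exact (h7 _ (I.inv_mul ha hg e e') a ha).imp (fun e => by rw [e]; simp) fun e => by
    rw [e, h3 a ha]; simp [← mul_assoc, h3 a ha]

theorem exists_card_cent_le (hP : IsPGroup 2 P) (h32 : Nat.card P = 32) (hK : Nat.card K = 4)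
    (hK' : ∀ a ∈ P, ∀ g ∈ P, a⁻¹ * (g * a * g⁻¹) ∈ K) (hK'' : P ≤ N(K)) (hD : ∀ z, ¬ IsD2 P z)
    (hA : ∀ A ≤ P, A ≤ C(A) → Nat.card A ≤ 8) : ∃ u ∈ P, u ≠ 1 ∧ ∀ v ∈ P, orderOf v = orderOf u →
      Nat.card (P ⊓ C(zpowers v) : Subgroup G) ≤ 8 := by
  have h0 : ∀ R ≤ P, R ≤ C(R) → ∀ s ∈ P, s ∈ C(R) → s * s ∈ R → 4 < Nat.card R → s ∈ R :=
    fun R hR h1 s hs h2 h3 h4 => by_contra fun e => by
      have := card_sup_of_comm h1 h2 h3 e
      have := hA _ (sup_le (zpowers_le.2 hs) hR) this.1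
      omega
  by_cases h1 : ∃ g ∈ P, g ^ 4 ≠ 1
  · obtain ⟨g, hg, h1⟩ := h1
    refine ⟨g, hg, fun e => h1 (by simp [e]), fun v hv e => not_lt.1 fun e' => ?_⟩
    have h2 : zpowers v ≤ P ⊓ C(zpowers v) := zpowers_le.2 ⟨hv, mem_cent_zpowers.2 rfl⟩
    obtain ⟨s, hs, h3, h4, -⟩ := exists_idx2 (hP.to_le inf_le_left) (h2.lt_of_ne fun e'' => by
      have := hA _ (zpowers_le.2 hv) (zpowers_le_centralizer_zpowers' v)
      rw [← e''] at e'; omega)
    refine h3 (h0 _ (zpowers_le.2 hv) (zpowers_le_centralizer_zpowers' v) s hs.1 hs.2 h4 ?_)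
    obtain ⟨k, hk⟩ := isPElt_of_mem hP hg
    rw [Nat.card_zpowers, e, hk]
    exact Nat.pow_lt_pow_right (m := 2) one_lt_two (not_le.1 fun e =>
      h1 (orderOf_dvd_iff_pow_eq_one.1 (hk ▸ pow_dvd_pow 2 e)))
  push Not at h1
  have h2 : ∀ g ∈ P, g * g * (g * g) = 1 := fun g hg => by simpa [pow_succ, mul_assoc] using h1 g hg
  obtain ⟨u, hu, h3⟩ := exists_sq_ne_one fun e : P ≤ C(P) => by have := hA P le_rfl e; omega
  refine ⟨u, hu, fun e => h3 (by simp [e]), fun v hv e => not_lt.1 fun h4 => ?_⟩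
  have h5 : v * v ≠ 1 := by rwa [← sq, Ne, ← orderOf_dvd_iff_pow_eq_one, e, orderOf_dvd_iff_pow_eq_one, sq]
  have h6 : orderOf v = 2 ^ (1 + 1) := orderOf_eq_prime_pow (by simpa [sq]) (h1 v hv)
  have h7 := (Nat.card_zpowers v).trans h6
  obtain ⟨M, hM⟩ : ∃ M, M = P ⊓ C(zpowers v) := ⟨_, rfl⟩
  have h8 : M ≤ P := hM ▸ inf_le_left
  have h9 : ∀ m ∈ M, m ∈ C(zpowers v) := fun m hm => (hM ▸ hm :).2
  have h10 : zpowers v ≤ M := hM ▸ zpowers_le.2 ⟨hv, mem_cent_zpowers.2 rfl⟩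
  have h11 := zpowers_le_centralizer_zpowers' v
  have hz : ∀ a, a ∈ zpowers v → a * a = 1 → a = 1 ∨ a = v * v := fun a ha e => by
    simpa [sq] using eq_one_or_half h6 ha e
  have h12 : ∀ m ∈ M, m * m = 1 ∨ m * m = v * v := fun m hm => hz _ (by_contra fun e => by
    have h12 := card_sup_of_comm h11 (h9 _ (mul_mem hm hm)) (h2 m (h8 hm) ▸ one_mem _) e
    rcases (mem_zpowers_sup_iff (h2 m (h8 hm) ▸ one_mem _) (centralizer_le_normalizer' _
      (h9 _ (mul_mem hm hm)))).1 (h0 _ (sup_le (zpowers_le.2 (h8 (mul_mem hm hm))) (h10.trans h8)) h12.1 m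
      (h8 hm) (by rw [centralizer_sup]; exact ⟨mem_cent_zpowers.2 (mul_assoc _ _ _).symm, h9 m hm⟩)
      (mem_sup_left (mem_zpowers _)) (by omega)) with e' | e'
    · exact e (mul_mem e' e')
    · rw [← mul_mem_cancel_right (inv_mem (h2 m (h8 hm) ▸ one_mem (zpowers v)))] at e'
      have : m ∈ zpowers v := by simpa [mul_assoc] using e'
      exact e (mul_mem this this)) (h2 m (h8 hm))
  have h13 : ¬ M ≤ C(M) := fun e => by have := hA M h8 e; rw [hM] at this; omega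
  have h14 : v ∈ C(M) := fun m hm => mem_cent_zpowers.1 (h9 m hm)
  have D : IsD2 M (v * v) := ⟨h10 (mul_mem (mem_zpowers v) (mem_zpowers v)), h5, h2 v hv,
    mul_mem h14 h14, fun g hg a ha => by
      have key : ∀ m ∈ M, m * m ∈ zpowers (v * v) := fun m hm => by
        rcases h12 m hm with e | e <;> simp [e]
      rw [show g * a * g⁻¹ = a * (a⁻¹ * a⁻¹ * (a * g * (a * g)) * (g⁻¹ * g⁻¹)) by group]
      simpa using eq_one_or_eq_of_mem_zpowers_of_orderOf_two (orderOf_eq_two_of_mul_self (h2 v hv) h5)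
        (mul_mem (mul_mem (key _ (inv_mem ha)) (key _ (mul_mem ha hg))) (key _ (inv_mem hg))), h13⟩
  have h15 := two_mul_le_card (hP.to_le h8) (j := 3) (hM ▸ h4)
  have I := idx2_of_card h8 (by omega)
  obtain ⟨y, hy, hy'⟩ := SetLike.not_le_iff_exists.1 fun e => hD _ (h8.antisymm e ▸ D)
  have h16 := I.card_eq hy hy'
  have h17 : ∀ g ∈ P, g * (v * v) * g⁻¹ = v * v := fun g hg =>
    D.fix (mem_normalizer_fintype fun a => I.conj_mem hg)
  have h18 : ∀ g ∈ P, ∀ a ∈ zpowers v, g * a * g⁻¹ ∈ zpowers v := fun g hg a ha => by_contra fun e => by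
    have h18 := I.conj_mem hg (h10 ha)
    have h19 := card_sup_of_comm h11 (h9 _ h18) (by rcases h12 _ h18 with e | e <;> simp [e, mul_mem]) e
    exact h13 ((idx2_of_card (sup_le (zpowers_le.2 h18) h10) (by omega)).le_cent (sup_le (zpowers_le.2
      (conj_mem_cent (mem_normalizer_fintype fun a => I.conj_mem hg) (zpowers_le.2 h14 ha)))
      (zpowers_le.2 h14)))
  obtain ⟨b, hb, h19, h20⟩ : ∃ b ∈ M, y * b * y⁻¹ ≠ b ∧ y * b * y⁻¹ ≠ b * (v * v) := by
    by_contra! e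
    refine hD _ (I.isD2' (h8 D.mem) h5 D.sq (fun g hg => conj_eq_iff_comm.1 (h17 g hg))
      (fun g hg a ha => (em _).elim (D.conj g · a ha) fun e' => ?_) fun e =>
        h13 (h8.trans (e.trans (centralizer_anti h8))))
    rw [show g * a * g⁻¹ = y * (y⁻¹ * g * a * (y⁻¹ * g)⁻¹) * y⁻¹ by group]
    rcases D.conj _ (I.inv_mul hy hg hy' e') a ha with e'' | e'' <;> rw [e'']
    · exact or_iff_not_imp_left.2 (e a ha)
    · rw [← conj_mul, h17 y hy]
      exact (em _).symm.imp (fun h => by rw [e a ha h, mul_assoc, D.sq, mul_one]) fun h => by rw [h]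
  obtain ⟨d, hd⟩ : ∃ d, y * b * y⁻¹ = b * d := ⟨_, (mul_inv_cancel_left _ _).symm⟩
  have h21 : d ∈ M := (mul_mem_cancel_left hb).1 (hd ▸ I.conj_mem hy hb)
  have h22 : d ∈ K := by simpa [hd] using hK' b (h8 hb) y hy
  rw [hd, Ne, mul_eq_left] at h19
  rw [hd, Ne, mul_right_inj] at h20
  have h23 : b * d * (b * d) = b * b := by
    rw [← hd, conj_mul]; rcases h12 b hb with e | e <;> simp [e, h17 y hy]
  by_cases h24 : d * b = b * d
  · have h25 : d * d = 1 := by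
      rwa [mul_assoc, ← mul_assoc d, h24, ← mul_assoc, ← mul_assoc, mul_assoc, mul_eq_left] at h23
    have h26 : d ∉ zpowers v := fun e => (hz d e h25).elim h19 h20
    have h27 := card_sup_of_comm h11 (h9 d h21) (h25 ▸ one_mem _) h26
    rcases (mem_zpowers_sup_iff (h25 ▸ one_mem _) (centralizer_le_normalizer' _ (h9 d h21))).1
      (h0 _ (sup_le (zpowers_le.2 (h8 h21)) (h10.trans h8)) h27.1 b (h8 hb)
        (by rw [centralizer_sup]; exact ⟨mem_cent_zpowers.2 h24.symm, h9 b hb⟩)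
        (mem_sup_right (by rcases h12 b hb with e | e <;> simp [e, mul_mem])) (by omega)) with e | e
    · exact h26 ((mul_mem_cancel_left e).1 (hd ▸ h18 y hy b e))
    · have := h18 _ (inv_mem hy) _ e
      rw [h24, ← hd] at this
      exact h26 ((mul_mem_cancel_right (by simpa [mul_assoc] using this)).1 e)
  have h25 : d * d = v * v := by
    rw [D.mul_sq hb h21 h24, mul_assoc, mul_eq_left] at h23
    rw [← mul_left_inj (v * v), h23, D.sq]
  obtain ⟨a, ha, c, hc, h26⟩ := D.exists_ne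
  have h27 : v * v ∈ K := by simpa [D.conj_of_ne hc ha h26] using hK' a (h8 ha) c (h8 hc)
  have h28 := orderOf_eq_two_of_mul_self D.sq h5
  have h29 : d ∉ zpowers (v * v) := fun e => (eq_one_or_eq_of_mem_zpowers_of_orderOf_two h28 e).elim h19 h20
  have h30 : y * y * d = d * (y * y) := by
    rw [← conj_eq_iff_comm, show y * y * d * (y * y)⁻¹ = y * (y * d * y⁻¹) * y⁻¹ by group]
    rcases eq_one_or_eq_of_mem_zpowers_of_orderOf_two h28 ((idx2_of_card (zpowers_le.2 h27) (by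
      rw [Nat.card_zpowers, h28, hK])).inv_mul h22 (conj_mem_of_mem_normalizer (hK'' hy) h22) h29 fun e =>
        h29 (by
          rcases eq_one_or_eq_of_mem_zpowers_of_orderOf_two h28 e with e | e
          exacts [absurd (by simpa using e) h19,
            absurd ((MulAut.conj y).injective (e.trans (h17 y hy).symm)) h20])) with e | e <;>
      rw [inv_mul_eq_iff_eq_mul] at e
    · simp [e]
    · rw [e, ← conj_mul, e, h17 y hy, mul_assoc, D.sq, mul_one]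
  have h31 := h2 _ (mul_mem (h8 hb) hy)
  rw [show b * y * (b * y) = b * (y * b * y⁻¹) * (y * y) by group, hd, ← mul_assoc b, mul_assoc (b * b),
    mul_assoc, ← mul_assoc (d * _), D.sq_cent hb _ (mul_mem h21 (I.sq_mem hy)), mul_assoc (b * b),
    ← mul_assoc (b * b), h2 b (h8 hb), one_mul, mul_assoc, ← mul_assoc (y * y), h30, mul_assoc d,
    h2 y hy, mul_one, h25] at h31
  exact h5 h31

/-- A group of order `32` with abelian maximal subgroup `A` and commutator subgroup `K` of order four. -/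
structure IsAb (P A K : Subgroup G) : Prop where
  two : IsPGroup 2 P
  idx : Idx2 A P
  comm : A ≤ C(A)
  card_A : Nat.card A = 16
  card_Z : Nat.card (P ⊓ C(P) : Subgroup G) = 4
  card_K : Nat.card K = 4
  mem : ∀ a ∈ P, ∀ g ∈ P, a⁻¹ * (g * a * g⁻¹) ∈ K
  surj : ∀ d ∈ K, ∃ a ∈ A, ∀ y ∈ P, y ∉ A → y * a * y⁻¹ = a * d
  ex : ∃ y ∈ P, y ∉ A

theorem comm_mem_map (ha : a ∈ P) (hg : g ∈ P) :
    a⁻¹ * (g * a * g⁻¹) ∈ (commutator P).map P.subtype :=
  ⟨_, commutator_mem_commutator (mem_top (⟨a, ha⟩ : P)⁻¹) (mem_top ⟨g, hg⟩), by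
    simp [commutatorElement_def, mul_assoc]⟩

theorem isAb (hP : IsPGroup 2 P) (h32 : Nat.card P = 32) (hK : Nat.card (commutator P) = 4)
    (hn : ¬ P ≤ C(P)) (hA : A ≤ P) (hc : A ≤ C(A)) (h : 8 < Nat.card A) :
    IsAb P A ((commutator P).map P.subtype) := by
  have h1 := two_mul_le_card (hP.to_le hA) (j := 3) h
  have I := idx2_of_card hA (by omega)
  obtain ⟨y, hy, hy'⟩ := SetLike.not_le_iff_exists.1 fun e => hn (hA.antisymm e ▸ hc)
  have h2 := I.card_eq hy hy'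
  haveI := le_centralizer_iff_isMulCommutative.1 hc
  have h3 : (A.subgroupOf P).index = 2 := by
    have := card_mul_relIndex hA
    rw [relIndex] at this
    nlinarith
  haveI := normal_of_index_eq_two h3
  have h4 : y ∈ N(A) := mem_normalizer_fintype fun a => I.conj_mem hy
  have h5 : (commutator P).map P.subtype = ⁅zpowers y, A⁆ := by
    rw [commutator_eq_of_zpowers_sup (zpowers_sup_eq_top_of_prime_index (h3 ▸ Nat.prime_two)
      (x := ⟨y, hy⟩) hy'), map_commutator, MonoidHom.map_zpowers, subgroupOf_map_subtype, inf_eq_left.2 hA]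
    rfl
  have h6 := (card_map_of_injective P.subtype_injective).trans hK
  have h7 := card_commutator_zpowers_mul A h4
  rw [← h5, h6, show A ⊓ centralizer {y} = P ⊓ C(P) from le_antisymm (fun a ha => ⟨hA ha.1,
    I.mem_cent hy hy' (hc ha.1) (mem_centralizer_singleton_iff.1 ha.2).symm⟩) fun a ha =>
      ⟨by_contra fun e => hn (I.le_cent fun b hb => I.mem_cent ha.1 e (hc hb) (ha.2 b (hA hb)).symm),
        mem_centralizer_singleton_iff.2 (ha.2 y hy).symm⟩] at h7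
  refine ⟨hP, I, hc, by omega, by omega, h6, fun _ ha _ => comm_mem_map ha, fun d hd => ?_, y, hy, hy'⟩
  rw [h5, ← commHom_range A h4] at hd
  obtain ⟨a, rfl⟩ := hd
  refine ⟨a, a.2, fun w hw hw' => ?_⟩
  rw [I.conj_eq hc hw hy hw' hy' a.2, commHom_apply, commutatorElement_def,
    hc (inv_mem a.2) _ (I.conj_mem hy a.2), mul_inv_cancel_left]

namespace IsAb

variable (h : IsAb P A K)
include h

theorem cent_of_comm (hw : w ∈ P) (hw' : w ∉ A) (ha : a ∈ A) (e : a * w = w * a) : a ∈ P ⊓ C(P) :=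
  ⟨h.idx.le ha, h.idx.mem_cent hw hw' (h.comm ha) e.symm⟩

theorem sq_cent (hw : w ∈ P) (hw' : w ∉ A) : w * w ∈ P ⊓ C(P) :=
  h.cent_of_comm hw hw' (h.idx.sq_mem hw) (mul_assoc _ _ _)

theorem mem_of_cent (hc : c ∈ P ⊓ C(P)) : c ∈ A := by_contra fun e => by
  have := card_le_of_le fun a ha => h.cent_of_comm hc.1 e ha (hc.2 a (h.idx.le ha))
  rw [h.card_A, h.card_Z] at this
  omega

theorem idx2_cent (hQ : Q ≤ P) (H : ∀ a ∈ Q, a ∈ A → a ∈ C(P)) : Idx2 (Q ⊓ C(P)) Q :=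
  ⟨inf_le_left, fun u hu v hv hu' hv' => ⟨mul_mem hu hv, H _ (mul_mem hu hv) (h.idx.mul u (hQ hu) v (hQ hv)
    (fun e => hu' ⟨hu, H u hu e⟩) fun e => hv' ⟨hv, H v hv e⟩)⟩⟩

theorem card_cent (hw : w ∈ P) (hw' : w ∉ A) : Nat.card (P ⊓ C(zpowers w) : Subgroup G) ≤ 8 := by
  have := (h.idx2_cent inf_le_left fun a ha ha' =>
    (h.cent_of_comm hw hw' ha' (mem_cent_zpowers.1 ha.2)).2).card_le
  have := card_le_of_le (inf_le_inf_right C(P) (inf_le_left (a := P) (b := C(zpowers w))))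
  have := h.card_Z
  omega

theorem conj_mem (hg : g ∈ N(P)) (ha : a ∈ A) : g * a * g⁻¹ ∈ A := by_contra fun e => by
  have h1 := h.card_cent (conj_mem_of_mem_normalizer hg (h.idx.le ha)) e
  have h2 := card_le_of_le (cjS_le_iff_forall (P := P ⊓ C(zpowers (g * a * g⁻¹))).2 fun b hb =>
    ⟨conj_mem_of_mem_normalizer hg (h.idx.le hb), mem_cent_zpowers.2 (by
      rw [conj_mul, conj_mul, h.comm ha b hb])⟩)
  rw [card_cjS, h.card_A] at h2
  omega

theorem conj_notMem (hg : g ∈ N(P)) (hw : w ∉ A) : g * w * g⁻¹ ∉ A := fun e =>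
  hw (by simpa [mul_assoc] using h.conj_mem (inv_mem hg) e)

theorem K_le : K ≤ A := fun d hd =>
  let ⟨a, ha, e⟩ := h.surj d hd
  let ⟨y, hy, hy'⟩ := h.ex
  (mul_mem_cancel_left ha).1 (e y hy hy' ▸ h.idx.conj_mem hy ha)

/-- The case of nilpotency class three. -/
theorem three (hn : ¬ K ≤ C(P)) : ∃ a ∈ A, ∃ d ∈ A, ∃ z, d * d = z ∧ orderOf z = 2 ∧ z ∈ P ⊓ C(P) ∧
    (∀ y ∈ P, y ∉ A → y * a * y⁻¹ = a * d) ∧ a * (a * d) ∈ P ⊓ C(P) ∧
    (∀ c ∈ P ⊓ C(P), c * c ∈ zpowers z) ∧ (∀ g ∈ N(P), g * z * g⁻¹ = z) ∧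
    ∀ b ∈ A, ∃ k : ℤ, (a ^ k)⁻¹ * b ∈ P ⊓ C(P) ∧ ∀ y ∈ P, y ∉ A → y * b * y⁻¹ = b * d ^ k := by
  obtain ⟨d, hd, hd'⟩ := SetLike.not_le_iff_exists.1 hn
  obtain ⟨a, ha, h1⟩ := h.surj d hd
  obtain ⟨y, hy, hy'⟩ := h.ex
  have h2 := h.K_le hd
  have h3 : y * (a * d) * y⁻¹ = a := by
    rw [← h1 y hy hy', show y * (y * a * y⁻¹) * y⁻¹ = y * y * a * (y * y)⁻¹ by group,
      conj_eq_of_mem_cent (h.comm ha) (h.idx.sq_mem hy)]
  have h4 : y * d * y⁻¹ = d⁻¹ := by
    rw [← conj_mul, h1 y hy hy', mul_assoc, mul_eq_left] at h3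
    exact eq_inv_of_mul_eq_one_right h3
  have h5 : d * d ≠ 1 := fun e => hd' (h.cent_of_comm hy hy' h2
    (conj_eq_iff_comm.1 (h4.trans (inv_eq_of_mul_eq_one_right e))).symm).2
  have h6 := four_le_orderOf (isPElt_of_mem h.two (h.idx.le h2)) h5
  have h7 := eq_of_le_of_card_ge (zpowers_le.2 hd) (by rwa [h.card_K, Nat.card_zpowers])
  have h8 : orderOf d = 2 ^ (1 + 1) := by rw [← Nat.card_zpowers, h7, h.card_K]; rfl
  have h9 : orderOf (d * d) = 2 := by simpa [sq] using orderOf_pow_half h8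
  have h10 := mul_self_of_orderOf_eq_two h9
  have h11 : d * d ∈ P ⊓ C(P) := h.cent_of_comm hy hy' (mul_mem h2 h2) (conj_eq_iff_comm.1 (by
    rw [← conj_mul, h4, ← mul_inv_rev, inv_eq_of_mul_eq_one_right h10])).symm
  refine ⟨a, ha, d, h2, _, rfl, h9, h11, h1, h.cent_of_comm hy hy' (mul_mem ha (mul_mem ha h2))
    (conj_eq_iff_comm.1 (by rw [← conj_mul, h3, h1 y hy hy', h.comm ha _ (mul_mem ha h2)])).symm,
    fun c hc => (idx2_of_card (zpowers_le.2 h11) (by rw [h.card_Z, Nat.card_zpowers, h9])).sq_mem hc,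
    fun g hg => eq_of_orderOf_eq_two_of_mem_zpowers (σ := d) ?_ (mul_mem (mem_zpowers d) (mem_zpowers d))
      ((orderOf_conj_eq _ _).trans h9) h9, fun b hb => ?_⟩
  · have := h7.ge (h.mem _ (conj_mem_of_mem_normalizer hg (h.idx.le ha)) _ (conj_mem_of_mem_normalizer hg hy))
    rw [conj_inv, conj_inv, conj_mul, conj_mul, conj_mul, h1 y hy hy', inv_mul_cancel_left] at this
    rw [← conj_mul]; exact mul_mem this this
  · obtain ⟨k, hk⟩ := h7.ge (h.mem b (h.idx.le hb) y hy)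
    have h12 : ∀ w ∈ P, w ∉ A → w * b * w⁻¹ = b * d ^ k := fun w hw hw' => by
      rw [h.idx.conj_eq h.comm hw hy hw' hy' hb, ← inv_mul_eq_iff_eq_mul, ← hk]
    refine ⟨k, h.cent_of_comm hy hy' (mul_mem (inv_mem (zpow_mem ha k)) hb) (conj_eq_iff_comm.1 ?_).symm, h12⟩
    rw [← conj_mul, ← conj_inv, ← conj_zpow, h1 y hy hy', h12 y hy hy', h.comm h2 a ha,
      Commute.mul_zpow (h.comm ha d h2), h.comm (zpow_mem h2 k) b hb, mul_inv_rev, mul_assoc,
      inv_mul_cancel_left]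

end IsAb

theorem cent_of_idx2 (hA : IsPGroup 2 A) (J : Idx2 (zpowers a) A) (hc : A ≤ C(A))
    (ho : orderOf a = 2 ^ (n + 2)) (hg : g ∈ N(A)) (hr : IsPRegular 2 g) : g ∈ C(A) := by
  have h1 := orderOf_pow_half ho
  have h2 := eq_of_orderOf_eq_two_of_mem_zpowers (a := g * a ^ 2 ^ (n + 1) * g⁻¹) (by
    rw [← conj_pow, pow_succ', pow_mul, sq]
    exact pow_mem (J.sq_mem (conj_mem_of_mem_normalizer hg (J.le (mem_zpowers a)))) _)
    (pow_mem (mem_zpowers a) _) ((orderOf_conj_eq _ _).trans h1) h1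
  refine mem_cent_of_omega hA hc hg hr fun s hs e => (em _).elim (fun e' => by
    rcases eq_one_or_half ho e' e with e | e <;> simp [e, h2]) fun e' => ?_
  have h3 := conj_mem_of_mem_normalizer hg hs
  have h4 : g * s * g⁻¹ * (g * s * g⁻¹) = 1 := by rw [conj_mul, e]; simp
  refine conj_eq_of_regular hr (isPElt_of_mem hA (mul_mem (inv_mem hs) h3)) ?_
  rcases eq_one_or_half ho (J.inv_mul hs h3 e' fun e'' => (eq_one_or_half ho e'' h4).elim
    (fun e => e' ((show s = 1 by simpa using e) ▸ one_mem _)) fun e =>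
      e' ((MulAut.conj g).injective (e.trans h2.symm) ▸ pow_mem (mem_zpowers a) _)) (by
      rw [mul_assoc, ← mul_assoc _ s⁻¹, hc (inv_mem hs) _ h3, mul_assoc s⁻¹, h4, mul_one,
        inv_eq_of_mul_eq_one_right e, e]) with e | e <;> simp [e, h2]

end Cfsg

set_option linter.all false in
theorem Cfsg.Rz.Grp_Ord32_0 : True := by
  have := @_root_.Cfsg.IsAb.mk.congr_simp.{0}
  trivial
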