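import Cfsg.Agent.Grp.InvolSL2
import Mathlib.LinearAlgebra.Matrix.Block
import Mathlib.LinearAlgebra.Matrix.ToLinearEquiv

/-!
# The big cell of `SL(n, F)`
-/

set_option autoImplicit false
set_option linter.unusedSectionVars false

namespace Cfsg.SLn

open Matrix Subgroup
open scoped MatrixGroups

universe u

variable {F : Type u} [Field F] {n : ℕ} {A B M : Matrix (Fin n) (Fin n) F}

theorem inv_of_mul_closed {G : Type*} [Group G] [Finite G] {P : G → Prop} (h1 : P 1)
    (hm : ∀ a b, P a → P b → P (a * b)) {a : G} (ha : P a) : P a⁻¹ := by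
  have : ∀ m : ℕ, P (a ^ m) := fun m => by
    induction m with
    | zero => simpa
    | succ m ih => rw [pow_succ]; exact hm _ _ ih ha
  obtain ⟨m, hm⟩ := (mem_powers_iff_mem_zpowers (x := a) (y := a⁻¹)).2 (by simp)
  exact hm ▸ this m

theorem mv {ι κ : Type*} [Fintype κ] (A : Matrix ι κ F) (x : κ → F) (i : ι) :
    (A *ᵥ x) i = ∑ j, A i j * x j := rfl

/-- Upper triangular. -/
def IsUp (A : Matrix (Fin n) (Fin n) F) : Prop := ∀ i j, j < i → A i j = 0

theorem IsUp.mul (hA : IsUp A) (hB : IsUp B) : IsUp (A * B) := fun _ _ h =>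
  BlockTriangular.mul (b := id) (fun _ _ => hA _ _) (fun _ _ => hB _ _) h

theorem IsUp.mul_diag (hA : IsUp A) (hB : IsUp B) (i : Fin n) : (A * B) i i = A i i * B i i := by
  rw [mul_apply, Finset.sum_eq_single i]
  · intro j _ hj
    rcases lt_or_gt_of_ne hj with h | h
    · rw [hA _ _ h, zero_mul]
    · rw [hB _ _ h, mul_zero]
  · simp

theorem IsUp.det (hA : IsUp A) : A.det = ∏ i, A i i :=
  det_of_isUpperTriangular fun _ _ => hA _ _

/-- Upper unitriangular. -/
def IsUni (A : Matrix (Fin n) (Fin n) F) : Prop := IsUp A ∧ ∀ i, A i i = 1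

theorem isUni_one : IsUni (1 : Matrix (Fin n) (Fin n) F) :=
  ⟨fun _ _ h => one_apply_ne h.ne', fun _ => one_apply_eq _⟩

theorem IsUni.mul (hA : IsUni A) (hB : IsUni B) : IsUni (A * B) :=
  ⟨hA.1.mul hB.1, fun i => by rw [hA.1.mul_diag hB.1, hA.2, hB.2, mul_one]⟩

theorem IsUni.det (hA : IsUni A) : A.det = 1 := by simp [hA.1.det, hA.2]

theorem isUni_one_add {m : ℕ} {x y : Fin n → F} (hx : ∀ j : Fin n, m ≤ j → x j = 0)
    (hy : ∀ j : Fin n, j < m → y j = 0) : IsUni (1 + vecMulVec x y) := by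
  have : ∀ i j : Fin n, j ≤ i → x i * y j = 0 := fun i j h => by
    by_cases hj : (j : ℕ) < m
    · rw [hy j hj, mul_zero]
    · rw [hx i (by omega), zero_mul]
  exact ⟨fun i j h => by simp [vecMulVec_apply, this i j h.le, h.ne', -mul_eq_zero],
    fun i => by simp [vecMulVec_apply, this i i le_rfl, -mul_eq_zero]⟩

/-- The leading `m × m` block is invertible. -/
def OppAt (m : ℕ) (A : Matrix (Fin n) (Fin n) F) : Prop :=
  ∀ x : Fin n → F, (∀ j : Fin n, m ≤ j → x j = 0) → (∀ i : Fin n, i < m → (A *ᵥ x) i = 0) → x = 0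

/-- All leading blocks are invertible. -/
def Opp (A : Matrix (Fin n) (Fin n) F) : Prop := ∀ m, OppAt m A

/-- The leading block, completed by the identity matrix. -/
def lead (m : ℕ) (A : Matrix (Fin n) (Fin n) F) : Matrix (Fin n) (Fin n) F :=
  of fun i j => if i < m ∧ j < m then A i j else if i = j then 1 else 0

theorem lead_mulVec_of_le {m : ℕ} (x : Fin n → F) {i : Fin n} (h : m ≤ i) :
    (lead m A *ᵥ x) i = x i := by
  simp [lead, mulVec, dotProduct, h.not_gt]

theorem lead_mulVec_of_lt {m : ℕ} {x : Fin n → F} (hx : ∀ j : Fin n, m ≤ j → x j = 0) {i : Fin n}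
    (h : i < m) : (lead m A *ᵥ x) i = (A *ᵥ x) i := by
  rw [mv, mv]
  refine Finset.sum_congr rfl fun j _ => ?_
  by_cases hj : (j : ℕ) < m
  · simp [lead, h, hj]
  · simp [hx j (not_lt.1 hj)]

theorem oppAt_iff {m : ℕ} : OppAt m A ↔ (lead m A).det ≠ 0 := by
  rw [Ne, ← exists_mulVec_eq_zero_iff]
  refine ⟨fun h ⟨x, hx, e⟩ => hx ?_, fun h x h1 h2 => by_contra fun hx => h ⟨x, hx, ?_⟩⟩
  · have h1 : ∀ j : Fin n, m ≤ j → x j = 0 := fun j hj => by
      rw [← lead_mulVec_of_le (A := A) x hj, e]; rfl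
    exact h x h1 fun i hi => by rw [← lead_mulVec_of_lt h1 hi, e]; rfl
  · ext i
    rcases lt_or_ge (i : ℕ) m with hi | hi
    · rw [lead_mulVec_of_lt h1 hi, h2 i hi]; rfl
    · rw [lead_mulVec_of_le x hi, h1 i hi]; rfl

theorem oppAt_transpose {m : ℕ} : OppAt m Aᵀ ↔ OppAt m A := by
  rw [oppAt_iff, oppAt_iff, ← det_transpose, show (lead m Aᵀ)ᵀ = lead m A by
    ext i j
    simp [lead, and_comm, eq_comm]]

theorem opp_transpose : Opp Aᵀ ↔ Opp A := forall_congr' fun _ => oppAt_transpose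

theorem Opp.eq_zero (h : Opp A) {x : Fin n → F} (hx : A *ᵥ x = 0) : x = 0 :=
  h n x (fun j hj => absurd j.2 hj.not_gt) fun i _ => congrFun hx i

theorem opp_mul_left (hB : IsUp Bᵀ) (h : Opp B) : Opp (B * A) ↔ Opp A := by
  refine forall_congr' fun m => forall_congr' fun x => forall_congr' fun _ => imp_congr_left ?_
  rw [← mulVec_mulVec]
  generalize A *ᵥ x = z
  have key : ∀ i : Fin n, i < m →
      (B *ᵥ z) i = (B *ᵥ fun j : Fin n => if j < m then z j else 0) i := fun i hi => by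
    rw [mv, mv]
    refine Finset.sum_congr rfl fun j _ => ?_
    by_cases hj : (j : ℕ) < m
    · simp [hj]
    · simp [show B i j = 0 from hB j i (by omega)]
  refine ⟨fun e i hi => ?_, fun e i hi => ?_⟩
  · simpa [hi] using congrFun (h m _ (fun j hj => if_neg hj.not_gt) fun i hi => key i hi ▸ e i hi) i
  · rw [key i hi, show (fun j : Fin n => if j < m then z j else 0) = 0 from funext fun j => by
      split_ifs with hj; exacts [e j hj, rfl], mulVec_zero]; rfl

theorem opp_mul_right (hB : IsUp B) (h : Opp B) : Opp (A * B) ↔ Opp A := by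
  rw [← opp_transpose, transpose_mul, opp_mul_left (B := Bᵀ) hB (opp_transpose.2 h), opp_transpose]

theorem IsUp.opp (hB : IsUp B) (h : B.det ≠ 0) : Opp B := fun m x h1 h2 =>
  eq_zero_of_mulVec_eq_zero h (funext fun i => by
    rcases lt_or_ge (i : ℕ) m with hi | hi
    · exact h2 i hi
    · rw [mv]
      refine Finset.sum_eq_zero fun j _ => ?_
      rcases lt_or_ge j i with hj | hj
      · rw [hB i j hj, zero_mul]
      · rw [h1 j (by omega), mul_zero])

theorem IsUni.opp (hB : IsUni B) : Opp B := hB.1.opp (by simp [hB.det])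

theorem Opp.exists_isUni (h : Opp A) : ∃ B, IsUni B ∧ IsUp (A * B)ᵀ := by
  have : ∀ j : Fin n, ∃ z : Fin n → F, (∀ i, j ≤ i → z i = 0) ∧ ∀ i, i < j → (A *ᵥ z) i = -A i j := by
    intro j
    obtain ⟨z, hz⟩ := mulVec_surjective_iff_isUnit.2 ((isUnit_iff_isUnit_det _).2
      (oppAt_iff.1 (h j)).isUnit) fun i => if i < j then -A i j else 0
    have h1 : ∀ i : Fin n, (j : ℕ) ≤ i → z i = 0 := fun i hi => by
      rw [← lead_mulVec_of_le (A := A) z hi, hz]; exact if_neg (not_lt.2 hi)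
    exact ⟨z, h1, fun i hi => by rw [← lead_mulVec_of_lt h1 hi, hz]; exact if_pos hi⟩
  choose z h1 h2 using this
  refine ⟨1 + (of z)ᵀ, ⟨fun i j h => by simp [h1 j i h.le, h.ne'], fun i => by simp [h1 i i]⟩,
    fun j i h => ?_⟩
  rw [transpose_apply, mul_add, mul_one, Matrix.add_apply, add_comm, add_eq_zero_iff_eq_neg,
    ← h2 j i h]
  rfl

theorem exists_of_not_opp (h : ¬ Opp A) (hA : A.det ≠ 0) :
    ∃ B C, IsUni B ∧ IsUni Cᵀ ∧ B ≠ 1 ∧ C ≠ 1 ∧ A * B = C * A := by
  obtain ⟨m, hm⟩ := not_forall.1 h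
  have hm' := mt oppAt_transpose.1 hm
  simp only [OppAt, not_forall] at hm hm'
  obtain ⟨x, x1, x2, x3⟩ := hm
  obtain ⟨y, y1, y2, y3⟩ := hm'
  refine ⟨1 + vecMulVec x (Aᵀ *ᵥ y), 1 + vecMulVec (A *ᵥ x) y, isUni_one_add x1 y2, ?_, ?_, ?_, ?_⟩
  · rw [transpose_add, transpose_one, transpose_vecMulVec]; exact isUni_one_add y1 x2
  · simpa [x3] using fun e => y3 (eq_zero_of_mulVec_eq_zero (by rwa [det_transpose]) e)
  · simpa [y3] using fun e => x3 (eq_zero_of_mulVec_eq_zero hA e)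
  · rw [mul_add, add_mul, mul_one, one_mul, mul_vecMulVec, vecMulVec_mul, mulVec_transpose]

/-! ### Reduction of the size -/

/-- A parametrisation of the hyperplane `r ⬝ x = 0`. -/
def hyp (r : Fin (n + 1) → F) : Matrix (Fin (n + 1)) (Fin n) F :=
  of (Fin.cons (fun j => -r j.succ / r 0) (1 : Matrix (Fin n) (Fin n) F))

theorem hyp_mulVec_succ (r : Fin (n + 1) → F) (z : Fin n → F) (i : Fin n) :
    (hyp r *ᵥ z) i.succ = z i := congrFun (one_mulVec z) i

theorem hyp_mulVec_zero (r : Fin (n + 1) → F) (z : Fin n → F) :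
    (hyp r *ᵥ z) 0 = -(∑ j, r j.succ * z j) / r 0 := by
  rw [mv, ← Finset.sum_neg_distrib, Finset.sum_div]
  exact Finset.sum_congr rfl fun j _ => by change -r j.succ / r 0 * z j = _; ring

theorem opp_succ {M : Matrix (Fin (n + 1)) (Fin (n + 1)) F} :
    Opp M ↔ M 0 0 ≠ 0 ∧ Opp ((M * hyp (M 0)).submatrix Fin.succ id) := by
  have e : ∀ z i, ((M * hyp (M 0)).submatrix Fin.succ id *ᵥ z) i = (M *ᵥ hyp (M 0) *ᵥ z) i.succ :=
    fun z i => by rw [mulVec_mulVec]; rfl
  have e0 : ∀ x, (M *ᵥ x) 0 = M 0 0 * x 0 + ∑ j : Fin n, M 0 j.succ * x j.succ := fun x =>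
    Fin.sum_univ_succ _
  constructor
  · intro h
    have h0 : M 0 0 ≠ 0 := fun h0 => by
      simpa using congrFun (h 1 (Pi.single 0 1) (fun j hj => Pi.single_eq_of_ne (by
        rintro rfl; simp at hj) _) fun i hi => by
          simp [show i = 0 from Fin.ext (by simpa using hi), h0]) 0
    refine ⟨h0, fun m z h1 h2 => funext fun j => ?_⟩
    rw [← hyp_mulVec_succ (M 0) z j, h (m + 1) (hyp (M 0) *ᵥ z)]
    · rfl
    · refine Fin.cases (by simp) fun j hj => ?_
      rw [hyp_mulVec_succ, h1 j (by simpa using hj)]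
    · refine Fin.cases (fun _ => ?_) fun i hi => by rw [← e, h2 i (by simpa using hi)]
      simp only [e0, hyp_mulVec_succ, hyp_mulVec_zero]
      field_simp
      ring
  · rintro ⟨h0, h⟩ (_ | m) x h1 h2
    · exact funext fun j => h1 j (Nat.zero_le _)
    have h3 : hyp (M 0) *ᵥ (fun j => x j.succ) = x := funext (Fin.cases (by
      have := h2 0 (by simp)
      rw [e0] at this
      rw [hyp_mulVec_zero, div_eq_iff h0]
      linear_combination -this) fun j => hyp_mulVec_succ _ _ _)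
    rw [← h3, h m (fun j => x j.succ) (fun j hj => h1 _ (by simpa using hj))
      fun i hi => by rw [e, h3, h2 _ (by simpa using hi)], mulVec_zero]

theorem opp_hyp {r : Fin (n + 1) → F} (h0 : r 0 ≠ 0) :
    Opp ((hyp r).submatrix Fin.castSucc id) ↔ ∀ j : Fin n, r j.succ ≠ 0 := by
  have e : ∀ z i, ((hyp r).submatrix Fin.castSucc id *ᵥ z) i = (hyp r *ᵥ z) i.castSucc :=
    fun _ _ => rfl
  constructor
  · intro h j hj
    refine one_ne_zero ((Pi.single_eq_same (M := fun _ => F) j 1).symm.trans (congrFun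
      (h (j + 1) (Pi.single j 1)
      (fun i hi => Pi.single_eq_of_ne (by rintro rfl; omega) _) fun i hi => ?_) j))
    rw [e]
    rcases Fin.eq_zero_or_eq_succ i.castSucc with e' | ⟨l, e'⟩ <;> rw [e']
    · simp [hyp_mulVec_zero, Pi.single_apply, hj, -mulVec_single]
    · rw [hyp_mulVec_succ, Pi.single_eq_of_ne]
      rintro rfl
      have := congrArg Fin.val e'
      simp at this
      omega
  · intro h m z h1 h2
    have h3 : ∀ l : Fin n, (l : ℕ) + 1 ≠ m → l + 1 ≠ n → z l = 0 := fun l hl hl' => by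
      rcases lt_or_gt_of_ne hl with hl | hl
      · rw [← hyp_mulVec_succ r z l, ← h2 ⟨l + 1, by omega⟩ hl, e]; rfl
      · exact h1 l (by omega)
    ext j
    by_contra hj
    have h4 : (j : ℕ) < m := by_contra fun e => hj (h1 j (by omega))
    have h5 := h2 ⟨0, by omega⟩ (by simp; omega)
    rw [e, show (⟨0, by omega⟩ : Fin n).castSucc = 0 from rfl, hyp_mulVec_zero,
      Finset.sum_eq_single j] at h5
    · simp [h0, h j] at h5
      exact hj h5
    · intro l _ hl
      by_cases h6 : m ≤ l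
      · rw [h1 l h6, mul_zero]
      have h7 : (j : ℕ) + 1 = m ∨ j + 1 = n := by_contra fun e =>
        hj (h3 j (fun e' => e (.inl e')) fun e' => e (.inr e'))
      have h8 : (l : ℕ) ≠ j := fun e => hl (Fin.ext e)
      rw [h3 l (by omega) (by omega), mul_zero]
    · simp

/-! ### Subgroups -/

variable [Finite F]

variable (n F) in
/-- The upper unitriangular matrices. -/
def up : Subgroup SL(n, F) where
  carrier := {g | IsUni g.1}
  mul_mem' := IsUni.mul
  one_mem' := isUni_one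
  inv_mem' := inv_of_mul_closed (P := fun g : SL(n, F) => IsUni g.1) isUni_one fun _ _ => IsUni.mul

theorem IsUni.mul' (hA : IsUni Aᵀ) (hB : IsUni Bᵀ) : IsUni (A * B)ᵀ := by
  rw [transpose_mul]; exact hB.mul hA

theorem isUni_one' : IsUni (1 : Matrix (Fin n) (Fin n) F)ᵀ := by
  rw [transpose_one]; exact isUni_one

variable (n F) in
/-- The lower unitriangular matrices. -/
def lo : Subgroup SL(n, F) where
  carrier := {g | IsUni g.1ᵀ}
  mul_mem' := IsUni.mul'
  one_mem' := isUni_one'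
  inv_mem' := inv_of_mul_closed (P := fun g : SL(n, F) => IsUni g.1ᵀ) isUni_one' fun _ _ => IsUni.mul'

theorem IsDiag.mul' (hA : A.IsDiag) (hB : B.IsDiag) : (A * B).IsDiag := by
  rw [← hA.diagonal_diag, ← hB.diagonal_diag, diagonal_mul_diagonal]; exact isDiag_diagonal _

variable (n F) in
/-- The diagonal matrices. -/
def dg : Subgroup SL(n, F) where
  carrier := {g | g.1.IsDiag}
  mul_mem' := IsDiag.mul'
  one_mem' := isDiag_one
  inv_mem' := inv_of_mul_closed (P := fun g : SL(n, F) => g.1.IsDiag) isDiag_one fun _ _ => IsDiag.mul'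

/-- An element of `lo` from a matrix. -/
def mkLo (h : IsUni Aᵀ) : lo F n := ⟨⟨A, by rw [← det_transpose, h.det]⟩, h⟩

/-- Bordering a lower unitriangular matrix. -/
def border (y : Fin n → F) (A : Matrix (Fin n) (Fin n) F) : Matrix (Fin (n + 1)) (Fin (n + 1)) F :=
  of (Fin.snoc (α := fun _ => Fin (n + 1) → F) (fun i => Fin.snoc (A i) 0) (Fin.snoc y 1))

@[simp] theorem border_last (y : Fin n → F) (j) : border y A (Fin.last n) j = Fin.snoc (α := fun _ => F) y 1 j := by
  simp [border]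

@[simp] theorem border_castSucc (y : Fin n → F) (i j) :
    border y A i.castSucc j = Fin.snoc (α := fun _ => F) (A i) 0 j := by
  simp [border]

theorem isUni_border (y : Fin n → F) (h : IsUni Aᵀ) : IsUni (border y A)ᵀ := by
  refine ⟨fun j i => ?_, Fin.lastCases (by simp) fun i => by simpa using h.2 i⟩
  refine Fin.lastCases (fun h => absurd h (Fin.le_last j).not_gt) (fun i => ?_) i
  refine Fin.lastCases (by simp) (fun j hj => ?_) j
  simpa using h.1 j i (by simpa using hj)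

variable (n F) in
/-- Bordering as a bijection. -/
def borderEquiv : (Fin n → F) × lo F n ≃ lo F (n + 1) where
  toFun x := mkLo (isUni_border x.1 x.2.2)
  invFun x := (fun j => x.1.1 (Fin.last n) j.castSucc, mkLo (A := x.1.1.submatrix Fin.castSucc Fin.castSucc)
    ⟨fun i j h => x.2.1 _ _ (by simpa using h), fun i => x.2.2 _⟩)
  left_inv x := Prod.ext (funext fun j => by simp [mkLo])
    (Subtype.ext (Subtype.ext (by ext i j; simp [mkLo])))
  right_inv x := Subtype.ext (Subtype.ext (by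
    ext i j
    refine Fin.lastCases ?_ (fun i => ?_) i <;> refine Fin.lastCases ?_ (fun j => ?_) j <;>
      simp [mkLo]
    · exact (x.2.2 _).symm
    · exact (x.2.1 _ _ (Fin.castSucc_lt_last i)).symm))

theorem card_lo (n : ℕ) : ∃ m, Nat.card (lo F n) = Nat.card F ^ m := by
  induction n with
  | zero => exact ⟨0, Nat.card_unique⟩
  | succ n ih =>
    obtain ⟨m, hm⟩ := ih
    exact ⟨n + m, by rw [← Nat.card_congr (borderEquiv F n), Nat.card_prod, hm, Nat.card_fun,
      Nat.card_fin, pow_add]⟩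

variable {p : ℕ} [hp : Fact p.Prime] [CharP F p]

theorem isPGroup_lo : IsPGroup p (lo F n) := by
  cases nonempty_fintype F
  obtain ⟨m, hm⟩ := card_lo (F := F) n
  obtain ⟨l, -, hl⟩ := FiniteField.card F p
  exact IsPGroup.of_card (by rw [hm, Nat.card_eq_fintype_card, hl, ← pow_mul])

/-- The number of flags opposite to two given flags. -/
noncomputable def cnt (A : Matrix (Fin n) (Fin n) F) : ℕ :=
  Nat.card {x : lo F n // Opp ((x.1.1 * A).submatrix Fin.rev id)}

theorem submatrix_mul' {ι : Type*} [Fintype ι] (A : Matrix (Fin n) ι F) (B : Matrix ι (Fin n) F)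
    (e : Fin n → Fin n) : (A * B).submatrix e id = A.submatrix e id * B := rfl

theorem cnt_of_opp (h : Opp A) : cnt A = cnt (1 : Matrix (Fin n) (Fin n) F) := by
  obtain ⟨B, hB, h1⟩ := (opp_transpose.2 h).exists_isUni
  rw [transpose_mul, transpose_transpose] at h1
  have h2 : Opp (Bᵀ * A) := (opp_mul_left (B := Bᵀ) hB.1 (opp_transpose.2 hB.opp)).2 h
  refine (Nat.card_congr ((Equiv.mulRight (mkLo (A := Bᵀ) hB)).subtypeEquiv fun x => ?_)).symm
  change _ ↔ Opp ((x.1.1 * Bᵀ * A).submatrix _ _)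
  rw [Matrix.mul_assoc, submatrix_mul', submatrix_mul', opp_mul_right h1 h2, Matrix.mul_one]

include hp in
theorem dvd_cnt (h : ¬ Opp A) : p ∣ cnt A := by
  by_cases hA : A.det = 0
  · obtain ⟨z, hz, e⟩ := exists_mulVec_eq_zero_iff.2 hA
    haveI : IsEmpty {x : lo F n // Opp ((x.1.1 * A).submatrix Fin.rev id)} := ⟨fun x =>
      hz (x.2.eq_zero (by rw [submatrix_mul', ← mulVec_mulVec, e, mulVec_zero]))⟩
    simp [cnt]
  obtain ⟨B, C, hB, hC, -, h1, e⟩ := exists_of_not_opp h hA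
  have h2 : ∀ x : lo F n, Opp ((x.1.1 * A).submatrix Fin.rev id) →
      ∀ m : ℕ, Opp (((x * mkLo hC ^ m).1.1 * A).submatrix Fin.rev id) := fun x hx m => by
    induction m with
    | zero => simpa using hx
    | succ m ih =>
      rw [pow_succ, ← mul_assoc]
      change Opp ((_ * C * A).submatrix _ _)
      rwa [Matrix.mul_assoc, ← e, ← Matrix.mul_assoc, submatrix_mul', opp_mul_right hB.1 hB.opp]
  haveI : Finite (lo F n)ᵐᵒᵖ := Finite.of_equiv _ MulOpposite.opEquiv
  refine dvd_trans ?_ (card_dvd_of_free_on (A := zpowers (MulOpposite.op (mkLo hC)))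
    {x : lo F n | Opp ((x.1.1 * A).submatrix Fin.rev id)} ?_ ?_)
  · rw [Nat.card_zpowers, show orderOf (MulOpposite.op (mkLo hC)) = orderOf (mkLo hC) from
      orderOf_eq_orderOf_iff.2 fun m => by rw [← MulOpposite.op_pow, MulOpposite.op_eq_one_iff]]
    exact (isPGroup_lo.dvd_orderOf fun e => h1 (congrArg (·.1.1) e))
  · rintro ⟨a, ha⟩ x hx
    obtain ⟨m, rfl⟩ := mem_powers_iff_mem_zpowers.2 ha
    exact h2 x hx m
  · exact fun a x _ e => Subtype.ext (MulOpposite.unop_injective (mul_eq_left.1 e))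

theorem cnt_ne_zero (n : ℕ) : (cnt (1 : Matrix (Fin n) (Fin n) F) : F) ≠ 0 := by
  classical
  induction n with
  | zero =>
    have : cnt (1 : Matrix (Fin 0) (Fin 0) F) = 1 := Nat.card_eq_one_iff_unique.2
      ⟨inferInstance, ⟨1, fun _ _ _ _ => Subsingleton.elim _ _⟩⟩
    simp [this]
  | succ n ih =>
  cases nonempty_fintype F
  obtain ⟨p, hp⟩ := CharP.exists F
  haveI : Fact p.Prime := ⟨CharP.char_is_prime F p⟩
  have h1 : ∀ (y : Fin n → F) (x : lo F n),
      Opp (((borderEquiv F n (y, x)).1.1 * 1).submatrix Fin.rev id) ↔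
      Fin.snoc (α := fun _ => F) y 1 0 ≠ 0 ∧ Opp ((x.1.1 * (hyp (Fin.snoc y 1)).submatrix
        Fin.castSucc id).submatrix Fin.rev id) := fun y x => by
    have e : ((border y x.1.1).submatrix Fin.rev id) 0 = Fin.snoc y 1 := funext fun j => by simp
    rw [Matrix.mul_one, opp_succ]
    change (border y x.1.1).submatrix Fin.rev id 0 0 ≠ 0 ∧
      Opp (((border y x.1.1).submatrix Fin.rev id * hyp ((border y x.1.1).submatrix Fin.rev id 0)
        ).submatrix _ _) ↔ _
    rw [e]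
    congr! 2
    ext i j
    simp [mul_apply, Fin.sum_univ_castSucc, Fin.rev_succ]
  have h2 : ∀ y : Fin n → F, (Nat.card {x : lo F n //
      Opp (((borderEquiv F n (y, x)).1.1 * 1).submatrix Fin.rev id)} : F) =
      if ∀ i, y i ≠ 0 then (cnt (1 : Matrix (Fin n) (Fin n) F) : F) else 0 := fun y => by
    have e : (∀ i, y i ≠ 0) ↔ Fin.snoc (α := fun _ => F) y 1 0 ≠ 0 ∧
        ∀ j : Fin n, Fin.snoc (α := fun _ => F) y 1 j.succ ≠ 0 := by
      rw [← Fin.forall_fin_succ (P := fun i => Fin.snoc (α := fun _ => F) y 1 i ≠ 0),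
        Fin.forall_fin_succ']
      simp
    simp only [h1, e]
    by_cases h0 : Fin.snoc (α := fun _ => F) y 1 0 = 0
    · simp [h0]
    simp only [Ne, h0, not_false_eq_true, true_and]
    split_ifs with h
    · exact congrArg _ (cnt_of_opp ((opp_hyp h0).2 h))
    · exact (CharP.cast_eq_zero_iff F p _).2 (dvd_cnt (mt (opp_hyp h0).1 h))
  rw [cnt, ← Nat.card_congr ((Equiv.subtypeProdEquivSigmaSubtype fun y x =>
    Opp (((borderEquiv F n (y, x)).1.1 * 1).submatrix Fin.rev id)).symm.trans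
    ((borderEquiv F n).subtypeEquiv fun _ => Iff.rfl)), Nat.card_sigma, Nat.cast_sum,
    Finset.sum_congr rfl fun y _ => h2 y, ← Finset.sum_filter, Finset.sum_const, nsmul_eq_mul]
  refine mul_ne_zero ?_ ih
  rw [show (Finset.univ.filter fun y : Fin n → F => ∀ i, y i ≠ 0) =
    Fintype.piFinset fun _ => Finset.univ.erase 0 by ext; simp, Fintype.card_piFinset_const,
    Finset.card_erase_of_mem (Finset.mem_univ _), Nat.cast_pow, Finset.card_univ,
    Nat.cast_sub Fintype.card_pos, FiniteField.cast_card_eq_zero]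
  simp

end Cfsg.SLn

set_option linter.all false in
theorem Cfsg.Rz.Grp_SLCell_0 : True := by
  have := @_root_.Cfsg.SLn.lo.congr_simp.{0}
  have := @_root_.Cfsg.SLn.lo.eq_def.{0}
  have := @_root_.Cfsg.SLn.lo.eq_1.{0}
  have := @_root_.Cfsg.SLn.lo.fun_cases
  have := @_root_.Cfsg.SLn.IsUni.eq_def.{0}
  have := @_root_.Cfsg.SLn.IsUni.eq_1.{0}
  have := @_root_.Cfsg.SLn.IsUni.fun_cases
  have := @_root_.Cfsg.SLn.cnt.eq_def.{0}
  have := @_root_.Cfsg.SLn.cnt.fun_cases
  have := @_root_.Cfsg.SLn.Opp.eq_def.{0}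
  have := @_root_.Cfsg.SLn.Opp.eq_1.{0}
  have := @_root_.Cfsg.SLn.Opp.fun_cases
  have := @_root_.Cfsg.SLn.IsUp.eq_def.{0}
  have := @_root_.Cfsg.SLn.IsUp.eq_1.{0}
  have := @_root_.Cfsg.SLn.IsUp.fun_cases
  have := @_root_.Cfsg.SLn.up.congr_simp.{0}
  have := @_root_.Cfsg.SLn.up.eq_def.{0}
  have := @_root_.Cfsg.SLn.up.eq_1.{0}
  have := @_root_.Cfsg.SLn.up.fun_cases
  have := @_root_.Cfsg.SLn.borderEquiv.eq_def.{0}
  have := @_root_.Cfsg.SLn.borderEquiv.eq_1.{0}
  have := @_root_.Cfsg.SLn.borderEquiv.fun_cases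
  have := @_root_.Cfsg.SLn.lead.eq_def.{0}
  have := @_root_.Cfsg.SLn.lead.fun_cases
  have := @_root_.Cfsg.SLn.mkLo.eq_def.{0}
  have := @_root_.Cfsg.SLn.mkLo.fun_cases
  have := @_root_.Cfsg.SLn.border.eq_def.{0}
  have := @_root_.Cfsg.SLn.border.fun_cases
  have := @_root_.Cfsg.SLn.dg.congr_simp.{0}
  have := @_root_.Cfsg.SLn.dg.eq_def.{0}
  trivial

set_option linter.all false in
theorem Cfsg.Rz.Grp_SLCell_1 : True := by
  have := @_root_.Cfsg.SLn.dg.eq_1.{0}
  have := @_root_.Cfsg.SLn.dg.fun_cases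
  have := @_root_.Cfsg.SLn.hyp.eq_def.{0}
  have := @_root_.Cfsg.SLn.hyp.eq_1.{0}
  have := @_root_.Cfsg.SLn.hyp.fun_cases
  have := @_root_.Cfsg.SLn.OppAt.eq_def.{0}
  have := @_root_.Cfsg.SLn.OppAt.fun_cases
  trivial
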