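import Cfsg.Agent.Grp.Dbl

/-!
# `2`-groups with a cyclic subgroup of index four
-/

set_option autoImplicit false
set_option linter.unusedSectionVars false

namespace Cfsg

open Subgroup GA

universe u v

local notation "C(" Q ")" => Subgroup.centralizer ((Q : Subgroup _) : Set _)
local notation "N(" Q ")" => Subgroup.normalizer ((Q : Subgroup _) : Set _)

variable {G : Type u} [Group G] [Finite G] {A P Q : Subgroup G} {a b g s t u v w x y z : G} {n : ℕ}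

theorem exists_idx2 (hP : IsPGroup 2 P) (h : A < P) : ∃ t ∈ P, t ∉ A ∧ t * t ∈ A ∧ t ∈ N(A) := by
  obtain ⟨g, hg, hg'⟩ := SetLike.exists_of_lt (lt_inf_normalizer hP h)
  obtain ⟨k, h1, h2⟩ := Nat.exists_not_and_succ_of_not_zero_of_exists (p := fun k => g ^ 2 ^ k ∈ A)
    (by simpa) ((isPElt_iff_pow_eq_one.1 (isPElt_of_mem hP hg.1)).imp fun k hk => hk ▸ one_mem _)
  exact ⟨_, pow_mem hg.1 _, h1, by rwa [← sq, ← pow_mul], pow_mem hg.2 _⟩

theorem exists_sq_eq (hx : IsPElt 2 x) (h : s * s ∈ zpowers x) (h' : x ∉ zpowers s) :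
    ∃ b ∈ zpowers x, s * s = b * b := by
  obtain ⟨k, hk⟩ := (Submonoid.mem_powers_iff _ _).1 (mem_powers_iff_mem_zpowers.2 h)
  obtain ⟨i, rfl | rfl⟩ := Nat.even_or_odd' k
  · exact ⟨_, pow_mem (mem_zpowers x) i, by rw [← hk, two_mul, pow_add]⟩
  · obtain ⟨j, hj⟩ := hx
    exact absurd (zpowers_le.2 (hk ▸ mul_mem (mem_zpowers s) (mem_zpowers s)) (mem_zpowers_pow_iff.2
      (hj ▸ Nat.Coprime.pow_right j (Nat.coprime_two_right.2 ⟨i, rfl⟩)))) h'

theorem exists_cent_of_cyc (hP : IsPGroup 2 P) (I : Idx2 A P) (J : Idx2 (zpowers x) A)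
    (hA : A ≤ C(A)) (h1 : ∀ v ∈ A, orderOf v ≤ orderOf x) (h4 : x ^ 4 ∉ C(P)) :
    ∃ u ∈ P, u ∈ C(P) ∧ A ≤ zpowers x ⊔ zpowers u := by
  by_cases h2 : A ≤ zpowers x
  · exact ⟨1, one_mem _, one_mem _, h2.trans le_sup_left⟩
  obtain ⟨s, hs, hs'⟩ := SetLike.not_le_iff_exists.1 h2
  have hx := J.le (mem_zpowers x)
  have h3 := isPElt_of_mem hP (I.le hx)
  obtain ⟨b, hb, e⟩ := exists_sq_eq h3 (J.sq_mem hs) fun e => hs' ((eq_of_le_of_card_ge
    (zpowers_le.2 e) (by simpa only [Nat.card_zpowers] using h1 s hs)).ge (mem_zpowers s))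
  obtain ⟨s, hs, hs', h5⟩ : ∃ s ∈ A, s ∉ zpowers x ∧ s * s = 1 :=
    ⟨s * b⁻¹, mul_mem hs (inv_mem (J.le hb)), mt (mul_mem_cancel_right (inv_mem hb)).1 hs', by
      rw [mul_assoc, ← mul_assoc b⁻¹, hA hs _ (inv_mem (J.le hb)), mul_assoc, ← mul_assoc, e]; group⟩
  obtain ⟨y, hy, hy'⟩ := SetLike.not_le_iff_exists.1 fun e : P ≤ A => h4 fun g hg =>
    hA (pow_mem hx 4) g (e hg)
  have h6 : ∀ a ∈ A, ∀ k : ℤ, (x⁻¹ * a) ^ k = (x ^ k)⁻¹ * a ^ k := fun a ha k => by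
    rw [Commute.mul_zpow (hA ha _ (inv_mem hx)), inv_zpow']; simp
  have h7 := I.conj_mem hy hx
  have h8 := mul_mem (inv_mem hx) h7
  have h9 : (x⁻¹ * (y * x * y⁻¹)) ^ 4 ≠ 1 := fun e => h4 (I.mem_cent hy hy' (hA (pow_mem hx 4))
    (conj_eq_iff_comm.1 (by
      have := h6 _ h7 4
      rw [conj_zpow, zpow_ofNat, zpow_ofNat, e] at this
      exact (inv_mul_eq_one.1 this.symm).symm)))
  obtain ⟨k, hk⟩ : y * s * y⁻¹ * s⁻¹ ∈ zpowers (x⁻¹ * (y * x * y⁻¹)) := by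
    obtain ⟨j, hj⟩ := h3
    obtain ⟨j, rfl⟩ : ∃ i, j = i + 2 := Nat.exists_eq_add_of_le' (by
      by_contra! e
      exact h4 (orderOf_dvd_iff_pow_eq_one.1 (hj ▸ pow_dvd_pow 2 e.le) ▸ one_mem _))
    have h10 := orderOf_pow_half hj
    have h11 := I.conj_mem hy hs
    have h12 : y * s * y⁻¹ * (y * s * y⁻¹) = 1 := by rw [conj_mul, h5]; simp
    have h13 := eq_of_orderOf_eq_two_of_mem_zpowers (a := y * x ^ 2 ^ (j + 1) * y⁻¹) (by
      rw [← conj_pow, pow_succ', pow_mul, sq]; exact pow_mem (J.sq_mem h7) _)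
      (pow_mem (mem_zpowers x) _) ((orderOf_conj_eq _ _).trans h10) h10
    rcases eq_one_or_half hj (J.mul_inv h11 hs (fun e => (eq_one_or_half hj e h12).elim
      (fun e => hs' ((show s = 1 by simpa using e) ▸ one_mem _)) fun e =>
        hs' ((MulAut.conj y).injective (e.trans h13.symm) ▸ pow_mem (mem_zpowers x) _)) hs') (by
      rw [mul_assoc, ← mul_assoc s⁻¹, hA h11 _ (inv_mem hs), ← mul_assoc, ← mul_assoc, h12,
        inv_eq_of_mul_eq_one_right h5, one_mul, h5]) with e | e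
    · exact e ▸ one_mem _
    · refine e ▸ zpowers_le.2 (mul_mem (mem_zpowers _) (mem_zpowers _))
        (mem_zpowers_of_orderOf_dvd_of_mem (J.sq_mem h8) (pow_mem (mem_zpowers x) _) ?_)
      obtain ⟨i, hi⟩ := isPElt_of_mem hP (I.le (mul_mem h8 h8))
      rw [h10, hi]
      exact dvd_pow_self 2 fun e => h9 (by
        rw [show 4 = 2 * 2 from rfl, pow_mul, sq (x⁻¹ * _), orderOf_eq_one_iff.1
          (hi.trans (by rw [e]; rfl)), one_pow])
  have h10 := mul_mem (inv_mem (zpow_mem hx k)) hs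
  refine ⟨_, I.le h10, I.mem_cent hy hy' (hA h10) (conj_eq_iff_comm.1 ?_), fun a ha => (em _).elim
    (mem_sup_left ·) fun e => ?_⟩
  · simp only [h6 _ h7, conj_zpow] at hk
    rw [← conj_mul, ← conj_inv, ← mul_inv_eq_iff_eq_mul, mul_assoc, ← hk,
      ← hA (inv_mem (zpow_mem hx k)) _ (I.conj_mem hy (zpow_mem hx k)), inv_mul_cancel_left]
  · simpa [mul_assoc] using mul_mem (mul_mem (mem_sup_left (J.mul_inv ha hs e hs'))
      (mem_sup_left (zpow_mem (mem_zpowers x) k))) (mem_sup_right (mem_zpowers ((x ^ k)⁻¹ * s)))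

theorem exists_modular (hP : IsPGroup 2 P) (hx : x ∈ P) (ho : orderOf x = 2 ^ (n + 3))
    (hc : Nat.card P = 4 * orderOf x) (hC : ∀ g ∈ P, g * x = x * g → g ∈ zpowers x) :
    ∃ t ∈ P, t ∉ zpowers x ∧ t * t = 1 ∧ t * x * t⁻¹ = x * x ^ 2 ^ (n + 2) := by
  have h0 := isPElt_of_mem hP hx
  have h1 := orderOf_pos x
  obtain ⟨t, ht, h2, h3, h4⟩ : ∃ t ∈ P, t ∉ zpowers x ∧ t * t ∈ zpowers x ∧
      t * x * t⁻¹ = x * x ^ 2 ^ (n + 2) := by
    have key : ∀ t ∈ P, t ∉ zpowers x → t * t ∈ zpowers x → ∀ r, t * x * t⁻¹ = x ^ r → r % 4 = 1 →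
        t * x * t⁻¹ = x * x ^ 2 ^ (n + 2) := fun t ht h2 h3 r h4 h5 =>
      inv_mul_eq_iff_eq_mul.1 ((eq_one_or_half ho (h4 ▸ mul_mem (inv_mem (mem_zpowers x))
        (pow_mem (mem_zpowers x) r)) (sq_comm_of_mod_four h0 h4 h5 (comm_zpowers h3 (mem_zpowers x)))).resolve_left
        fun e => h2 (hC t ht (conj_eq_iff_comm.1 (inv_mul_eq_one.1 e).symm)))
    obtain ⟨t, ht, h2, h3, h4⟩ := exists_idx2 hP ((zpowers_le.2 hx).lt_of_ne fun e => by
      rw [← e, Nat.card_zpowers] at hc; omega)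
    obtain ⟨r, hr⟩ := exists_conj_eq_pow (conj_mem_of_mem_normalizer h4 (mem_zpowers x))
    have h5 := odd_of_conj_eq_pow ho hr
    by_cases h6 : r % 4 = 1
    · exact ⟨t, ht, h2, h3, key t ht h2 h3 r hr h6⟩
    have I := idx2_zpowers_sup h3 h4
    have h7 := mem_sup_left (T := zpowers x) (mem_zpowers t)
    have T : IsTame (n + 2) r _ x t _ := ⟨I.le (mem_zpowers x), h7, ho, h2,
      fun g hg => (em _).imp_right fun e => I.mul_inv hg h7 e h2, hr, by omega, rfl⟩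
    have h8 := I.card_eq h7 h2
    rw [Nat.card_zpowers] at h8
    have J := idx2_of_card (sup_le (zpowers_le.2 ht) (zpowers_le.2 hx)) (by omega)
    have h9 : ∀ y ∈ P, ∃ r, y * x * y⁻¹ = x ^ r := fun y hy => exists_conj_eq_pow (T.mem_of_pow_four
      (J.conj_mem hy T.mem_x) fun e => by
        have := Nat.le_of_dvd four_pos (orderOf_dvd_of_pow_eq_one e)
        rw [orderOf_conj_eq, ho, pow_add] at this
        have := Nat.one_le_two_pow (n := n)
        omega)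
    obtain ⟨y, hy, hy', k, h10, h11⟩ : ∃ y ∈ P, y ∉ zpowers t ⊔ zpowers x ∧
        ∃ k, y * x * y⁻¹ = x ^ k ∧ k % 4 = 1 := by
      obtain ⟨y, hy, hy'⟩ := SetLike.not_le_iff_exists.1 fun e : P ≤ zpowers t ⊔ zpowers x => by
        have := card_le_of_le e; omega
      obtain ⟨k, hk⟩ := h9 y hy
      have h10 := odd_of_conj_eq_pow ho hk
      refine (em _).elim (⟨y, hy, hy', k, hk, ·⟩) fun e => ⟨t * y, mul_mem ht hy,
        mt (mul_mem_cancel_left h7).1 hy', r * k, ?_, by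
          rw [Nat.mul_mod, T.hr, show k % 4 = 3 by omega]⟩
      rw [pow_mul, ← hr, conj_pow, ← hk]; group
    have h12 : y * y ∈ zpowers x := by_contra fun e => by
      have h12 := T.conj_of_notMem (J.sq_mem hy) e (mem_zpowers x)
      rw [show y * y * x * (y * y)⁻¹ = y * (y * x * y⁻¹) * y⁻¹ by group, h10, ← conj_pow, h10, ← pow_mul,
        pow_eq_pow_iff_modEq, ho, pow_succ', pow_add, ← mul_assoc] at h12
      have := h12.of_mul_left _
      simp [Nat.ModEq, Nat.mul_mod, h11, T.hr] at this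
    have h13 := fun e => hy' (I.le e)
    exact ⟨y, hy, h13, h12, key y hy h13 h12 k h10 h11⟩
  have h5 : t ∈ N(zpowers x) := mem_normalizer_fintype fun a ⟨k, hk⟩ => by
    rw [← hk, ← conj_zpow, h4]; exact zpow_mem (mul_mem (mem_zpowers x) (pow_mem (mem_zpowers x) _)) k
  have I := idx2_zpowers_sup h3 h5
  have h6 := mem_sup_left (T := zpowers x) (mem_zpowers t)
  obtain ⟨D, h7, -⟩ := modular (hP.to_le (sup_le (zpowers_le.2 ht) (zpowers_le.2 hx)))
    (I.le (mem_zpowers x)) (Nat.card_zpowers x ▸ I.card_le) ho h6 h4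
  obtain ⟨b, hb, e⟩ := exists_sq_eq h0 h3 fun e => h2 (hC t ht (comm_zpowers (mem_zpowers t) e))
  have key : ∀ c ∈ zpowers x, t * c * (t * c) = 1 → ∃ t ∈ P, t ∉ zpowers x ∧ t * t = 1 ∧
      t * x * t⁻¹ = x * x ^ 2 ^ (n + 2) := fun c hc e => ⟨_, mul_mem ht (zpowers_le.2 hx hc),
    mt (mul_mem_cancel_right hc).1 h2, e, by
      rw [← h4]; conv_rhs => rw [← conj_eq_iff_comm.2 (comm_zpowers hc (mem_zpowers x))]
      group⟩
  have h8 : t * b⁻¹ * (t * b⁻¹) = t * b⁻¹ * t⁻¹ * b := by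
    rw [← inv_mul_cancel_right (t * b⁻¹ * (t * b⁻¹)) b, ← mul_inv_cancel_right (t * b⁻¹ * t⁻¹ * b) b,
      mul_assoc _ b b, ← e]
    group
  rcases D.conj t h6 _ (I.le (inv_mem hb)) with e' | e'
  · exact key _ (inv_mem hb) (by simp [h8, e'])
  · refine key _ (mul_mem (inv_mem hb) (pow_mem (mem_zpowers x) (2 ^ (n + 1)))) ?_
    rw [← mul_assoc t, mul_assoc, ← mul_assoc (x ^ _), ← h7 _ (mul_mem h6 (I.le (inv_mem hb))),
      mul_assoc (t * b⁻¹), ← mul_assoc (t * b⁻¹), h8, e', ← pow_add, ← two_mul, ← pow_succ',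
      D.cent _ (I.le (inv_mem hb)), inv_mul_cancel_right, D.sq]

theorem exists_isDbl (hP : IsPGroup 2 P) (hx : x ∈ P) (ho : orderOf x = 2 ^ (n + 4))
    (hc : Nat.card P = 4 * orderOf x) (hC : ∀ g ∈ P, g * x = x * g → g ∈ zpowers x)
    (h4 : x ^ 4 ∉ C(P)) : x ^ 2 ^ (n + 3) ∈ C(P) ∧ ∀ {H : Type v} [Group H] [Finite H] (φ : P →* H),
      (∀ a, φ a = 1 ↔ (a : G) ∈ zpowers (x ^ 2 ^ (n + 3))) →
        ∃ A x t z, IsDbl (n + 1) φ.range A x t z := by
  obtain ⟨t, ht, h1, h2, h3⟩ := exists_modular hP hx ho hc hC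
  have h5 : t ∈ N(zpowers x) := mem_normalizer_fintype fun a ⟨k, hk⟩ => by
    rw [← hk, ← conj_zpow, h3]; exact zpow_mem (mul_mem (mem_zpowers x) (pow_mem (mem_zpowers x) _)) k
  have I := idx2_zpowers_sup (h2 ▸ one_mem _) h5
  have h6 := mem_sup_left (T := zpowers x) (mem_zpowers t)
  have h7 := fun g => mem_zpowers_sup_iff (g := g) (h2 ▸ one_mem _) h5
  have h8 := I.card_eq h6 h1
  rw [Nat.card_zpowers] at h8
  have J := idx2_of_card (sup_le (zpowers_le.2 ht) (zpowers_le.2 hx)) (by omega)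
  generalize zpowers t ⊔ zpowers x = A at *
  have hxA := I.le (mem_zpowers x)
  obtain ⟨D, h9, -⟩ := modular (hP.to_le J.le) hxA h8.le ho h6 h3
  have h10 := orderOf_pow_half ho
  have h11 : ∀ g ∈ P, g * x ^ 2 ^ (n + 3) * g⁻¹ = x ^ 2 ^ (n + 3) := fun g hg =>
    D.fix (mem_normalizer_fintype fun a => J.conj_mem hg)
  have h12 : x ^ 2 ^ (n + 2) * x ^ 2 ^ (n + 2) = x ^ 2 ^ (n + 3) := by
    rw [← pow_add, ← two_mul, ← pow_succ']
  have h13 : ∀ a ∈ A, a * a ∈ zpowers (x * x) := fun a ha => by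
    have key : ∀ b ∈ zpowers x, b * b ∈ zpowers (x * x) := fun b ⟨k, hk⟩ =>
      ⟨k, hk ▸ (Commute.refl x).mul_zpow k⟩
    refine ((h7 a).1 ha).elim (key a) fun e => ?_
    have h13 := key _ e
    rcases D.conj t h6 a ha with e' | e'
    · rwa [mul_assoc, ← mul_assoc a, ← conj_eq_iff_comm.1 e', ← mul_assoc, ← mul_assoc, h2, one_mul] at h13
    · rw [inv_eq_of_mul_eq_one_right h2] at e'
      rwa [← mul_assoc, e', mul_assoc, ← D.cent a ha,
        ← mul_assoc, mul_mem_cancel_right (h12 ▸ key _ (pow_mem (mem_zpowers x) _))] at h13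
  have h14 : ∀ w ∈ P, w ∉ A → ∃ r, r % 4 = 3 ∧ ∀ k, w * x ^ 2 ^ (k + 1) * w⁻¹ = (x ^ 2 ^ (k + 1)) ^ r :=
    fun w hw hw' => by
      obtain ⟨r, hr⟩ := exists_conj_eq_pow (x := x * x) (y := w) (by
        rw [← conj_mul]; exact h13 _ (J.conj_mem hw hxA))
      have h14 : orderOf (x * x) = 2 ^ (n + 2 + 1) := by
        rw [← sq, orderOf_pow_of_dvd two_ne_zero (ho ▸ dvd_pow_self 2 (by omega)), ho, pow_succ,
          Nat.mul_div_cancel _ two_pos]
      have h15 := odd_of_conj_eq_pow h14 hr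
      refine ⟨r, by_contra fun e => h4 (J.mem_cent hw hw' ?_ (conj_eq_iff_comm.1 ?_)), fun k => by
        rw [pow_succ', pow_mul, sq, ← conj_pow, hr, pow_right_comm]⟩
      · rw [show 4 = 2 * 2 from rfl, pow_mul, sq x]; exact pow_mem (D.sq_cent hxA) 2
      · have := sq_comm_of_mod_four ⟨_, h14⟩ hr (by omega) (D.sq_cent hxA _ (J.sq_mem hw))
        rw [mul_assoc, ← mul_assoc _ (x * x)⁻¹, inv_mem (D.sq_cent hxA) _ (J.conj_mem hw (mul_mem hxA hxA)),
          mul_assoc, conj_mul, ← mul_assoc, ← mul_inv_rev, inv_mul_eq_one] at this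
        simpa only [show 4 = 2 * 2 from rfl, pow_mul, sq] using this.symm
  refine ⟨fun g hg => conj_eq_iff_comm.1 (h11 g hg), fun {H} _ _ φ hφ => ?_⟩
  have h15 : ∀ a b : P, (a : G) = b ∨ (a : G) = b * x ^ 2 ^ (n + 3) ↔ φ a = φ b := fun a b => by
    rw [eq_comm (a := φ a), ← inv_mul_eq_one (a := φ b), ← map_inv, ← map_mul, hφ, coe_mul, coe_inv]
    exact ⟨fun e => by rcases e with e | e <;> simp [e], fun e =>
      (eq_one_or_eq_of_mem_zpowers_of_orderOf_two h10 e).imp (fun e => (inv_mul_eq_one.1 e).symm)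
        inv_mul_eq_iff_eq_mul.1⟩
  have h16 : ∀ a : P, φ a ∈ (A.subgroupOf P).map φ ↔ (a : G) ∈ A := fun a =>
    ⟨fun ⟨b, hb, e⟩ => ((h15 a b).2 e.symm).elim (· ▸ hb) (· ▸ mul_mem hb D.mem), fun e => ⟨a, e, rfl⟩⟩
  have h17 : ∀ a : P, φ a ∈ zpowers (φ ⟨x, hx⟩) ↔ (a : G) ∈ zpowers x := fun a =>
    ⟨fun ⟨k, e⟩ => ((h15 a _).2 ((map_zpow φ _ k).trans e).symm).elim (· ▸ zpow_mem (mem_zpowers x) k)
      (· ▸ mul_mem (zpow_mem (mem_zpowers x) k) (pow_mem (mem_zpowers x) _)),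
      fun ⟨k, e⟩ => ⟨k, (map_zpow φ _ k).symm.trans (congrArg φ (Subtype.ext e))⟩⟩
  refine ⟨(A.subgroupOf P).map φ, φ ⟨x, hx⟩, φ ⟨t, ht⟩, _, hP.of_surjective _ φ.rangeRestrict_surjective,
    ⟨map_le_range _ _, ?_⟩, ?_, (h16 _).2 hxA, (h16 _).2 h6, ?_, rfl,
    by rw [← map_mul, hφ, coe_mul, h2]; exact one_mem _, mt (h17 _).1 h1, ?_, ?_, ?_, ?_, .inl (by omega), ?_⟩
  · rintro _ ⟨v, rfl⟩ _ ⟨w, rfl⟩ hv hw
    exact map_mul φ v w ▸ (h16 _).2 (J.mul v v.2 w w.2 (mt (h16 v).2 hv) (mt (h16 w).2 hw))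
  · rintro _ ⟨a, ha, rfl⟩ _ ⟨b, hb, rfl⟩
    rw [← conj_eq_iff_comm, ← map_inv, ← map_mul, ← map_mul, ← h15]
    exact D.conj b hb a ha
  · refine orderOf_eq_prime_pow ?_ ?_ <;> rw [← map_pow, hφ]
    · exact fun e => (eq_one_or_eq_of_mem_zpowers_of_orderOf_two h10 e).elim
        (fun e => D.ne (by rw [← h12]; simp [show x ^ 2 ^ (n + 2) = 1 from e]))
        fun e => D.ne (by simpa [show x ^ 2 ^ (n + 2) = _ from e, D.sq] using h12.symm)
    · exact mem_zpowers _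
  · rintro _ ⟨g, rfl⟩
    rw [← conj_eq_iff_comm, ← map_inv, ← map_mul, ← map_mul, ← h15]
    have h18 := J.conj_mem g.2 h6
    have h19 : g * t * (g : G)⁻¹ * (g * t * (g : G)⁻¹) = 1 := by rw [conj_mul, h2]; simp
    have h20 := ((h7 _).1 h18).resolve_left fun e => (eq_one_or_half ho e h19).elim
      (fun e => h1 ((show t = 1 by simpa using e) ▸ one_mem _)) fun e =>
        h1 ((MulAut.conj (g : G)).injective (e.trans (h11 g g.2).symm) ▸ pow_mem (mem_zpowers x) _)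
    refine (eq_one_or_half ho h20 ?_).imp (fun e => ?_) fun e => ?_
    · by_contra e
      have h21 := D.mul_sq h6 h18 fun e' => e (by
        generalize g * t * (g : G)⁻¹ = v at *
        rw [mul_assoc, ← mul_assoc _ t, e', ← mul_assoc, ← mul_assoc, h2, one_mul, h19])
      rw [h2, h19, one_mul, one_mul] at h21
      have := zpowers_le.2 h9 (mem_zpowers_of_orderOf_dvd_of_mem (pow_mem (mem_zpowers x) _) h20 (by
        rw [orderOf_pow_of_dvd (by positivity) (ho ▸ pow_dvd_pow 2 (by omega)), ho,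
          Nat.pow_div (by omega) two_pos, show n + 4 - (n + 2) = 2 by omega]
        exact orderOf_dvd_of_pow_eq_one (by rw [sq, pow_mul, sq, sq, h21, D.sq]))) t h6
      rw [← mul_assoc, h2, one_mul] at this
      exact e (by rw [← mul_assoc, ← this, h19])
    · exact (eq_inv_of_mul_eq_one_right e).trans (inv_eq_of_mul_eq_one_right h2)
    · exact (eq_inv_mul_iff_mul_eq.2 e).trans (by rw [inv_eq_of_mul_eq_one_right h2])
  · rintro _ ⟨a, ha, rfl⟩
    exact ((h7 a).1 ha).imp (h17 a).2 fun e => map_mul φ _ a ▸ (h17 (⟨t, ht⟩ * a)).2 e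
  · rintro _ ⟨w, rfl⟩ hw
    obtain ⟨r, h18, h19⟩ := h14 w w.2 (mt (h16 w).2 hw)
    rw [eq_inv_iff_mul_eq_one, ← map_pow, ← map_inv, ← map_mul, ← map_mul, ← map_mul, hφ]
    refine ⟨(r + 1) / 4, ?_⟩
    simp only [coe_mul, coe_inv, coe_pow, h19]
    rw [← pow_succ, show (r + 1 : ℤ) / 4 = ((r + 1) / 4 : ℕ) by simp, zpow_natCast, ← pow_mul, ← pow_mul]
    congr 1
    rw [pow_add 2 (n + 1) 2, mul_assoc]
    congr 1
    omega
  · rintro _ ⟨w, rfl⟩ hw e
    obtain ⟨r, h18, h19⟩ := h14 w w.2 (mt (h16 w).2 hw)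
    have h20 : (w : G) * x ^ 2 ^ (n + 2) * (w : G)⁻¹ = x ^ 2 ^ (n + 2) := by
      rw [← map_pow, ← map_mul, ← h15] at e
      have h20 := conj_eq_iff_comm.2 (mul_assoc (w : G) w w).symm
      rcases e with e | e <;> simp only [coe_mul, coe_pow] at e <;> rw [e] at h20
      exacts [h20, by rwa [← conj_mul, h11 w w.2, mul_left_inj] at h20]
    rw [h19, ← Nat.div_add_mod r 4, h18, pow_add, pow_mul, show 4 = 2 * 2 from rfl, pow_mul, sq, sq, h12,
      D.sq, one_pow, one_mul, pow_succ, sq, h12, mul_eq_right] at h20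
    exact D.ne h20
  · obtain ⟨y, hy, hy'⟩ := SetLike.not_le_iff_exists.1 fun e : P ≤ A => by
      have := card_le_of_le e; have := orderOf_pos x; omega
    exact ⟨_, ⟨⟨y, hy⟩, rfl⟩, mt (h16 _).1 hy'⟩

end Cfsg
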