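import Cfsg.Agent.Grp.FormOrth

/-!
# Sylow `2`-subgroups of symplectic and special linear groups in odd characteristic
-/

set_option autoImplicit false

namespace Cfsg

open Subgroup formIsom FormBlk Module

universe u v w

variable {F : Type u} [Field F] {V : Type v} [AddCommGroup V] [Module F V]
  {M : Type w} [AddCommGroup M] [Module F M]
  {B : LinearMap.BilinForm F V} {β : LinearMap.BilinForm F M}

theorem exists_central_mod_of_isPGroup {G : Type*} [Group G] [Finite G] {p : ℕ} [Fact p.Prime]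
    {Q Z : Subgroup G} [Z.Normal] (hQ : IsPGroup p Q) (h : ¬ Q ≤ Z) :
    ∃ x ∈ Q, x ∉ Z ∧ x ^ p ∈ Z ∧ ∀ y ∈ Q, y * x * y⁻¹ * x⁻¹ ∈ Z := by
  have h1 := hQ.map (QuotientGroup.mk' Z)
  have h2 := inf_centralizer_ne_bot_of_isPGroup h1 h1 le_normalizer
    (mt map_mk'_eq_bot_iff.mp h)
  obtain ⟨⟨_, ⟨x, hx, rfl⟩, hc⟩, h3⟩ := exists_prime_orderOf_dvd_card' p
    (dvd_card_of_isPGroup_of_ne_bot (h1.to_le inf_le_left) h2)
  replace h3 : orderOf (QuotientGroup.mk' Z x) = p := (orderOf_coe _).trans h3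
  refine ⟨x, hx, fun h4 => ?_, ?_, fun y hy => ?_⟩
  · rw [show ((QuotientGroup.mk' Z) x) = 1 from (QuotientGroup.eq_one_iff x).mpr h4] at h3
    exact (Fact.out : p.Prime).ne_one (by simpa using h3.symm)
  · rw [← QuotientGroup.eq_one_iff, ← h3]
    exact pow_orderOf_eq_one ((QuotientGroup.mk' Z) x)
  · rw [← QuotientGroup.eq_one_iff]
    have : (y : G ⧸ Z) * x = x * y := hc _ (mem_map_of_mem _ hy)
    simp [this]

theorem isPGroup_zpowers_of_pow {G : Type*} [Group G] {p k : ℕ} {x : G} (h : x ^ p ^ k = 1) :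
    IsPGroup p (zpowers x) := by
  rintro ⟨_, n, rfl⟩
  refine ⟨k, Subtype.ext ?_⟩
  change (x ^ n) ^ p ^ k = 1
  rw [← zpow_natCast, ← zpow_mul, mul_comm, zpow_mul, zpow_natCast, h, one_zpow]

/-- The isometry `-1`. -/
def formIsom.neg (B : LinearMap.BilinForm F V) : formIsom B :=
  ⟨LinearEquiv.neg F, fun u v => by simp⟩

@[simp] theorem formIsom.neg_apply (v : V) : (neg B).1 v = -v := rfl

theorem formIsom.mem_zpowers_neg {g : formIsom B} :
    g ∈ zpowers (neg B) ↔ g = 1 ∨ g = neg B := by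
  have h : neg B * neg B = 1 := formIsom.ext fun v => neg_neg v
  refine ⟨?_, by rintro (rfl | rfl); exacts [one_mem _, mem_zpowers _]⟩
  rintro ⟨k, rfl⟩
  have h2 : neg B ^ (2 : ℤ) = 1 := by rw [zpow_two, h]
  rcases Int.even_or_odd' k with ⟨j, rfl | rfl⟩
  · exact Or.inl (by simp only [zpow_mul, h2, one_zpow])
  · exact Or.inr (by simp only [zpow_add, zpow_mul, h2, one_zpow, one_mul, zpow_one])

instance : (zpowers (neg B)).Normal := ⟨fun n hn g => by
  rcases mem_zpowers_neg.mp hn with rfl | rfl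
  · simp
  · exact mem_zpowers_neg.mpr (Or.inr (formIsom.ext fun v => by simp [-Subgroup.coe_mul]))⟩

/-- The determinant form on the plane. -/
def planeDet (F : Type u) [Field F] : LinearMap.BilinForm F (F × F) :=
  (LinearMap.mul F F).compl₁₂ (LinearMap.fst F F F) (LinearMap.snd F F F) -
    (LinearMap.mul F F).compl₁₂ (LinearMap.snd F F F) (LinearMap.fst F F F)

@[simp] theorem planeDet_apply (x y : F × F) : planeDet F x y = x.1 * y.2 - x.2 * y.1 := rfl

theorem exists_plane_entries (g : F × F →ₗ[F] F × F) : ∃ a b c d : F,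
    (∀ v : F × F, g v = (a * v.1 + b * v.2, c * v.1 + d * v.2)) ∧ g.det = a * d - b * c := by
  refine ⟨(g (1, 0)).1, (g (0, 1)).1, (g (1, 0)).2, (g (0, 1)).2, fun v => ?_, ?_⟩
  · have : v = v.1 • (1, 0) + v.2 • (0, 1) := by simp
    conv_lhs => rw [this, map_add, map_smul, map_smul]
    simp [mul_comm, Prod.ext_iff]
  · rw [← LinearMap.det_toMatrix (Basis.finTwoProd F), Matrix.det_fin_two]
    simp [LinearMap.toMatrix_apply, Basis.coe_finTwoProd_repr]

theorem mem_formIsom_planeDet {g : (F × F) ≃ₗ[F] (F × F)} :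
    g ∈ formIsom (planeDet F) ↔ LinearEquiv.det g = 1 := by
  obtain ⟨a, b, c, d, h1, h2⟩ := exists_plane_entries g.toLinearMap
  replace h1 : ∀ v : F × F, g v = (a * v.1 + b * v.2, c * v.1 + d * v.2) := h1
  rw [← Units.val_inj, LinearEquiv.coe_det, h2]
  refine ⟨fun h => ?_, fun h u v => ?_⟩
  · simpa [h1, mul_comm] using h (1, 0) (0, 1)
  · simp only [h1, planeDet_apply]
    rw [Units.val_one] at h
    linear_combination (u.1 * v.2 - u.2 * v.1) * h

theorem exists_sl_entries (g : formIsom (planeDet F)) : ∃ a b c d : F,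
    (∀ v : F × F, g.1 v = (a * v.1 + b * v.2, c * v.1 + d * v.2)) ∧ a * d - b * c = 1 := by
  obtain ⟨a, b, c, d, h1, h2⟩ := exists_plane_entries g.1.toLinearMap
  exact ⟨a, b, c, d, h1, h2.symm.trans (by
    rw [← LinearEquiv.coe_det, mem_formIsom_planeDet.mp g.2, Units.val_one])⟩

theorem sl_eq_one_or_neg (h2 : (2 : F) ≠ 0) {g : formIsom (planeDet F)} (hg : g * g = 1) :
    g = 1 ∨ g = neg _ := by
  obtain ⟨a, b, c, d, h1, h⟩ := exists_sl_entries g
  have e1 := formIsom.congr hg (1, 0)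
  have e2 := formIsom.congr hg (0, 1)
  simp only [mul_apply, h1, one_apply, Prod.ext_iff] at e1 e2
  obtain rfl : d = a := by linear_combination a * h - d * e1.1 + b * e1.2
  have h4 : b = 0 := mul_left_cancel₀ h2 (by linear_combination d * e2.1 - b * (h + e1.1))
  have h5 : c = 0 := mul_left_cancel₀ h2 (by linear_combination d * e1.2 - c * (h + e1.1))
  have h6 : d ^ 2 = 1 := by rw [h4] at h; linear_combination h
  refine (sq_eq_one_iff.mp h6).imp (fun h => ?_) fun h => ?_ <;>
    exact formIsom.ext fun v => by simp [h1, h4, h5, h, Prod.ext_iff]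

theorem sl_exists_comb (h2 : (2 : F) ≠ 0) {x g : formIsom (planeDet F)} (hx : x * x = neg _)
    (hg : g * x = x * g) : ∃ s t : F, s ^ 2 + t ^ 2 = 1 ∧ ∀ v, g.1 v = s • v + t • x.1 v := by
  obtain ⟨a, b, c, d, h1, h⟩ := exists_sl_entries g
  obtain ⟨p, q, r, s, h3, h'⟩ := exists_sl_entries x
  have e1 := formIsom.congr hx (1, 0)
  have e2 := formIsom.congr hg (1, 0)
  have e3 := formIsom.congr hg (0, 1)
  simp only [mul_apply, h1, h3, formIsom.neg_apply, Prod.ext_iff, Prod.fst_neg, Prod.snd_neg]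
    at e1 e2 e3
  obtain rfl : s = -p := by linear_combination -p * h' + s * e1.1 - q * e1.2
  obtain ⟨s, hs⟩ : ∃ s, 2 * s = a + d := ⟨(a + d) / 2, by field_simp⟩
  obtain ⟨t, ht⟩ : ∃ t, 2 * t = -(p * (a - d) + b * r + c * q) := ⟨_ / 2, mul_div_cancel₀ _ h2⟩
  obtain rfl : a = s + t * p := mul_left_cancel₀ h2 (by
    linear_combination -hs - p * ht - (a - d) * h' - r * e3.1 - p * e2.1)
  obtain rfl : d = s - t * p := by linear_combination -hs
  obtain rfl : b = t * q := mul_left_cancel₀ h2 (by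
    linear_combination -q * ht - 2 * b * h' + p * e3.1 - q * e2.1)
  obtain rfl : c = t * r := mul_left_cancel₀ h2 (by
    linear_combination -r * ht - 2 * c * h' - p * e2.2 + r * e2.1)
  refine ⟨s, t, by linear_combination h - t ^ 2 * h', fun v => ?_⟩
  simp only [h1, h3, Prod.ext_iff, Prod.fst_add, Prod.snd_add, Prod.smul_fst, Prod.smul_snd,
    smul_eq_mul]
  constructor <;> ring

/-- The complex structure of the plane as an isometry of a form. -/
def planeJ' {β : LinearMap.BilinForm F (F × F)}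
    (h : ∀ u v : F × F, β (-u.2, u.1) (-v.2, v.1) = β u v) : formIsom β :=
  mk' (planeJ F) (-planeJ F) (fun v => by simp) (fun v => by simp) h

@[simp] theorem planeJ'_apply {β : LinearMap.BilinForm F (F × F)}
    (h : ∀ u v : F × F, β (-u.2, u.1) (-v.2, v.1) = β u v) (v : F × F) :
    (planeJ' h).1 v = (-v.2, v.1) := rfl

theorem exists_sq_add_sq [Finite F] (h2 : (2 : F) ≠ 0) (c : F) : ∃ a b : F, a ^ 2 + b ^ 2 = c := by
  have hB : IsOrthForm (planeDot F) := ⟨fun u v => by simp [mul_comm], fun u h =>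
    Prod.ext (by simpa using h (1, 0)) (by simpa using h (0, 1))⟩
  obtain ⟨w, hw⟩ := hB.exists_eq h2 (by simp) c
  exact ⟨w.1, w.2, by simpa [pow_two] using hw⟩

theorem sylowEA_planeDet [Finite F] (h2 : (2 : F) ≠ 0) : SylowEA 2 (formIsom (planeDet F)) := by
  let J : formIsom (planeDet F) := planeJ' fun u v => by simp; ring
  obtain ⟨a, b, hab⟩ := exists_sq_add_sq h2 (-1)
  let k : F × F →ₗ[F] F × F := (a • LinearMap.fst F F F + b • LinearMap.snd F F F).prod
    (b • LinearMap.fst F F F - a • LinearMap.snd F F F)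
  have hk : ∀ v, k v = (a * v.1 + b * v.2, b * v.1 - a * v.2) := fun _ => rfl
  have hkk : ∀ v, k (k v) = -v := fun v => Prod.ext
    (by simp only [hk, Prod.fst_neg]; linear_combination v.1 * hab)
    (by simp only [hk, Prod.snd_neg]; linear_combination v.2 * hab)
  let K : formIsom (planeDet F) := mk' k (-k) (fun v => by simp [hkk]) (fun v => by simp [hkk])
    fun u v => by simp only [hk, planeDet_apply]; linear_combination (u.2 * v.1 - u.1 * v.2) * hab
  have hn : ∀ x : formIsom (planeDet F), neg _ * x = x * neg _ := fun x =>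
    formIsom.ext fun v => (map_neg _ _).symm
  have hnn : neg (planeDet F) * neg _ = 1 := formIsom.ext fun v => neg_neg v
  have hne : neg (planeDet F) ≠ 1 := fun h => h2 (by
    have := congrArg Prod.fst (formIsom.congr h (1, 0))
    simp at this
    linear_combination -this)
  have hJ : J * J = neg _ := formIsom.ext fun v => by simp [J, Prod.ext_iff, -Subgroup.coe_mul]
  have hK : K * K = neg _ := formIsom.ext hkk
  have hKJ : K * J = neg _ * (J * K) := formIsom.ext fun v => by
    simp [J, K, hk, Prod.ext_iff, -Subgroup.coe_mul]; constructor <;> ring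
  have h4 : ∀ x : formIsom (planeDet F), x * x = neg _ → x ^ 2 ^ 2 = 1 := fun x hx => by
    rw [pow_two 2, pow_mul, pow_two x, hx, pow_two, hnn]
  obtain ⟨Q, hQ⟩ := ((isPGroup_zpowers_of_pow (h4 K hK)).to_sup_of_normal_right'
    (isPGroup_zpowers_of_pow (h4 J hJ)) (zpowers_le.mpr (mem_normalizer_of_map_conj_le (by
      rw [MonoidHom.map_zpowers, zpowers_le]
      change K * J * K⁻¹ ∈ _
      rw [hKJ, ← hJ, mul_assoc, mul_inv_cancel_right]
      exact mul_mem (mul_mem (mem_zpowers _) (mem_zpowers _)) (mem_zpowers _))))).exists_le_sylow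
  have hKQ : K ∈ (Q : Subgroup _) := hQ (mem_sup_left (mem_zpowers _))
  have hJQ : J ∈ (Q : Subgroup _) := hQ (mem_sup_right (mem_zpowers _))
  have hc : ¬ K * J = J * K := fun h => hne (mul_right_cancel (b := J * K) (by rw [← hKJ, h, one_mul]))
  obtain ⟨x, hx, h5, h6, h7⟩ := exists_central_mod_of_isPGroup (Z := zpowers (neg _)) Q.isPGroup'
    fun h => by
      rcases mem_zpowers_neg.mp (h hKQ) with h' | h' <;> simp [h', hn] at hc
  have hxx : x * x = neg _ := (pow_two x).symm.trans ((mem_zpowers_neg.mp h6).resolve_left fun h =>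
    h5 (mem_zpowers_neg.mpr (sl_eq_one_or_neg h2 (pow_two x ▸ h))))
  have h8 : ∀ y ∈ (Q : Subgroup _), ¬ y * x = x * y → ∀ g, g * x = x * g → y * g * y⁻¹ = g⁻¹ := by
    intro y hy hyx g hg
    have h9 : y * x = neg _ * (x * y) := by
      rw [← (mem_zpowers_neg.mp (h7 y hy)).resolve_left fun h => hyx (by
        rwa [mul_inv_eq_one, mul_inv_eq_iff_eq_mul] at h)]
      group
    obtain ⟨s, t, hst, hg⟩ := sl_exists_comb h2 hxx hg
    rw [eq_inv_iff_mul_eq_one, mul_assoc, mul_assoc, mul_eq_one_comm, mul_assoc, mul_assoc,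
      mul_eq_one_comm, mul_assoc, mul_assoc, inv_mul_eq_one]
    refine formIsom.ext fun v => ?_
    have e1 : ∀ v, y.1 (x.1 v) = -x.1 (y.1 v) := formIsom.congr h9
    have e2 : ∀ v, x.1 (x.1 v) = -v := formIsom.congr hxx
    simp only [mul_apply, hg, map_add, map_smul, e1, e2, map_neg]
    match_scalars
    · linear_combination -hst
    · ring
  obtain ⟨y, hy, hyx⟩ : ∃ y ∈ (Q : Subgroup _), ¬ y * x = x * y := by
    by_contra! h
    obtain ⟨s, t, -, h1⟩ := sl_exists_comb h2 hxx (h K hKQ)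
    obtain ⟨s', t', -, h3⟩ := sl_exists_comb h2 hxx (h J hJQ)
    exact hc (formIsom.ext fun v => by
      simp only [mul_apply, h1, h3, map_add, map_smul]; module)
  have h9 : ∀ g ∈ Q.1, g * x = x * g → g ^ 2 ∈ ⁅Q.1, Q.1⁆ :=
    fun g hg hgx => by
      have := commutator_mem_commutator hg hy
      rwa [commutatorElement_def, mul_assoc, mul_assoc, ← mul_assoc y,
        h8 y hy hyx _ (Commute.inv_left hgx).eq, inv_inv, ← pow_two] at this
  refine sylowEA_of_abExp Q.isPGroup' Q.not_dvd_index (abExp_iff_le_powComm.mpr fun g hg =>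
    mem_powComm.mpr ⟨hg, ?_⟩)
  by_cases hgx : g * x = x * g
  · exact h9 g hg hgx
  have h10 : g * g * x = x * (g * g) := by
    have := h8 g hg hgx x rfl
    have h' : g * x⁻¹ * g⁻¹ = x := by rw [← conj_inv, this, inv_inv]
    rw [← mul_inv_eq_iff_eq_mul, ← h']
    nth_rw 2 [← this]
    rw [h']
    group
  have h11 := h8 g hg hgx _ h10
  rw [mul_assoc g, mul_inv_cancel_right, eq_inv_iff_mul_eq_one] at h11
  rcases sl_eq_one_or_neg h2 h11 with h | h
  · rw [pow_two, h]; exact one_mem _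
  · rw [pow_two, h, ← hxx, ← pow_two]; exact h9 x hx rfl

theorem SylowEA.inf_range_le_powComm {G G' : Type*} [Group G] [Group G'] [Finite G'] {p : ℕ}
    [Fact p.Prime] {f : G →* G'} (hf : Function.Injective f) (h : SylowEA p G) {S : Subgroup G'}
    (hS : IsPGroup p S) (hi : ¬ p ∣ S.relIndex f.range) : S ⊓ f.range ≤ powComm p (S ⊓ f.range) :=
  have := Finite.of_injective f hf
  (h.range f).inf_le_powComm hS hi

theorem map_sylow_perm_le {G : Type*} [Group G] {I : Type*} [Finite I] (τ : Equiv.Perm I →* G)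
    (T : Sylow 2 (Equiv.Perm I)) {K : Subgroup G} (h : ∀ σ ∈ T, σ ^ 2 = 1 → τ σ ∈ K) :
    (T : Subgroup _).map τ ≤ K :=
  map_le_iff_le_comap.mpr ((sylow_perm_le_closure I T).trans
    ((closure_le _).mpr fun σ hσ => h σ hσ.1 hσ.2))

/-- Symplectic groups. -/
theorem sylowEA_formIsom_of_alt [Finite F] [FiniteDimensional F V] (h2 : (2 : F) ≠ 0)
    (hB : ∀ u, B u u = 0) (hB' : ∀ u, (∀ v, B u v = 0) → u = 0) : SylowEA 2 (formIsom B) := by
  have := Module.finite_of_finite F (M := V)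
  have hs : ∀ u v, B u v = -B v u := fun u v => by
    have := hB (u + v)
    simp only [map_add, LinearMap.add_apply, hB] at this
    linear_combination this
  have hJ : IsCxModel (planeDet F) (planeJ' fun u v => by simp; ring) :=
    isCxModel_plane h2 (fun _ => rfl) fun t b h1 h3 h => h2 (by
      have := formIsom.map_map t (1, 0) (0, 1)
      rw [h1, h3] at this
      simp at this
      linear_combination h - this)
  obtain ⟨I, _, V₀, D, T, S, h0, hS, hi, hT, hle, hi1, -⟩ := hJ.exists_sylow h2 B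
  refine sylowEA_of_abExp hS hi (abExp_iff_le_powComm.mpr (hle.trans (sup_le
    (map_sylow_perm_le _ T fun σ h1 h3 => mem_powComm_of_pow_eq_one (hT (mem_map_of_mem _ h1))
      (by rw [← map_pow, h3, map_one])) (sup_le (iSup_le fun i => ?_) ?_))))
  · exact ((sylowEA_planeDet h2).inf_range_le_powComm (D.b i).ι_injective hS (hi1 i)).trans
      (powComm_mono inf_le_left)
  rintro _ ⟨-, g, rfl⟩
  suffices h : ∀ u : V₀, u = 0 by
    rw [show g = 1 from formIsom.ext fun v => (h _).trans (h _).symm, map_one]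
    exact one_mem _
  by_contra! h
  obtain ⟨u, hu⟩ := h
  obtain ⟨v, hv⟩ : ∃ v, B.restrict V₀ u v ≠ 0 := by
    by_contra! h
    exact hu (D.b₀.a_injective ((hB' _ fun v => by rw [form_a, h]).trans (map_zero _).symm))
  obtain ⟨v, hv⟩ : ∃ v, B.restrict V₀ u v = 1 :=
    ⟨(B.restrict V₀ u v)⁻¹ • v, by rw [map_smul, smul_eq_mul, inv_mul_cancel₀ hv]⟩
  have h3 : ∀ u, B.restrict V₀ u u = 0 := fun u => hB u
  have h4 : ∀ u v, B.restrict V₀ u v = -B.restrict V₀ v u := fun u v => hs u v
  generalize B.restrict V₀ = γ at h0 hv h3 h4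
  have hv' : γ v u = -1 := by rw [h4, hv]
  refine h0.false ⟨(LinearMap.toSpanSingleton F _ u).coprod (LinearMap.toSpanSingleton F _ v),
    (-γ v).prod (γ u), fun m => by simp [hv, hv', h3], fun m m' => by
      simp [hv, hv', h3]; ring, fun m x hx => ?_, fun m x hx => ?_⟩
  all_goals
    obtain ⟨h1, h5⟩ : -γ v x = 0 ∧ γ u x = 0 := Prod.ext_iff.mp hx
    simp [neg_eq_zero.mp h1, h5, h4 x]

theorem sylowEA_symplecticGroup [Fintype F] (hF : Odd (Fintype.card F)) (l : Type*) [Fintype l]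
    [DecidableEq l] : SylowEA 2 (Matrix.symplecticGroup l F) := by
  let B := Matrix.toBilin' (Matrix.J l F)
  have key : ∀ A : Matrix (l ⊕ l) (l ⊕ l) F, A ∈ Matrix.symplecticGroup l F ↔
      ∀ u v, B (A.toLin' u) (A.toLin' v) = B u v := fun A => by
    rw [SymplecticGroup.mem_iff', ← Matrix.toBilin'.injective.eq_iff, ← Matrix.toBilin'_comp]
    exact LinearMap.ext_iff₂
  let φ : formIsom B →* Matrix.symplecticGroup l F :=
    { toFun := fun g => ⟨LinearMap.toMatrix' g.1.toLinearMap, (key _).mpr (by simp)⟩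
      map_one' := Subtype.ext LinearMap.toMatrix'_id
      map_mul' := fun g h => Subtype.ext (LinearMap.toMatrix'_comp _ _) }
  refine (sylowEA_formIsom_of_alt (two_ne_zero_of_odd_card hF) (fun u => ?_) fun u h => ?_).of_surjective
    φ fun A => ⟨mk' (Matrix.toLin' A.1) (Matrix.toLin' (A⁻¹).1) (fun v => ?_) (fun v => ?_)
      ((key _).mp A.2), Subtype.ext (LinearMap.toMatrix'_toLin' _)⟩
  · simp [B, Matrix.toBilin'_apply', Matrix.J, Matrix.fromBlocks_mulVec, dotProduct,
      Matrix.neg_mulVec, mul_comm]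
  · funext i
    rcases i with i | i
    · simpa [B, Matrix.toBilin'_apply', Matrix.J, Matrix.fromBlocks_mulVec, dotProduct,
        Matrix.neg_mulVec, Pi.single_apply, Matrix.one_apply] using h (Pi.single (.inr i) 1)
    · simpa [B, Matrix.toBilin'_apply', Matrix.J, Matrix.fromBlocks_mulVec, dotProduct,
        Matrix.neg_mulVec, Pi.single_apply, Matrix.one_apply] using h (Pi.single (.inl i) 1)
  · rw [← Matrix.toLin'_mul_apply, ← Submonoid.coe_mul, mul_inv_cancel]; simp
  · rw [← Matrix.toLin'_mul_apply, ← Submonoid.coe_mul, inv_mul_cancel]; simp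

/-- The determinant on an isometry group. -/
noncomputable def formDet (B : LinearMap.BilinForm F V) : formIsom B →* Fˣ :=
  LinearEquiv.det.comp (formIsom B).subtype

theorem coe_formDet (g : formIsom B) : (formDet B g : F) = LinearMap.det g.1.toLinearMap :=
  LinearEquiv.coe_det _

theorem FormBlk.formDet_ι [FiniteDimensional F V] (b : FormBlk B β) (g : formIsom β) :
    formDet B (b.ι g) = formDet β g := by
  have := Module.Finite.of_injective b.a b.a_injective
  let e : (M × LinearMap.ker b.p) ≃ₗ[F] V := LinearEquiv.ofLinearMap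
    (b.a.coprod (LinearMap.ker b.p).subtype)
    (b.p.prod (LinearMap.codRestrict _ (LinearMap.id - b.e) b.p_sub))
    (LinearMap.ext fun v => add_sub_cancel _ _) (LinearMap.ext fun x => by
      have : b.p (b.a x.1 + x.2) = x.1 := by simp [show b.p x.2 = 0 from x.2.2]
      refine Prod.ext this (Subtype.ext ?_)
      change b.a x.1 + x.2 - b.a (b.p (b.a x.1 + x.2)) = x.2
      rw [this, add_sub_cancel_left])
  have h : (b.ι g).1.toLinearMap = e.toLinearMap ∘ₗ g.1.toLinearMap.prodMap LinearMap.id ∘ₗ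
      e.symm.toLinearMap := LinearMap.ext fun v => add_comm _ _
  rw [← Units.val_inj, coe_formDet, coe_formDet, h, LinearMap.det_conj, LinearMap.det_prodMap]
  simp

theorem formDet_injective_of_finrank_le_one [FiniteDimensional F V] (hd : finrank F V ≤ 1) :
    Function.Injective (formDet B) := (injective_iff_map_eq_one _).mpr fun g hg => by
  rcases hd.eq_or_lt with h | h
  · obtain ⟨u, hu⟩ := finrank_le_one_iff.mp hd
    obtain ⟨c, hc⟩ := hu (g.1 u)
    have h1 : g.1.toLinearMap = c • LinearMap.id := LinearMap.ext fun v => by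
      obtain ⟨d, rfl⟩ := hu v
      simp [← hc, smul_smul, mul_comm]
    have h3 := coe_formDet g
    rw [hg, h1, LinearMap.det_smul, h] at h3
    exact formIsom.ext fun v => (LinearMap.congr_fun h1 v).trans (by
      rw [show c = 1 by simpa using h3.symm]; simp)
  · have := finrank_zero_iff.mp (Nat.lt_one_iff.mp h)
    exact formIsom.ext fun v => Subsingleton.elim _ _

theorem FormBlk.nonempty_zero [FiniteDimensional F V] [FiniteDimensional F M] (hB : B = 0)
    (hd : finrank F M ≤ finrank F V) : Nonempty (FormBlk B (0 : LinearMap.BilinForm F M)) := by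
  obtain ⟨a, ha⟩ := finrank_le_iff_exists_linearMap.mp hd
  obtain ⟨p, hp⟩ := a.exists_leftInverse_of_injective (LinearMap.ker_eq_bot.mpr ha)
  subst hB
  exact ⟨⟨a, p, LinearMap.congr_fun hp, fun _ _ => rfl, fun _ _ _ => rfl, fun _ _ _ => rfl⟩⟩

theorem sylowEA_specialLinearGroup_of_ker [Finite F] {n : Type*} [Fintype n] [DecidableEq n]
    (h : SylowEA 2 (formDet (0 : LinearMap.BilinForm F (n → F))).ker) :
    SylowEA 2 (Matrix.SpecialLinearGroup n F) := by
  let φ : Matrix.SpecialLinearGroup n F →* formIsom (0 : LinearMap.BilinForm F (n → F)) :=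
    Matrix.SpecialLinearGroup.toLin'.codRestrict _ fun _ _ _ => rfl
  refine SylowEA.of_range (f := φ) (fun A A' h => Matrix.SpecialLinearGroup.toLin'_injective
    (congrArg Subtype.val h)) ?_
  suffices h' : φ.range = (formDet 0).ker from h' ▸ h
  ext g
  rw [MonoidHom.mem_ker, ← Units.val_inj, coe_formDet]
  constructor
  · rintro ⟨A, rfl⟩
    exact (LinearMap.det_toLin' _).trans A.2
  · exact fun h => ⟨⟨LinearMap.toMatrix' g.1.toLinearMap, (LinearMap.det_toMatrix' _).trans h⟩,
      formIsom.ext (LinearMap.congr_fun (Matrix.toLin'_toMatrix' g.1.toLinearMap))⟩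

theorem sq_eq_one_of_pow_eq_one (h : ¬ IsSquare (-1 : F)) {d : F} {k : ℕ} (hd : d ^ 2 ^ k = 1) :
    d ^ 2 = 1 := by
  induction k with
  | zero => rw [show d = 1 by simpa using hd, one_pow]
  | succ k ih =>
    rw [pow_succ, pow_mul] at hd
    rcases sq_eq_one_iff.mp hd with h1 | h1
    · exact ih h1
    rcases k with _ | k
    · simpa using hd
    · exact absurd ⟨d ^ 2 ^ k, by rw [← h1, pow_succ, pow_mul, pow_two]⟩ h

/-- Special linear groups when `-1` is not a square. -/
theorem sylowEA_ker_formDet_of_not_isSquare [Finite F] [FiniteDimensional F V]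
    (h1 : ¬ IsSquare (-1 : F)) : SylowEA 2 (formDet (0 : LinearMap.BilinForm F V)).ker := by
  have h2 : (2 : F) ≠ 0 := fun h => h1 ⟨1, by linear_combination -h⟩
  have := Module.finite_of_finite F (M := V)
  have hJ : IsCxModel (0 : LinearMap.BilinForm F (F × F)) (planeJ' fun _ _ => rfl) :=
    isCxModel_plane h2 (fun _ => rfl) fun t b _ _ h => h1 ⟨b, by rw [← h, pow_two]⟩
  obtain ⟨I, _, V₀, D, T, S, h0, hS, hi, hT, hle, hi1, -⟩ :=
    hJ.exists_sylow h2 (0 : LinearMap.BilinForm F V)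
  set H := (formDet (0 : LinearMap.BilinForm F V)).ker
  refine sylowEA_of_le inf_le_right (hS.to_le inf_le_left) (by
    rw [inf_relIndex_right]; exact fun h => hi (h.trans (relIndex_normal_dvd_index _ _))) ?_
  have hdet : ∀ g ∈ S, g ∉ H → formDet _ g = -1 := fun g hg hg' => by
    obtain ⟨k, hk⟩ := hS ⟨g, hg⟩
    have h3 : (formDet _ g : F) ^ 2 ^ k = 1 := by
      rw [← Units.val_pow_eq_pow_val, ← map_pow, show g ^ 2 ^ k = 1 from congrArg Subtype.val hk]
      simp
    exact Units.val_injective ((sq_eq_one_iff.mp (sq_eq_one_of_pow_eq_one h1 h3)).resolve_left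
      fun h => hg' (Units.val_injective h))
  have hmul : ∀ g ∈ S, ∀ g' ∈ S, g ∉ H → g' ∉ H → g * g' ∈ H := fun g hg g' hg' h h' => by
    rw [MonoidHom.mem_ker, map_mul, hdet g hg h, hdet g' hg' h']; simp
  let A : Option I → Subgroup (formIsom (0 : LinearMap.BilinForm F V)) := fun o =>
    S ⊓ o.elim D.b₀.ι.range fun i => (D.b i).ι.range
  have hc : ∀ i j, i ≠ j → ∀ x ∈ A i, ∀ y ∈ A j, Commute x y := by
    rintro (_ | i) (_ | j) hij _ ⟨-, g, rfl⟩ _ ⟨-, h, rfl⟩
    · exact absurd rfl hij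
    · exact (D.orth₀ j).symm.commute g h
    · exact (D.orth₀ i).commute g h
    · have : i ≠ j := fun h => hij (by rw [h])
      exact Orth.commute ⟨D.orth _ _ this, D.orth _ _ this.symm⟩ g h
  have hd0 : finrank F V₀ ≤ 1 := by
    by_contra! h
    exact h0.false (FormBlk.nonempty_zero rfl (by simp; omega)).some
  have hinj := formDet_injective_of_finrank_le_one (B := LinearMap.BilinForm.restrict 0 V₀) hd0
  have hA : ∀ i, A i ⊓ H ≤ powComm 2 (S ⊓ H) := by
    rintro (_ | i)
    · rintro _ ⟨⟨-, g, rfl⟩, h⟩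
      rw [(injective_iff_map_eq_one _).mp hinj g ((D.b₀.formDet_ι g).symm.trans h), map_one]
      exact one_mem _
    · let κ : formIsom (planeDet F) →* formIsom (0 : LinearMap.BilinForm F (F × F)) :=
        inclusion fun _ _ _ _ => rfl
      have h3 : ((D.b i).ι.comp κ).range = (D.b i).ι.range ⊓ H := by
        refine le_antisymm ?_ ?_
        · rintro _ ⟨g, rfl⟩
          exact ⟨⟨_, rfl⟩, ((D.b i).formDet_ι _).trans (mem_formIsom_planeDet.mp g.2)⟩
        · rintro _ ⟨⟨g, rfl⟩, h⟩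
          exact ⟨⟨g, mem_formIsom_planeDet.mpr (((D.b i).formDet_ι g).symm.trans h)⟩, rfl⟩
      have := (sylowEA_planeDet h2).inf_range_le_powComm (f := (D.b i).ι.comp κ)
        ((D.b i).ι_injective.comp (inclusion_injective _)) hS (h3 ▸ not_dvd_relIndex_of_le_normalizer
          (hi1 i) inf_le_left (le_normalizer_inf le_normalizer le_normalizer_of_normal))
      rw [h3, ← inf_assoc] at this
      exact this.trans (powComm_mono (inf_le_inf_right _ inf_le_left))
  have hr : ∀ i, ∀ g ∈ A i, g ∉ H → ∃ r ∈ A i, r ∉ H ∧ r * r = 1 := by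
    rintro (_ | i) g hg hg'
    · refine ⟨g, hg, hg', ?_⟩
      obtain ⟨h3, g, rfl⟩ := hg
      rw [← map_mul, (injective_iff_map_eq_one _).mp hinj (g * g) ((D.b₀.formDet_ι _).symm.trans
        (map_mul D.b₀.ι g g ▸ hmul _ h3 _ h3 hg' hg')), map_one]
    · let r : formIsom (0 : LinearMap.BilinForm F (F × F)) :=
        ⟨(LinearEquiv.neg F).prodCongr (LinearEquiv.refl F F), fun _ _ => rfl⟩
      have h3 : r * r = 1 := formIsom.ext fun v => by simp [r]
      have h4 : (formDet _ r : F) = -1 :=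
        (coe_formDet r).trans ((LinearMap.det_prodMap (-LinearMap.id) LinearMap.id).trans (by simp))
      obtain ⟨x, hx, h5⟩ := exists_conj_mem_of_not_dvd_relIndex hS (hi1 i) (x := (D.b i).ι r)
        ⟨r, rfl⟩ (k := 1) (by rw [pow_one, pow_two, ← map_mul, h3, map_one])
      refine ⟨_, mem_inf.mpr ⟨h5, mul_mem (mul_mem hx ⟨r, rfl⟩) (inv_mem hx)⟩, fun h => h2 ?_, ?_⟩
      · have h6 : (D.b i).ι r ∈ H := by simpa [mul_assoc] using Normal.conj_mem' inferInstance _ h x
        rw [← (D.b i).formDet_ι r, MonoidHom.mem_ker.mp h6, Units.val_one] at h4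
        linear_combination h4
      · rw [conj_mul, ← map_mul, h3]; simp
  have hS' : S ≤ closure ({x | ∃ i, x ∈ A i} ∪ {t | t ∈ powComm 2 (S ⊓ H)}) :=
    hle.trans (sup_le (map_sylow_perm_le _ T fun σ h3 h4 => ?_) (sup_le (iSup_le fun i x hx =>
      subset_closure (Or.inl ⟨some i, hx⟩)) fun x hx => subset_closure (Or.inl ⟨none, hx⟩)))
  · by_cases h : ∃ i, ∃ r ∈ A i, r ∉ H ∧ r * r = 1
    · obtain ⟨i, a, ha, ha', haa⟩ := h
      refine inf_le_of_two_cosets (a := a) (b := 1) hS' ((powComm_le _).trans inf_le_right)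
        (fun y => conj_mem_powComm (le_normalizer_inf le_normalizer le_normalizer_of_normal ha.1))
        (by simp) haa (mul_one 1) (Commute.one_right a) ?_ (fun h => absurd h ha')
        (fun _ => one_mem _) fun h => absurd (mul_one a ▸ h) ha'
      rintro x (⟨j, hx⟩ | hx)
      swap
      · exact Or.inl hx
      by_cases hxH : x ∈ H
      · exact Or.inl (hA j ⟨hx, hxH⟩)
      obtain ⟨r, h3, h4, h5⟩ := hr j x hx hxH
      refine Or.inr (Or.inl ?_)
      rw [show a * x = a * r * (r * x) by rw [mul_assoc, ← mul_assoc r, h5, one_mul]]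
      refine mul_mem ?_ (hA j ⟨mul_mem h3 hx, hmul _ h3.1 _ hx.1 h4 hxH⟩)
      have h6 := hmul _ ha.1 _ h3.1 ha' h4
      rcases eq_or_ne i j with rfl | hij
      · exact hA i ⟨mul_mem ha h3, h6⟩
      · exact mem_powComm_of_pow_eq_one ⟨mul_mem ha.1 h3.1, h6⟩
          (by rw [(hc i j hij a ha r h3).mul_pow, pow_two, pow_two, haa, h5, mul_one])
    · refine inf_le_left.trans (hS'.trans ((closure_le _).mpr ?_))
      rintro x (⟨j, hx⟩ | hx)
      · exact hA j ⟨hx, of_not_not fun h' => h ⟨j, hr j x hx h'⟩⟩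
      · exact hx
  · have h5 := hT (mem_map_of_mem _ h3)
    refine subset_closure (Or.inr (mem_powComm_of_pow_eq_one ⟨h5, of_not_not fun h => h1 ?_⟩
      (by rw [← map_pow, h4, map_one])))
    obtain ⟨x, hx⟩ := D.isSquare_τ h2 hJ.sq h4
    exact ⟨formDet _ x, by rw [← Units.val_mul, ← map_mul, ← hx, hdet _ h5 h]; simp⟩

/-- Special linear groups of `2`-power degree when `-1` is a square. -/
theorem sylowEA_ker_formDet_of_isSquare [Finite F] [FiniteDimensional F V] (h2 : (2 : F) ≠ 0)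
    (h1 : IsSquare (-1 : F)) {k : ℕ} (hk : finrank F V = 2 ^ (k + 1)) :
    SylowEA 2 (formDet (0 : LinearMap.BilinForm F V)).ker := by
  have := Module.finite_of_finite F (M := V)
  let μ : Fˣ →* formIsom (0 : LinearMap.BilinForm F F) :=
    (DistribMulAction.toModuleAut F F).codRestrict _ fun _ _ _ => rfl
  have hμ : ∀ c, formDet _ (μ c) = c := fun c => Units.val_injective (by
    rw [coe_formDet, LinearMap.det_ring]; exact mul_one _)
  have hinj := formDet_injective_of_finrank_le_one (B := (0 : LinearMap.BilinForm F F))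
    (finrank_self F).le
  have hμ' : ∀ g, μ (formDet _ g) = g := fun g => hinj (hμ _)
  obtain ⟨i, hi⟩ := h1
  have hi0 : i ≠ 0 := by rintro rfl; simp at hi
  have hJ : IsCxModel (0 : LinearMap.BilinForm F F) (μ (Units.mk0 i hi0)) :=
    ⟨fun m => show i * (i * m) = -m by rw [← mul_assoc, ← hi, neg_one_mul], fun t ht _ => by
      have h3 : (formDet _ t : F) ^ 2 = 1 := by
        rw [← Units.val_pow_eq_pow_val, ← map_pow, pow_two, ht]; simp
      refine (sq_eq_one_iff.mp h3).imp (fun h m => ?_) fun h m => ?_ <;> rw [← hμ' t] <;>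
        change (formDet _ t : F) * m = _ <;> simp [h]⟩
  obtain ⟨I, _, V₀, D, T, S, h0, hS, hi', hT, hle, hi1, -⟩ :=
    hJ.exists_sylow h2 (0 : LinearMap.BilinForm F V)
  set H := (formDet (0 : LinearMap.BilinForm F V)).ker
  refine sylowEA_of_le inf_le_right (hS.to_le inf_le_left) (by
    rw [inf_relIndex_right]; exact fun h => hi' (h.trans (relIndex_normal_dvd_index _ _))) ?_
  have hd0 : finrank F V₀ = 0 := by
    by_contra! h
    exact h0.false (FormBlk.nonempty_zero rfl (by rw [finrank_self]; omega)).some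
  have hI : Nat.card I = 2 ^ (k + 1) := by
    simpa [hd0, hk] using D.finrank_eq.symm
  -- the diagonal elements
  let ε : I → Fˣ →* formIsom (0 : LinearMap.BilinForm F V) := fun i => (D.b i).ι.comp μ
  have hε : ∀ i c, formDet _ (ε i c) = c := fun i c => ((D.b i).formDet_ι _).trans (hμ c)
  have hεc : ∀ i j c d, Commute (ε i c) (ε j d) := fun i j c d => by
    rcases eq_or_ne i j with rfl | h
    · exact (Commute.all c d).map _
    · exact Orth.commute ⟨D.orth _ _ h, D.orth _ _ h.symm⟩ _ _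
  have hεS : ∀ i (c : Fˣ) (m : ℕ), c ^ 2 ^ m = 1 → ε i c ∈ S := fun i c m hc => by
    obtain ⟨_, ⟨g, rfl⟩, h⟩ := exists_conj_mem_of_not_dvd_relIndex hS (hi1 i) (x := ε i c)
      ⟨_, rfl⟩ (k := m) (by rw [← map_pow, hc, map_one])
    rwa [← hμ' g, show (D.b i).ι (μ _) = ε i _ from rfl, (hεc i i _ c).eq,
      mul_inv_cancel_right] at h
  have hdet : ∀ g ∈ S, ∃ m, formDet _ g ^ 2 ^ m = 1 := fun g hg => by
    obtain ⟨m, hm⟩ := hS ⟨g, hg⟩
    exact ⟨m, by rw [← map_pow, show g ^ 2 ^ m = 1 from congrArg Subtype.val hm, map_one]⟩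
  have hτ : ∀ σ i c, D.τ σ * ε i c * (D.τ σ)⁻¹ = ε (σ i) c := fun σ i c => D.τ_conj σ i _
  have hY : ∀ i j (c : Fˣ) (m : ℕ), c ^ 2 ^ m = 1 → ε i c * (ε j c)⁻¹ ∈ powComm 2 (S ⊓ H) := by
    intro i j c m hc
    obtain ⟨σ, h3, h4, h5⟩ := exists_swap_mem_sylow hI T i j
    have h6 := hT (mem_map_of_mem _ h3)
    obtain ⟨m', hm'⟩ := hdet _ h6
    have h7 : ε i c * (ε j c)⁻¹ ∈ S ⊓ H := mem_inf.mpr ⟨mul_mem (hεS i c m hc) (inv_mem (hεS j c m hc)),
      MonoidHom.mem_ker.mpr (by rw [map_mul, map_inv, hε, hε, mul_inv_cancel])⟩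
    have h8 : D.τ σ * (ε i (formDet _ (D.τ σ)))⁻¹ ∈ S ⊓ H := mem_inf.mpr
      ⟨mul_mem h6 (inv_mem (hεS i _ m' hm')),
      MonoidHom.mem_ker.mpr (by rw [map_mul, map_inv, hε, mul_inv_cancel])⟩
    refine mem_powComm.mpr ⟨h7, ?_⟩
    convert commutator_mem_commutator h7 h8 using 1
    have e1 : Commute (ε i (formDet _ (D.τ σ)))⁻¹ (ε i c * (ε j c)⁻¹)⁻¹ :=
      ((hεc _ _ _ _).mul_right (hεc _ _ _ _).inv_right).inv_inv
    rw [commutatorElement_def, pow_two, mul_assoc _ (_ * _), mul_assoc _ (_ * _), mul_right_inj,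
      mul_assoc (D.τ σ), e1.eq, mul_inv_rev (D.τ σ), ← mul_assoc, ← mul_assoc,
      inv_inv, inv_mul_cancel_right, ← conj_inv, ← conj_mul, hτ, ← conj_inv, hτ, h4, h5, mul_inv_rev,
      inv_inv]
  set Y := powComm 2 (S ⊓ H)
  have hn : S ≤ normalizer (Y : Set _) := fun s hs => mem_normalizer_of_forall_conj_mem fun y =>
    conj_mem_powComm (le_normalizer_inf le_normalizer le_normalizer_of_normal hs)
  obtain ⟨i₀⟩ : Nonempty I := (Nat.card_pos_iff.mp (hI ▸ Nat.pow_pos two_pos)).1
  have hε₀ : ∀ i (c : Fˣ) (m : ℕ), c ^ 2 ^ m = 1 → ε i c ∈ S ⊓ (ε i₀).range ⊔ Y := fun i c m hc => by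
    rw [← inv_mul_cancel_right (ε i c) (ε i₀ c)]
    exact mul_mem (mem_sup_right (hY i i₀ c m hc)) (mem_sup_left ⟨hεS i₀ c m hc, c, rfl⟩)
  have hS' : S ≤ S ⊓ (ε i₀).range ⊔ Y := by
    refine hle.trans (sup_le (map_sylow_perm_le _ T fun σ h3 h4 => ?_) (sup_le (iSup_le ?_) ?_))
    · have h6 := hT (mem_map_of_mem _ h3)
      by_cases h : D.τ σ ∈ H
      · exact mem_sup_right (mem_powComm_of_pow_eq_one ⟨h6, h⟩ (by rw [← map_pow, h4, map_one]))
      obtain ⟨j, hj⟩ : ∃ j, σ j ≠ j := by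
        by_contra! h'
        exact h (by rw [show σ = 1 from Equiv.ext h', map_one]; exact one_mem _)
      have h7 : formDet _ (D.τ σ) = Units.mk0 i hi0 ^ 2 := Units.val_injective (by
        have : (formDet _ (D.τ σ) : F) ^ 2 = 1 := by
          rw [← Units.val_pow_eq_pow_val, ← map_pow, ← map_pow, h4]; simp
        rw [(sq_eq_one_iff.mp this).resolve_left fun h' => h (Units.val_injective h'), hi]
        simp [pow_two])
      have h8 : Units.mk0 i hi0 ^ 2 ^ 2 = 1 := by
        rw [pow_two 2, pow_mul, ← h7, ← map_pow, ← map_pow, h4, map_one, map_one]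
      have h9 : (Units.mk0 i hi0 ^ 2) ^ 2 ^ 1 = 1 := by rw [← pow_mul, ← h8]; rfl
      refine (mul_mem_cancel_right (inv_mem (hε₀ j _ 1 h9))).mp (mem_sup_right (mem_powComm.mpr
        ⟨mem_inf.mpr ⟨mul_mem h6 (inv_mem (hεS j _ 1 h9)), MonoidHom.mem_ker.mpr (by
          rw [map_mul, map_inv, hε, h7, mul_inv_cancel])⟩, ?_⟩))
      convert (mem_powComm.mp (hY (σ j) j _ 2 h8)).2 using 1
      have e1 : (D.τ σ)⁻¹ = D.τ σ :=
        inv_eq_of_mul_eq_one_right (by rw [← map_mul, ← pow_two, h4, map_one])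
      have e2 : (Units.mk0 i hi0 ^ 2)⁻¹ = Units.mk0 i hi0 ^ 2 :=
        inv_eq_of_mul_eq_one_right (by rw [← pow_two, ← h9]; rfl)
      rw [(hεc _ _ _ _).inv_right.mul_pow, inv_pow, ← map_pow, ← map_pow, pow_two (_ * _),
        ← mul_assoc, ← hτ, e1, ← map_inv (ε j), e2]
    · rintro i _ ⟨h3, g, rfl⟩
      obtain ⟨m, hm⟩ := hdet _ h3
      rw [(D.b i).formDet_ι] at hm
      exact hμ' g ▸ hε₀ i _ m hm
    · rintro _ ⟨-, g, rfl⟩
      have := finrank_zero_iff.mp hd0
      rw [show g = 1 from formIsom.ext fun v => Subsingleton.elim _ _, map_one]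
      exact one_mem _
  refine (inf_le_inf_right H hS').trans ((sup_inf_eq_of_le_of_le_normalizer'
    (inf_le_left.trans hn) ((powComm_le _).trans inf_le_right)).le.trans (sup_le ?_ le_rfl))
  rintro _ ⟨⟨-, c, rfl⟩, h⟩
  rw [show c = 1 from (hε i₀ c).symm.trans h, map_one]
  exact one_mem _

end Cfsg

set_option linter.all false in
theorem Cfsg.Rz.Grp_FormSymp_0 : True := by
  have := @_root_.Cfsg.formIsom.neg.eq_def.{0, 0}
  have := @_root_.Cfsg.formIsom.neg.eq_1.{0, 0}
  have := @_root_.Cfsg.formIsom.neg.fun_cases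
  have := @_root_.Cfsg.planeJ'.eq_def.{0}
  have := @_root_.Cfsg.planeJ'.eq_1.{0}
  have := @_root_.Cfsg.planeJ'.fun_cases
  have := @_root_.Cfsg.formDet.eq_def.{0, 0}
  have := @_root_.Cfsg.formDet.eq_1.{0, 0}
  have := @_root_.Cfsg.formDet.fun_cases
  have := @_root_.Cfsg.planeDet.eq_def.{0}
  have := @_root_.Cfsg.planeDet.eq_1.{0}
  have := @_root_.Cfsg.planeDet.fun_cases
  trivial
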