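import Cfsg.Agent.Grp.GenTwo

/-!
# Two-generated groups of order 64
-/

set_option autoImplicit false
set_option linter.unusedSectionVars false

namespace Cfsg

open Subgroup GA

universe u v

local notation "C(" Q ")" => Subgroup.centralizer ((Q : Subgroup _) : Set _)
local notation "N(" Q ")" => Subgroup.normalizer ((Q : Subgroup _) : Set _)

variable {G : Type u} [Group G] [Finite G] {A K P : Subgroup G} {a b c d g x y z : G}

theorem conj_mem_zpowers_iff : g * x * g⁻¹ ∈ zpowers x ↔ g ∈ N(zpowers x) :=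
  ⟨fun h => mem_normalizer_of_forall_conj_mem fun _ ⟨k, hk⟩ => by
    rw [← hk, ← conj_zpow]; exact zpow_mem h k, (conj_mem_of_mem_normalizer · (mem_zpowers x))⟩

theorem card_zpowers_le_two (h : c * c = 1) : Nat.card (zpowers c) ≤ 2 :=
  Nat.card_zpowers c ▸ orderOf_le_of_pow_eq_one two_pos (sq c ▸ h)

theorem card_le_of_comm_cent (h : closure {a, b} = P) (hZ : ∀ v ∈ P, v ∈ C(P) → v * v = 1)
    (hc : b⁻¹ * (a * b * a⁻¹) ∈ C(P)) : Nat.card P ≤ 32 := by
  obtain ⟨ha, hb⟩ := mem_of_gen h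
  have h1 := hZ _ (mul_mem (inv_mem hb) (mul_mem (mul_mem ha hb) (inv_mem ha))) hc
  have h2 := mul_inv_cancel_left b (a * b * a⁻¹)
  generalize b⁻¹ * (a * b * a⁻¹) = c at *
  have h3 : a * a ∈ C(P) := cent_of_gen h (mul_assoc _ _ _).symm (conj_eq_iff_comm.1 (by
    rw [show a * a * b * (a * a)⁻¹ = a * (a * b * a⁻¹) * a⁻¹ by group, ← h2, ← conj_mul, ← h2,
      conj_eq_of_mem_cent hc ha, mul_assoc, h1, mul_one])).symm
  have h4 : b * b ∈ C(P) := cent_of_gen h (conj_eq_iff_comm.1 (by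
    rw [← conj_mul, ← h2, mul_assoc, ← mul_assoc c, ← hc b hb, mul_assoc b, h1, mul_one]))
    (mul_assoc _ _ _).symm
  have hN : ∀ L : Subgroup G, L ≤ C(P) → P ≤ N(L) := fun L hL =>
    (le_centralizer_iff.1 hL).trans (centralizer_le_normalizer' _)
  have h5 := zpowers_le.2 hc
  have h6 := sup_le (zpowers_le.2 h3) h5
  have h7 := sup_le (zpowers_le.2 h4) h6
  have I1 := idx2_zpowers_sup (hZ _ (mul_mem ha ha) h3 ▸ one_mem _) (hN _ h5 (mul_mem ha ha))
  have I2 := idx2_zpowers_sup (hZ _ (mul_mem hb hb) h4 ▸ one_mem _) (hN _ h6 (mul_mem hb hb))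
  have I3 := idx2_zpowers_sup (mem_sup_left (mem_zpowers _)) (hN _ h7 hb)
  have I4 := idx2_zpowers_sup (I3.le (I2.le (mem_sup_left (mem_zpowers _)))) (mem_normalizer_sup (hN _ h7 ha)
    (h2 ▸ mul_mem (mem_sup_left (mem_zpowers b)) (I3.le (I2.le (I1.le (mem_zpowers c))))))
  have := card_le_of_le (le_of_gen h (mem_sup_left (mem_zpowers a)) (I4.le (mem_sup_left (mem_zpowers b))))
  have := I1.card_le
  have := I2.card_le
  have := I3.card_le
  have := I4.card_le
  have := card_zpowers_le_two h1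
  omega

theorem IsS6.exists_isS7 (h : IsS6 P x y c z) (h32 : Nat.card P ≤ 32) :
    ∃ M F K s c z, IsS7 P M F K s c z ∧ P ⊓ C(P) ≤ zpowers z :=
  let ⟨M, F, K, h1⟩ := h.isS7
  ⟨M, F, K, _, c, z, h1, (eq_of_le_of_card_ge (zpowers_le.2 (mem_inf.2 ⟨h1.z_mem, h1.cent⟩)) (by
    have := h1.card_eq
    rw [Nat.card_zpowers, h.ord]
    omega)).ge⟩

theorem isDbl_of_gen (hP : IsPGroup 2 P) (h : closure {x, y} = P) (h1 : x * y * x⁻¹ = y⁻¹)
    (h2 : y ^ 8 = 1) (h3 : x * x * (x * x) = 1) (h32 : 32 ≤ Nat.card P) :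
    ∃ A x t z, IsDbl 1 P A x t z ∧ ∀ w ∈ P, w ∉ A → w * w ≠ 1 := by
  obtain ⟨hx, hy⟩ := mem_of_gen h
  have h4 : x * x ∈ C(P) := cent_of_gen h (mul_assoc _ _ _).symm (conj_eq_iff_comm.1 (by
    rw [show x * x * y * (x * x)⁻¹ = x * (x * y * x⁻¹) * x⁻¹ by group, h1, ← conj_inv, h1, inv_inv])).symm
  have h5 : x ∈ N(zpowers y) := conj_mem_zpowers_iff.1 (h1 ▸ inv_mem (mem_zpowers y))
  have I := idx2_zpowers_sup (h3 ▸ one_mem _) (mul_mem h5 h5)
  have h6 := fun g => mem_zpowers_sup_iff (g := g) (h3 ▸ one_mem _) (mul_mem h5 h5)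
  have h7 := mem_sup_left (T := zpowers y) (mem_zpowers (x * x))
  have J := idx2_zpowers_sup h7 (mem_normalizer_sup h5 (by rwa [conj_eq_of_mem_cent h4 hx]))
  rw [(sup_le (zpowers_le.2 hx) (sup_le (zpowers_le.2 (mul_mem hx hx)) (zpowers_le.2 hy))).antisymm
    (le_of_gen h (mem_sup_left (mem_zpowers x)) (J.le (I.le (mem_zpowers y))))] at J
  generalize zpowers (x * x) ⊔ zpowers y = A at *
  have h8 := I.card_le
  have h9 := J.card_le
  have h10 := orderOf_le_of_pow_eq_one (by norm_num) h2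
  rw [Nat.card_zpowers] at h8
  have h11 : x * x ∉ zpowers y := fun e => by
    have := card_le_of_le (show A ≤ zpowers y from fun a ha => ((h6 a).1 ha).elim id
      (mul_mem_cancel_left e).1)
    rw [Nat.card_zpowers] at this
    omega
  have h12 : x ∉ A := fun e => by
    have := card_le_of_le (le_of_gen h e (I.le (mem_zpowers y)))
    omega
  have h13 : A ≤ C(A) := I.le_cent (zpowers_le.2 fun a ha => mem_cent_zpowers.1 (I.le_of_mem
    (zpowers_le_centralizer_zpowers' y) h7 h11 (mem_cent_zpowers.2 (h4 y hy).symm) ha))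
  have h14 : ∀ a ∈ A, x * a * x⁻¹ = a⁻¹ := by
    have key : ∀ a ∈ zpowers y, x * a * x⁻¹ = a⁻¹ := by
      rintro _ ⟨k, rfl⟩
      simp only [← conj_zpow, h1, inv_zpow]
    refine fun a ha => ((h6 a).1 ha).elim (key a) fun e => ?_
    have := key _ e
    rwa [← conj_mul, conj_eq_of_mem_cent h4 hx, mul_inv_rev, inv_eq_of_mul_eq_one_right h3,
      h4 _ (inv_mem (J.le ha)), mul_right_inj] at this
  have h15 : ∀ w ∈ P, w ∉ A → w * w = x * x := fun w hw hw' => by
    have := h14 _ (J.mul_inv hw hx hw' h12)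
    calc w * w = w * x⁻¹ * (x * (w * x⁻¹) * x⁻¹) * (x * x) := by group
      _ = _ := by rw [this]; group
  exact ⟨A, y, x * x, _, ⟨hP, J, h13, I.le (mem_zpowers y), h7, by omega, rfl, h3, h11, h4,
    fun a => (h6 a).1, fun w hw hw' => (J.conj_eq h13 hw hx hw' h12 (pow_mem (I.le (mem_zpowers y)) _)).trans
      (h14 _ (pow_mem (I.le (mem_zpowers y)) _)), fun w hw hw' e =>
      h11 (h15 w hw hw' ▸ e ▸ pow_mem (mem_zpowers y) _), .inl one_ne_zero, x, hx, h12⟩,
    fun w hw hw' e => h11 (h15 w hw hw' ▸ e ▸ one_mem _)⟩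

theorem not_cyc (h : closure {a, b} = (⊤ : Subgroup G)) (h64 : Nat.card G = 64) (h8 : ∀ v : G, v ^ 8 = 1)
    (hZ : ∀ v : G, v ∈ C((⊤ : Subgroup G)) → v * v = 1) (hd : orderOf d = 2 ^ (2 + 1)) :
    commutator G ≠ zpowers d := fun hK => by
  have hN : ∀ g : G, g ∈ N(zpowers d) := fun g => hK ▸ (normalizer_eq_top _).ge trivial
  have h1 : ∀ g : G, ∀ k ∈ zpowers d, k * k = 1 → g * k * g⁻¹ = k := fun g k hk e =>
    (eq_one_or_half hd hk e).elim (by simp [·]) fun e' => (eq_one_or_half hd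
      (conj_mem_of_mem_normalizer (hN g) hk) (by rw [conj_mul, e]; simp)).elim
      (fun e => e.trans (conj_eq_one_iff.1 e).symm) (·.trans e'.symm)
  have h2 := orderOf_pow_half hd
  have h3 := mul_self_of_orderOf_eq_two h2
  have h4 := mul_mem (mem_zpowers d) (mem_zpowers d)
  have h5 : d * d * (d * d) = d ^ 2 ^ 2 := by simp [pow_succ, mul_assoc]
  have I := idx2_cent_of_conj (P := ⊤) (d := d * d) (fun g _ => (eq_one_or_half hd (mul_mem (inv_mem h4)
    (conj_mem_of_mem_normalizer (hN g) h4)) (by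
      rw [mul_assoc, ← mul_assoc _ (d * d)⁻¹, comm_zpowers (conj_mem_of_mem_normalizer (hN g) h4)
        (inv_mem h4), mul_assoc, conj_mul, ← mul_assoc, ← mul_inv_rev, h5,
        h1 g _ (pow_mem (mem_zpowers d) _) h3, inv_mul_cancel])).imp (fun e => (inv_mul_eq_one.1 e).symm)
    inv_mul_eq_iff_eq_mul.1) h3 fun g _ => conj_eq_iff_comm.1 (h1 g _ (pow_mem (mem_zpowers d) _) h3)
  obtain ⟨x, y, hy, h6⟩ := I.exists_gen h
  have h7 : y⁻¹ * (x * y * x⁻¹) ∈ zpowers d := hK ▸ comm_mem (mem_top y) (mem_top x)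
  have h9 := mul_inv_cancel_left y (x * y * x⁻¹)
  have h10 : (commutator G).relIndex (⊤ ⊓ C(zpowers (d * d))) = 4 := by
    obtain ⟨w, hw, hw'⟩ := SetLike.not_le_iff_exists.1 fun e : ⊤ ≤ (⊤ ⊓ C(zpowers (d * d)) : Subgroup G) => by
      rw [← h5, hZ _ fun g hg => mem_cent_zpowers.1 (e hg).2, orderOf_one] at h2
      omega
    have := I.card_eq hw hw'
    have := card_mul_relIndex (hK.le.trans (zpowers_le.2 (show d ∈ ⊤ ⊓ C(zpowers (d * d)) from
      ⟨trivial, mem_cent_zpowers.2 (mul_assoc _ _ _).symm⟩)))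
    rw [hK, Nat.card_zpowers, hd, ← hK] at this
    rw [card_top] at *
    omega
  have h11 := h1 x _ (hK ▸ h10 ▸ pow_relIndex_mem (commutator G) hy) (by rw [← pow_add, h8])
  have h12 : ∀ k ∈ zpowers d, y * (k * k) = k * k * y := fun k ⟨j, hj⟩ =>
    comm_of_mem_zpowers (mem_cent_zpowers.1 hy.2) ⟨j, hj ▸ (Commute.refl d).mul_zpow j⟩
  have h13 : d ∈ zpowers (y⁻¹ * (x * y * x⁻¹)) := by
    refine commutator_le_of_forall (fun a ha g => comm_mem_of_gen h6 (fun g _ =>
      conj_mem_zpowers_iff.1 ?_) (mem_zpowers _) ha) (hK.ge (mem_zpowers d))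
    obtain ⟨j, hj⟩ := h7
    obtain ⟨r, hr⟩ := exists_conj_eq_pow (conj_mem_zpowers_iff.2 (hN g))
    rw [← hj, ← conj_zpow, hr, ← zpow_natCast, zpow_comm]
    exact zpow_mem (mem_zpowers _) _
  generalize y⁻¹ * (x * y * x⁻¹) = c at *
  have h14 := conj_mem_of_mem_normalizer (hN y⁻¹) h7
  have h15 : y⁻¹ * c * y⁻¹⁻¹ * (y⁻¹ * c * y⁻¹⁻¹) = c * c := by
    rw [conj_mul, inv_inv, mul_assoc, ← h12 c h7, inv_mul_cancel_left]
  have h16 : Commute y (y⁻¹ * c * y⁻¹⁻¹ * c) := by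
    have h16 := mul_mem h14 (inv_mem h7)
    rw [show y⁻¹ * c * y⁻¹⁻¹ * c = y⁻¹ * c * y⁻¹⁻¹ * c⁻¹ * (c * c) by group]
    refine .mul_right (conj_eq_iff_comm.1 (h1 y _ h16 ?_)) (h12 c h7)
    rw [mul_assoc, ← mul_assoc c⁻¹, comm_zpowers (inv_mem h7) h14, mul_assoc _ c⁻¹, ← mul_assoc, h15]
    group
  have h17 : c ^ 4 = 1 := by
    rw [← conj_pow, ← h9, show (y * c) ^ 4 = (y ^ 2 * (y⁻¹ * c * y⁻¹⁻¹ * c)) ^ 2 by simp [pow_succ, mul_assoc],
      (h16.pow_left 2).mul_pow, ← pow_mul, mul_eq_left, (show Commute _ _ from comm_zpowers h14 h7).mul_pow,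
      sq, h15] at h11
    simpa [pow_succ, mul_assoc] using h11
  have := (orderOf_dvd_of_mem_zpowers h13).trans (orderOf_dvd_of_pow_eq_one h17)
  rw [hd] at this
  omega

theorem exists_sq_mem (hP : IsPGroup 2 P) (hK : K ≤ P) (hN : P ≤ N(K)) (h8 : Nat.card K = 8)
    (h4 : ∀ k ∈ K, k * k * (k * k) = 1) : ∃ z ∈ K, orderOf z = 2 ∧ z ∈ C(P) ∧ ∀ k ∈ K, k * k ∈ zpowers z := by
  by_cases e : ∀ k ∈ K, k * k = 1
  · obtain ⟨z, hz, h3⟩ := exists_mem_orderOf_eq_prime (dvd_card_of_isPGroup_of_ne_bot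
      (hP.to_le (inf_le_left.trans hK)) (inf_centralizer_ne_bot_of_isPGroup (hP.to_le hK) hP hN
        fun e => by simp [e] at h8))
    exact ⟨z, hz.1, h3, hz.2, fun k hk => e k hk ▸ one_mem _⟩
  push Not at e
  obtain ⟨d, hd, e⟩ := e
  have h1 : orderOf d = 2 ^ (1 + 1) :=
    orderOf_eq_prime_pow (by simpa [sq]) (by simpa [pow_succ, mul_assoc] using h4 d hd)
  have I := idx2_of_card (zpowers_le.2 hd) (by rw [h8, Nat.card_zpowers, h1]; rfl)
  have h2 := fun k hk => eq_one_or_half h1 (I.sq_mem hk) (h4 k hk)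
  refine ⟨_, pow_mem hd _, orderOf_pow_half h1, fun g hg => conj_eq_iff_comm.1 ?_, fun k hk =>
    (h2 k hk).elim (· ▸ one_mem _) (· ▸ mem_zpowers _)⟩
  have := (h2 _ (conj_mem_of_mem_normalizer (hN hg) hd)).resolve_left (by simpa [conj_mul])
  rwa [conj_mul, ← sq] at this

theorem exists_quot_of_gen (hG : IsPGroup 2 G) (h : closure {a, b} = (⊤ : Subgroup G))
    (h64 : Nat.card G = 64) (h8 : ∀ v : G, v ^ 8 = 1) (hZ : ∀ v : G, v ∈ C((⊤ : Subgroup G)) → v * v = 1) :
    ∃ u ∈ C((⊤ : Subgroup G)), ∀ {H : Type v} [Group H] [Finite H] (φ : G →* H), φ.ker = zpowers u →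
      (∃ M F K s c z, IsS7 φ.range M F K s c z ∧ φ.range ⊓ C(φ.range) ≤ zpowers z) ∨
        ∃ A x t z, IsDbl 1 φ.range A x t z ∧ ∀ w ∈ φ.range, w ∉ A → w * w ≠ 1 := by
  have hT := hG.to_subgroup ⊤
  have h1 : ∀ {H : Type v} [Group H] (φ : G →* H) {x y : G}, closure {x, y} = (⊤ : Subgroup G) →
      closure {φ x, φ y} = φ.range := fun φ x y e => by
    rw [MonoidHom.range_eq_map, ← e, MonoidHom.map_closure, Set.image_pair]
  have h2 : ∀ {H : Type v} [Group H] (φ : G →* H) {u : G}, φ.ker = zpowers u →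
      Nat.card φ.range * orderOf u = 64 := fun φ u e => by
    rw [← h64, ← card_top (G := G), ← card_map_mul_card_inf_ker φ, inf_top_eq, e, Nat.card_zpowers,
      MonoidHom.range_eq_map]
  have h3 : ∀ {H : Type v} [Group H] (φ : G →* H) {u : G}, u ∈ C((⊤ : Subgroup G)) → φ u ∈ C(φ.range) := by
    rintro H _ φ u hu _ ⟨g, rfl⟩
    rw [← map_mul, hu g trivial, map_mul]
  have h4 : ¬ commutator G ≤ C((⊤ : Subgroup G)) := fun e => by
    have := card_le_of_comm_cent h (fun v _ => hZ v) (e (comm_mem trivial trivial))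
    rw [card_top] at this
    omega
  have h5 := (commutator G).card_mul_index
  have h6 : 4 < (commutator G).index := not_le.1 fun e => by
    obtain ⟨x, hx⟩ := taussky hG e
    have := orderOf_le_of_pow_eq_one (by norm_num) (h8 x)
    omega
  have h7 : 2 < Nat.card (commutator G) := not_le.1 fun e => h4 fun k hk g _ => by_contra fun e' => by
    have h7 : k ≠ 1 := fun e => e' (by simp [e])
    have := (idx2_of_card bot_le (by simpa)).inv_mul hk ((commutator_normal _ _).conj_mem k hk g)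
      h7 (by simpa)
    exact e' (conj_eq_iff_comm.1 (inv_mul_eq_one.1 this).symm)
  obtain ⟨j, hj⟩ := (hG.to_subgroup (commutator G)).exists_card_eq
  have h9 : Nat.card (commutator G) = 4 ∨ Nat.card (commutator G) = 8 := by
    have : j < 4 := not_le.1 fun e => by
      have := Nat.pow_le_pow_right two_pos e
      nlinarith
    interval_cases j <;> omega
  rcases h9 with h9 | h9
  · obtain ⟨x, y, c, z, e1, e2, e3, e4, e5, e6, -, e7⟩ := exists_rel hT h h9 h4
    have h10 := mul_self_of_orderOf_eq_two e5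
    rcases eq_one_or_eq_of_mem_zpowers_of_orderOf_two e5 e7 with e7 | e7
    · obtain ⟨M, F, K, h11⟩ := IsS6.isS7 ⟨e1, e2, e3, e4, e5, e6, e7⟩
      obtain ⟨s, hs, hs'⟩ := SetLike.not_le_iff_exists.1 fun e : ⊤ ⊓ C((⊤ : Subgroup G)) ≤ zpowers z => by
        have := card_le_of_le e
        have := h11.card_eq
        rw [card_top, Nat.card_zpowers] at *
        omega
      have h12 : orderOf s = 2 := orderOf_eq_prime (sq s ▸ hZ s hs.2) fun e => hs' (e ▸ one_mem _)
      refine ⟨s, hs.2, fun φ hφ => .inl (IsS6.exists_isS7 (x := φ x) (y := φ y) (c := φ c) (z := φ z)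
        ⟨h1 φ e1, by simpa using congrArg φ e2, by simpa using congrArg φ e3, by simpa using congrArg φ e4,
          orderOf_eq_prime (by simpa [sq] using congrArg φ h10) fun e => ?_, h3 φ e6,
          by simpa using congrArg φ e7⟩ (by have := h12 ▸ h2 φ hφ; omega))⟩
      exact (eq_one_or_eq_of_mem_zpowers_of_orderOf_two h12 (hφ.le e)).elim (fun e => by simp [e] at e5)
        fun e => hs' (e ▸ mem_zpowers z)
    have h11 : x * x ∈ C((⊤ : Subgroup G)) := cent_of_gen e1 (mul_assoc _ _ _).symm (conj_eq_iff_comm.1 (by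
      rw [show x * x * y * (x * x)⁻¹ = x * (x * y * x⁻¹) * x⁻¹ by group, e2, ← conj_mul, e2, e4, mul_assoc,
        ← mul_assoc c, e7, h10, mul_one])).symm
    have h12 : Commute y c := e3
    have h13 : y * y * c ∈ C((⊤ : Subgroup G)) := cent_of_gen e1 (conj_eq_iff_comm.1 (by
      rw [← conj_mul, ← conj_mul, e2, e4, ← sq, h12.mul_pow, sq, sq, e7, mul_assoc, ← mul_assoc z,
        ← e6 c trivial, mul_assoc c, h10, mul_one])) (((Commute.refl y).mul_right (.refl y)).mul_right h12)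
    refine ⟨_, h13, fun φ hφ => .inr (isDbl_of_gen (hG.of_surjective _ φ.rangeRestrict_surjective) (h1 φ e1)
      ?_ (by simpa using congrArg φ (h8 y)) (by simpa using congrArg φ (hZ _ h11)) ?_)⟩
    · rw [eq_inv_iff_mul_eq_one, ← map_inv, ← map_mul, ← map_mul, ← map_mul, e2, mul_assoc, ← e3,
        ← mul_assoc]
      exact hφ.ge (mem_zpowers _)
    · have := h2 φ hφ
      have := (Nat.card_zpowers _).symm.trans_le (card_zpowers_le_two (hZ _ h13))
      nlinarith
  obtain ⟨z, hz, h10, h11, h12⟩ := exists_sq_mem hT le_top (normalizer_eq_top _).ge h9 fun k hk =>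
    by_contra fun e => by
      have := orderOf_eq_prime_pow (p := 2) (n := 2) (by simpa [pow_succ, mul_assoc] using e) (h8 k)
      exact not_cyc h h64 h8 hZ this (eq_of_le_of_card_ge (zpowers_le.2 hk) (by
        rw [h9, Nat.card_zpowers, this]; rfl)).symm
  refine ⟨z, h11, fun φ hφ => .inl ?_⟩
  have h13 : ⁅φ.range, φ.range⁆ = (commutator G).map φ := by
    rw [MonoidHom.range_eq_map, ← map_commutator, _root_.commutator_def]
  have h14 : Nat.card (⁅φ.range, φ.range⁆ :) = 4 := by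
    have := card_map_mul_card_inf_ker φ (commutator G)
    rw [hφ, inf_eq_left.2 (zpowers_le.2 hz), Nat.card_zpowers, ← h13, h10] at this
    omega
  have h15 : ∀ c ∈ ⁅φ.range, φ.range⁆, c * c = 1 := by
    rw [h13]
    rintro _ ⟨k, hk, rfl⟩
    exact map_mul φ k k ▸ hφ.ge (h12 k hk)
  obtain ⟨x, y, c, z', e1, e2, e3, e4, e5, e6, e7, -⟩ := exists_rel
    (hG.of_surjective _ φ.rangeRestrict_surjective) (h1 φ h) h14 fun e => by
      have h16 := comm_mem (P := φ.range) ⟨b, rfl⟩ ⟨a, rfl⟩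
      have := card_le_of_le (commutator_le_of_forall fun _ ha _ => comm_mem_of_gen (h1 φ h)
        ((le_cent_zpowers (e h16)).trans (centralizer_le_normalizer' _)) (mem_zpowers _) ha)
      have := card_zpowers_le_two (h15 _ h16)
      omega
  exact IsS6.exists_isS7 ⟨e1, e2, e3, e4, e5, e6, h15 c e7⟩ (by have := h10 ▸ h2 φ hφ; omega)

end Cfsg
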