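import Cfsg.Agent.Grp.FormSymp
import Cfsg.Prelude.Def_G2

/-!
# Composition algebras and Sylow `2`-subgroups of `G₂(q)`, `q` odd
-/

set_option autoImplicit false

namespace Cfsg

open Subgroup formIsom FormBlk Module

universe u v w

variable {F : Type u} [Field F] {V : Type v} [AddCommGroup V] [Module F V]
  {M : Type w} [AddCommGroup M] [Module F M]
  {B : LinearMap.BilinForm F V} {β : LinearMap.BilinForm F M}

/-- Restriction of an isometry to a block that it stabilises. -/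
noncomputable def FormBlk.res (b : FormBlk B β) : b.stab →* formIsom β :=
  MonoidHom.mk' (fun g => (exists_res g.2).choose) fun g h => formIsom.ext fun m =>
    b.a_injective (by
      rw [mul_apply, ← (exists_res (g * h).2).choose_spec, ← (exists_res g.2).choose_spec,
        ← (exists_res h.2).choose_spec]
      rfl)

theorem FormBlk.a_res (b : FormBlk B β) (g : b.stab) (m : M) :
    b.a ((b.res g).1 m) = g.1.1 (b.a m) := ((exists_res g.2).choose_spec m).symm

theorem IsOrthForm.commutator_le [FiniteDimensional F V] (hB : IsOrthForm B) (h2 : (2 : F) ≠ 0)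
    {K : Subgroup (formIsom B)}
    (h : ∀ (u v : V) (r s : formIsom B), IsFormRefl u r → IsFormRefl v s → r * s ∈ K) :
    commutator (formIsom B) ≤ K := by
  let N := closure {x : formIsom B | ∃ u v r s, IsFormRefl u r ∧ IsFormRefl v s ∧ x = r * s}
  have : N.Normal := ⟨fun n hn g => by
    refine (show N.map (MulAut.conj g).toMonoidHom ≤ N from ?_) (mem_map_of_mem _ hn)
    rw [MonoidHom.map_closure]
    refine closure_mono ?_
    rintro _ ⟨_, ⟨u, v, r, s, hr, hs, rfl⟩, rfl⟩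
    exact ⟨_, _, _, _, hr.conj g, hs.conj g, map_mul _ r s⟩⟩
  obtain ⟨r, hr⟩ : ∃ r, zpowers r ⊔ N = ⊤ := by
    by_cases h : ∃ u, ∃ r : formIsom B, IsFormRefl u r
    · obtain ⟨u, r, hr⟩ := h
      refine ⟨r, eq_top_iff.mpr ((hB.formReflGen_eq_top h2).ge.trans ((closure_le _).mpr ?_))⟩
      rintro s ⟨v, hs⟩
      exact (mul_mem_cancel_left (mem_sup_left (mem_zpowers r))).mp
        (mem_sup_right (subset_closure ⟨u, v, r, s, hr, hs, rfl⟩))
    · exact ⟨1, eq_top_iff.mpr ((hB.formReflGen_eq_top h2).ge.trans ((closure_le _).mpr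
        fun s ⟨v, hs⟩ => absurd ⟨v, s, hs⟩ h))⟩
  refine (commutator_le_of_sup_eq_top hr ?_).trans ((closure_le _).mpr ?_)
  · rw [commutator_eq_bot_iff_le_centralizer.mpr (le_centralizer _)]
    exact bot_le
  · rintro _ ⟨u, v, r, s, hr, hs, rfl⟩
    exact h u v r s hr hs

/-- A composition algebra with multiplication `m`, identity `e`, polar form `B` and
conjugation `c`. -/
structure IsCompAlg (m : V →ₗ[F] V →ₗ[F] V) (e : V) (B : LinearMap.BilinForm F V)
    (c : V →ₗ[F] V) : Prop where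
  orth : IsOrthForm B
  one_mul : ∀ x, m e x = x
  mul_one : ∀ x, m x e = x
  conj : ∀ x, c x = B x e • e - x
  bee : B e e = 2
  left : ∀ x y w, m x (m (c y) w) + m y (m (c x) w) = B x y • w
  right : ∀ x y w, m (m w (c x)) y + m (m w (c y)) x = B x y • w
  adj : ∀ x y w, B (m x y) w = B x (m w (c y))
  conj_mul : ∀ x y, c (m x y) = m (c y) (c x)

/-- The isometries that are algebra automorphisms. -/
def compAut (m : V →ₗ[F] V →ₗ[F] V) (B : LinearMap.BilinForm F V) : Subgroup (formIsom B) where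
  carrier := {g | ∀ x y, g.1 (m x y) = m (g.1 x) (g.1 y)}
  one_mem' _ _ := rfl
  mul_mem' {g h} hg hh x y := by rw [mul_apply, hh, hg]; rfl
  inv_mem' {g} hg x y := g.1.injective (by
    rw [hg, apply_inv_apply, apply_inv_apply, apply_inv_apply])

namespace IsCompAlg

variable {m : V →ₗ[F] V →ₗ[F] V} {e : V} {c : V →ₗ[F] V} (hA : IsCompAlg m e B c)
  (h2 : (2 : F) ≠ 0)

include hA

theorem conj_conj (x : V) : c (c x) = x := by
  simp only [hA.conj, map_sub, map_smul, LinearMap.sub_apply, LinearMap.smul_apply, hA.bee]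
  match_scalars <;> ring

theorem map_one {g : V ≃ₗ[F] V} (hg : ∀ x y, g (m x y) = m (g x) (g y)) : g e = e := by
  have := hg e (g.symm e)
  rw [hA.one_mul, g.apply_symm_apply, hA.mul_one] at this
  exact this.symm

include h2

theorem left' (x w : V) : m x (m (c x) w) = (B x x / 2) • w := smul_right_injective _ h2 (by
  simp only [two_smul F (m x _), hA.left, smul_smul, mul_div_cancel₀ _ h2])

theorem right' (x w : V) : m (m w (c x)) x = (B x x / 2) • w := smul_right_injective _ h2 (by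
  simp only [two_smul F (m _ x), hA.right, smul_smul, mul_div_cancel₀ _ h2])

theorem right'' (x w : V) : m (m w x) (c x) = (B x x / 2) • w := by
  have := hA.right' h2 (c x) w
  rw [hA.conj_conj] at this
  rw [this]
  simp only [hA.conj, map_sub, map_smul, LinearMap.sub_apply, LinearMap.smul_apply, hA.bee,
    hA.orth.symm e x, smul_eq_mul]
  congr 1
  ring

theorem form_mul_mul (x y w : V) : B (m x w) (m y w) = B w w / 2 * B x y := by
  rw [hA.adj, hA.right'' h2, map_smul, smul_eq_mul]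

theorem mul_right_cancel {x y w : V} (hw : B w w ≠ 0) (h : m x w = m y w) : x = y :=
  smul_right_injective _ (div_ne_zero hw h2) (by
    simp only [← hA.right'' h2 w, h])

theorem map_mem {g : V ≃ₗ[F] V} (hg : ∀ x y, g (m x y) = m (g x) (g y)) : g ∈ formIsom B := by
  have he : e ≠ 0 := fun h => h2 (by rw [← hA.bee, h, map_zero])
  have h1 := hA.map_one hg
  have h3 : ∀ x, B (g x) e = B x e := fun x => by
    by_contra hx
    have e1 := congrArg g (hA.left' h2 x e)
    have e2 := hA.left' h2 (g x) e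
    rw [hA.mul_one, hA.conj] at e1 e2
    simp only [hA.mul_one, map_sub, map_smul, hg, h1] at e1 e2
    have e3 : g x = g (((B (g x) (g x) / 2 - B x x / 2) / (B (g x) e - B x e)) • e) :=
      smul_right_injective _ (sub_ne_zero.mpr hx) (by
        simp only [map_smul, h1, smul_smul, mul_div_cancel₀ _ (sub_ne_zero.mpr hx), sub_smul]
        rw [← e1, ← e2]
        abel)
    exact hx (by rw [g.injective e3, map_smul, h1])
  refine fun x y => smul_left_injective F he ?_
  have e1 := congrArg g (hA.left x y e)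
  have e2 := hA.left (g x) (g y) e
  rw [hA.mul_one, hA.mul_one, hA.conj, hA.conj] at e1 e2
  simp only [map_sub, map_add, map_smul, hg, h1, h3] at e1 e2
  exact e2.symm.trans e1

section Involution

variable {z : formIsom B} (hz : z ∈ compAut m B)

include hz

omit h2 in
theorem z_conj (x : V) : z.1 (c x) = c (z.1 x) := by
  rw [hA.conj, hA.conj, map_sub, map_smul, ← formIsom.map_map z x e, hA.map_one hz]

omit hA hz in
theorem orth_of_eigen {h w : V} (hh : z.1 h = h) (hw : z.1 w = -w) : B h w = 0 := by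
  have := formIsom.map_map z h w
  rw [hh, hw, map_neg, neg_eq_iff_add_eq_zero, ← two_mul] at this
  exact (mul_eq_zero.mp this).resolve_left h2

theorem conj_of_neg {w : V} (hw : z.1 w = -w) : c w = -w := by
  rw [hA.conj, hA.orth.symm, orth_of_eigen h2 (hA.map_one hz) hw, zero_smul, zero_sub]

theorem mul_conj_eq {h w : V} (hh : z.1 h = h) (hw : z.1 w = -w) : m w (c h) = m h w := by
  have := hA.left h w e
  rw [orth_of_eigen h2 hh hw, hA.mul_one, hA.mul_one, hA.conj_of_neg h2 hz hw, map_neg,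
    zero_smul, neg_add_eq_zero] at this
  exact this.symm

theorem mul_mul_eq {h h' w : V} (hh : z.1 h = h) (hh' : z.1 h' = h') (hw : z.1 w = -w) :
    m h (m h' w) = m (m h' h) w := by
  have := hA.left h w (c h')
  rw [orth_of_eigen h2 hh hw, hA.conj_of_neg h2 hz hw, map_neg, LinearMap.neg_apply, map_neg,
    zero_smul, neg_add_eq_zero, ← hA.conj_mul, hA.mul_conj_eq h2 hz hh' hw,
    hA.mul_conj_eq h2 hz (by rw [hz, hh, hh']) hw] at this
  exact this

theorem assoc {h h' h'' w : V} (hh : z.1 h = h) (hh' : z.1 h' = h') (hh'' : z.1 h'' = h'')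
    (hw : z.1 w = -w) (hw' : B w w ≠ 0) : m (m h h') h'' = m h (m h' h'') := by
  refine hA.mul_right_cancel h2 hw' ?_
  rw [← hA.mul_mul_eq h2 hz hh'' (by rw [hz, hh, hh']) hw, ← hA.mul_mul_eq h2 hz hh' hh hw,
    hA.mul_mul_eq h2 hz hh'' hh' (by rw [hz, hh, hw, map_neg]),
    hA.mul_mul_eq h2 hz (by rw [hz, hh', hh'']) hh hw]

omit hz in
theorem refl_mul {v : V} {r : formIsom B} (hr : IsFormRefl v r) (h : V) :
    r.1 (m h v) = -m (c h) v := by
  have := hA.form_mul_mul h2 e h v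
  rw [hA.one_mul] at this
  have h3 := hr.1
  rw [hr.2, this, hA.conj, map_sub, map_smul, LinearMap.sub_apply, LinearMap.smul_apply,
    hA.one_mul, neg_sub, hA.orth.symm h]
  congr 2
  field_simp

theorem exists_eq_mul {v w : V} (hv : z.1 v = -v) (hv' : B v v ≠ 0) (hw : z.1 w = -w) :
    ∃ h, z.1 h = h ∧ w = m h v :=
  ⟨(B v v / 2)⁻¹ • m w (c v), by simp [hz w, hA.z_conj hz, hv, hw], by
    rw [map_smul, LinearMap.smul_apply, hA.right' h2, smul_smul,
      inv_mul_cancel₀ (div_ne_zero hv' h2), one_smul]⟩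

theorem exists_extension [FiniteDimensional F V] (hzz : z * z = 1) {γ : formIsom B} {l : V}
    (hl : z.1 l = -l) (hl' : B l l ≠ 0) (hγ : ∀ w, z.1 w = -w → z.1 (γ.1 w) = -γ.1 w)
    (θ : V →ₗ[F] V) (hθ : ∀ h, z.1 h = h → z.1 (θ h) = θ h)
    (hθγ : ∀ h w, z.1 h = h → z.1 w = -w → γ.1 (m h w) = m (θ h) (γ.1 w)) :
    ∃ g ∈ compAut m B, Commute g z ∧ ∀ w, z.1 w = -w → g.1 w = γ.1 w := by
  have hzz' : ∀ x, z.1 (z.1 x) = x := formIsom.congr hzz
  let g : V →ₗ[F] V := (2 : F)⁻¹ • (θ ∘ₗ (LinearMap.id + z.1.toLinearMap) +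
    γ.1.toLinearMap ∘ₗ (LinearMap.id - z.1.toLinearMap))
  have g1 : ∀ h, z.1 h = h → g h = θ h := fun h hh => by
    simp [g, hh, ← two_smul F, smul_smul, h2]
  have g2 : ∀ w, z.1 w = -w → g w = γ.1 w := fun w hw => by
    simp [g, hw, ← two_smul F, smul_smul, h2]
  have hd : ∀ x, ∃ h w, z.1 h = h ∧ z.1 w = -w ∧ x = h + w := fun x =>
    ⟨(2 : F)⁻¹ • (x + z.1 x), (2 : F)⁻¹ • (x - z.1 x), by simp [hzz', add_comm],
      by simp [hzz', ← smul_neg], by
        rw [← smul_add, add_add_sub_cancel, ← two_smul F, smul_smul, inv_mul_cancel₀ h2, one_smul]⟩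
  have hl'' : B (γ.1 l) (γ.1 l) ≠ 0 := by simpa using hl'
  have t1 : ∀ h h', z.1 h = h → z.1 h' = h' → B (θ h) (θ h') = B h h' := fun h h' hh hh' =>
    mul_left_cancel₀ (div_ne_zero hl' h2) (by
      rw [← hA.form_mul_mul h2 h, ← formIsom.map_map γ l l, ← hA.form_mul_mul h2, ← hθγ h l hh hl,
        ← hθγ h' l hh' hl, formIsom.map_map])
  have t2 : θ e = e := hA.mul_right_cancel h2 hl'' (by
    rw [← hθγ e l (hA.map_one hz) hl, hA.one_mul, hA.one_mul])
  have t3 : ∀ h, z.1 h = h → θ (c h) = c (θ h) := fun h hh => by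
    rw [hA.conj, hA.conj, map_sub, map_smul, ← t1 h e hh (hA.map_one hz), t2]
  have g3 : ∀ x y, B (g x) (g y) = B x y := fun x y => by
    obtain ⟨h, w, hh, hw, rfl⟩ := hd x
    obtain ⟨h', w', hh', hw', rfl⟩ := hd y
    simp only [map_add, LinearMap.add_apply, g1 _ hh, g1 _ hh', g2 _ hw, g2 _ hw', t1 _ _ hh hh',
      formIsom.map_map, hA.orth.symm w h', hA.orth.symm (γ.1 w) (θ h'), orth_of_eigen h2 hh hw',
      orth_of_eigen h2 hh' hw, orth_of_eigen h2 (hθ _ hh) (hγ _ hw'),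
      orth_of_eigen h2 (hθ _ hh') (hγ _ hw)]
  have g4 : Function.Injective g := (injective_iff_map_eq_zero g).mpr fun x hx =>
    hA.orth.nondeg x fun y => by rw [← g3, hx, map_zero, LinearMap.zero_apply]
  have g5 := LinearMap.injective_iff_surjective.mp g4
  refine ⟨⟨LinearEquiv.ofBijective g ⟨g4, g5⟩, g3⟩, fun x y => ?_, formIsom.ext fun x => ?_, g2⟩
  · change g (m x y) = m (g x) (g y)
    obtain ⟨h, w, hh, hw, rfl⟩ := hd x
    obtain ⟨h', w', hh', hw', rfl⟩ := hd y
    have k1 : ∀ h w, z.1 h = h → z.1 w = -w → g (m h w) = m (g h) (g w) := fun h w hh hw => by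
      rw [g1 _ hh, g2 _ hw, g2 _ (by rw [hz, hh, hw, map_neg]), hθγ _ _ hh hw]
    have k2 : g (m h h') = m (g h) (g h') := hA.mul_right_cancel h2 hl'' (by
      rw [g1 _ hh, g1 _ hh', g1 _ (by rw [hz, hh, hh']), ← hθγ _ _ (by rw [hz, hh, hh']) hl,
        ← hA.mul_mul_eq h2 hz hh' hh hl, hθγ _ _ hh' (by rw [hz, hh, hl, map_neg]),
        hθγ _ _ hh hl, hA.mul_mul_eq h2 hz (hθ _ hh') (hθ _ hh) (hγ _ hl)])
    have k3 : g (m w h') = m (g w) (g h') := by
      have hc : z.1 (c h') = c h' := by rw [hA.z_conj hz, hh']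
      rw [← hA.conj_conj h', hA.mul_conj_eq h2 hz hc hw, k1 _ _ hc hw, g1 _ hc,
        g1 (c (c h')) (by rw [hA.z_conj hz, hc]), t3 _ hc, g2 _ hw,
        hA.mul_conj_eq h2 hz (hθ _ hc) (hγ _ hw)]
    have k4 : g (m w w') = m (g w) (g w') := sub_eq_zero.mp (hA.orth.nondeg _ fun y => by
      obtain ⟨y, rfl⟩ := g5 y
      obtain ⟨k, v, hk, hv, rfl⟩ := hd y
      rw [map_sub, LinearMap.sub_apply, g3, map_add, map_add, map_add, sub_eq_zero,
        orth_of_eigen h2 (by rw [hz, hw, hw']; simp) hv, g2 _ hv, g2 _ hw, g2 _ hw',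
        orth_of_eigen h2 (by rw [hz, hγ _ hw, hγ _ hw']; simp) (hγ _ hv), hA.adj, hA.adj,
        hA.conj_of_neg h2 hz hw', hA.conj_of_neg h2 hz (hγ _ hw'), map_neg, map_neg, map_neg,
        map_neg, g1 _ hk, ← hθγ _ _ hk hw', formIsom.map_map])
    simp only [map_add, LinearMap.add_apply, k1 _ _ hh hw', k2, k3, k4]
  · change g (z.1 x) = z.1 (g x)
    obtain ⟨h, w, hh, hw, rfl⟩ := hd x
    simp only [map_add, hh, hw, map_neg, g1 _ hh, g2 _ hw, hθ _ hh, hγ _ hw]

theorem exists_extension_refl [FiniteDimensional F V] (hzz : z * z = 1) {u v : V}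
    {r s : formIsom B} (hu : z.1 u = -u) (hv : z.1 v = -v) (hr : IsFormRefl u r)
    (hs : IsFormRefl v s) :
    ∃ g ∈ compAut m B, Commute g z ∧ ∀ w, z.1 w = -w → g.1 w = (r * s).1 w := by
  obtain ⟨d, hd, rfl⟩ := hA.exists_eq_mul h2 hz hv hs.1 hu
  have hd' : B d d / 2 ≠ 0 := fun h => hr.1 (by
    rw [hA.form_mul_mul h2, (div_eq_zero_iff.mp h).resolve_right h2, mul_zero])
  have hc : ∀ h, z.1 h = h → z.1 (c h) = c h := fun h hh => by rw [hA.z_conj hz, hh]
  have hm : ∀ {h h'}, z.1 h = h → z.1 h' = h' → z.1 (m h h') = m h h' := fun hh hh' => by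
    rw [hz, hh, hh']
  have key : ∀ k, z.1 k = k → (r * s).1 (m k v) = (B d d / 2)⁻¹ • m (m k d) (m d v) :=
    fun k hk => by
    have := hA.refl_mul h2 hr (m (c d) (c k))
    rw [hA.mul_mul_eq h2 hz (hm (hc _ hd) (hc _ hk)) hd hv, hA.left' h2, ← hA.conj_mul,
      hA.conj_conj, map_smul, LinearMap.smul_apply, map_smul] at this
    rw [mul_apply, hA.refl_mul h2 hs, map_neg, ← neg_neg (m (m k d) _), ← this, smul_neg,
      smul_smul, inv_mul_cancel₀ hd', one_smul]
  refine hA.exists_extension h2 hz hzz hv hs.1 (fun w hw => ?_)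
    ((B d d / 2)⁻¹ • m (c d) ∘ₗ m.flip d) (fun h hh => by simp [hm (hc _ hd) (hm hh hd)])
    fun h w hh hw => ?_
  · obtain ⟨k, hk, rfl⟩ := hA.exists_eq_mul h2 hz hv hs.1 hw
    rw [key k hk, map_smul, hz, hm hk hd, hu, map_neg, smul_neg]
  · obtain ⟨k, hk, rfl⟩ := hA.exists_eq_mul h2 hz hv hs.1 hw
    rw [hA.mul_mul_eq h2 hz hh hk hv, key k hk, key _ (hm hk hh)]
    simp only [map_smul, LinearMap.smul_apply, LinearMap.comp_apply, LinearMap.flip_apply]
    rw [hA.mul_mul_eq h2 hz (hm (hc _ hd) (hm hh hd)) (hm hk hd) hu,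
      hA.assoc h2 hz hk hd (hm (hc _ hd) (hm hh hd)) hv hs.1, hA.left' h2,
      hA.assoc h2 hz hk hh hd hv hs.1]
    simp only [map_smul, LinearMap.smul_apply, smul_smul, inv_mul_cancel₀ hd',
      _root_.mul_one]

end Involution

theorem sylowEA [Finite F] [FiniteDimensional F V] (hd : 7 ≤ finrank F V) :
    SylowEA 2 (compAut m B) := by
  have := Module.finite_of_finite F (M := V)
  obtain ⟨S, hS, -, hle, hi⟩ := exists_sylow_le_of_le (IsPGroup.of_bot (p := 2))
    (bot_le (a := compAut m B))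
  refine sylowEA_of_le hle hS hi ?_
  rcases eq_or_ne S ⊥ with rfl | hne
  · exact bot_le
  obtain ⟨⟨z, hzS, hzc⟩, hz2⟩ := exists_prime_orderOf_dvd_card' 2 (dvd_card_of_isPGroup_of_ne_bot
    (hS.to_le inf_le_left) (inf_centralizer_ne_bot_of_isPGroup hS hS le_normalizer hne))
  replace hz2 : orderOf z = 2 := (orderOf_coe _).trans hz2
  have hz := hle hzS
  have hzz : z * z = 1 := by rw [← pow_two, ← hz2, pow_orderOf_eq_one]
  let b := ofInvolution h2 z hzz
  have hb : ∀ w : LinearMap.ker (z.1.toLinearMap + LinearMap.id), z.1 w.1 = -w.1 := fun w =>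
    eq_neg_of_add_eq_zero_left w.2
  have hp : ∀ v, b.p v = 0 → z.1 v = v := fun v hv => Eq.symm (by
    simpa [b, ofInvolution, h2, sub_eq_zero] using congrArg Subtype.val hv)
  have hnt : Nontrivial (LinearMap.ker (z.1.toLinearMap + LinearMap.id)) := by
    by_contra h
    rw [not_nontrivial_iff_subsingleton] at h
    rw [show z = 1 from formIsom.ext fun v => hp v (Subsingleton.elim _ _)] at hz2
    simp at hz2
  obtain ⟨l, hl⟩ := (hA.orth.blk b).exists_aniso h2
  have hdim : 4 ≤ finrank F (LinearMap.ker (z.1.toLinearMap + LinearMap.id)) := by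
    have h3 := LinearMap.finrank_range_add_finrank_ker b.p
    have h4 := (LinearMap.range b.p).finrank_le
    have h5 := LinearMap.finrank_le_finrank_of_injective
      (f := (m.flip l.1).restrict (p := LinearMap.ker b.p)
        (q := LinearMap.ker (z.1.toLinearMap + LinearMap.id)) fun x hx => by
          simp [hz x, hp x hx, hb l])
      fun x y h => Subtype.ext (hA.mul_right_cancel h2 hl (congrArg Subtype.val h))
    omega
  let C := compAut m B ⊓ centralizer {z}
  have hC : C ≤ b.stab := fun g hg v => by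
    have : g.1 (z.1 v) = z.1 (g.1 v) := formIsom.congr (mem_centralizer_singleton_iff.mp hg.2) v
    simp [b, ofInvolution, this]
  let ρ := b.res.comp (inclusion hC)
  have hρ : Function.Injective ρ := (injective_iff_map_eq_one ρ).mpr fun g hg => by
    have h3 : ∀ w, g.1.1 (b.a w) = b.a w := fun w =>
      (b.a_res (inclusion hC g) w).symm.trans (congrArg b.a (formIsom.congr hg w))
    refine Subtype.ext (b.isom_ext h3 fun v hv => hA.mul_right_cancel h2 hl ?_)
    have h4 := h3 ⟨m v l, by simp [hz v, hp v hv, hb l]⟩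
    exact ((congrArg (m (g.1.1 v)) (h3 l)).symm.trans (g.2.1 v l).symm).trans h4
  have h3 := (hA.orth.blk b).sylowEA h2 hdim (H := ρ.range)
    ((hA.orth.blk b).commutator_le h2 fun u v r s hr hs => by
      obtain ⟨g, h3, h4, h5⟩ := hA.exists_extension_refl h2 hz hzz (hb u) (hb v) (hr.ι b) (hs.ι b)
      refine ⟨⟨g, h3, mem_centralizer_singleton_iff.mpr h4.eq⟩, formIsom.ext fun w => b.a_injective ?_⟩
      rw [← b.ι_a (r * s), map_mul]
      exact (b.a_res _ w).trans (h5 _ (hb w)))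
  have hSC : S ≤ C := le_inf hle fun s hs => mem_centralizer_singleton_iff.mpr (hzc s hs)
  have h4 := (h3.of_range hρ).inf_le_powComm hS
    fun h => hi (h.trans (Dvd.intro _ (relIndex_mul_relIndex _ _ _ hSC inf_le_left)))
  rwa [inf_eq_left.mpr hSC] at h4

end IsCompAlg

/-! ### The Zorn vector-matrix algebra -/

open _root_.Cfsg.Lie

theorem fin8_ext {x y : Fin 8 → F} (h : x 0 = y 0 ∧ x 1 = y 1 ∧ x 2 = y 2 ∧ x 3 = y 3 ∧
    x 4 = y 4 ∧ x 5 = y 5 ∧ x 6 = y 6 ∧ x 7 = y 7) : x = y := by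
  obtain ⟨h0, h1, h2, h3, h4, h5, h6, h7⟩ := h
  ext i
  fin_cases i
  exacts [h0, h1, h2, h3, h4, h5, h6, h7]

theorem zornMul_apply (x y : Fin 8 → F) :
    zornMul x y 0 = x 0 * y 0 + (x 1 * y 4 + x 2 * y 5 + x 3 * y 6) ∧
    zornMul x y 1 = x 0 * y 1 + y 7 * x 1 - (x 5 * y 6 - x 6 * y 5) ∧
    zornMul x y 2 = x 0 * y 2 + y 7 * x 2 - (x 6 * y 4 - x 4 * y 6) ∧
    zornMul x y 3 = x 0 * y 3 + y 7 * x 3 - (x 4 * y 5 - x 5 * y 4) ∧
    zornMul x y 4 = y 0 * x 4 + x 7 * y 4 + (x 2 * y 3 - x 3 * y 2) ∧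
    zornMul x y 5 = y 0 * x 5 + x 7 * y 5 + (x 3 * y 1 - x 1 * y 3) ∧
    zornMul x y 6 = y 0 * x 6 + x 7 * y 6 + (x 1 * y 2 - x 2 * y 1) ∧
    zornMul x y 7 = x 4 * y 1 + x 5 * y 2 + x 6 * y 3 + x 7 * y 7 :=
  ⟨rfl, rfl, rfl, rfl, rfl, rfl, rfl, rfl⟩

/-- Zorn's multiplication as a bilinear map. -/
def zornBil (F : Type u) [Field F] : (Fin 8 → F) →ₗ[F] (Fin 8 → F) →ₗ[F] (Fin 8 → F) :=
  LinearMap.mk₂ F zornMul
    (fun x y z => fin8_ext (by
      simp only [zornMul_apply, Pi.add_apply]; refine ⟨?_, ?_, ?_, ?_, ?_, ?_, ?_, ?_⟩ <;> ring))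
    (fun c x y => fin8_ext (by
      simp only [zornMul_apply, Pi.smul_apply, smul_eq_mul]
      refine ⟨?_, ?_, ?_, ?_, ?_, ?_, ?_, ?_⟩ <;> ring))
    (fun x y z => fin8_ext (by
      simp only [zornMul_apply, Pi.add_apply]; refine ⟨?_, ?_, ?_, ?_, ?_, ?_, ?_, ?_⟩ <;> ring))
    (fun c x y => fin8_ext (by
      simp only [zornMul_apply, Pi.smul_apply, smul_eq_mul]
      refine ⟨?_, ?_, ?_, ?_, ?_, ?_, ?_, ?_⟩ <;> ring))

theorem zornBil_apply (x y : Fin 8 → F) : zornBil F x y = zornMul x y := rfl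

/-- The polar form of the norm of Zorn's algebra. -/
def zornForm (F : Type u) [Field F] : LinearMap.BilinForm F (Fin 8 → F) :=
  coordForm F 0 7 + coordForm F 7 0 - (coordForm F 1 4 + coordForm F 4 1 + coordForm F 2 5 +
    coordForm F 5 2 + coordForm F 3 6 + coordForm F 6 3)

theorem zornForm_apply (x y : Fin 8 → F) : zornForm F x y = x 0 * y 7 + x 7 * y 0 -
    (x 1 * y 4 + x 4 * y 1 + x 2 * y 5 + x 5 * y 2 + x 3 * y 6 + x 6 * y 3) := rfl

/-- The conjugation of Zorn's algebra. -/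
def zornConj (F : Type u) [Field F] : (Fin 8 → F) →ₗ[F] (Fin 8 → F) where
  toFun x := ![x 7, -x 1, -x 2, -x 3, -x 4, -x 5, -x 6, x 0]
  map_add' x y := fin8_ext (by simp [add_comm])
  map_smul' c x := fin8_ext (by simp)

theorem zornConj_apply (x : Fin 8 → F) : zornConj F x 0 = x 7 ∧ zornConj F x 1 = -x 1 ∧
    zornConj F x 2 = -x 2 ∧ zornConj F x 3 = -x 3 ∧ zornConj F x 4 = -x 4 ∧
    zornConj F x 5 = -x 5 ∧ zornConj F x 6 = -x 6 ∧ zornConj F x 7 = x 0 :=
  ⟨rfl, rfl, rfl, rfl, rfl, rfl, rfl, rfl⟩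

theorem isCompAlg_zorn :
    IsCompAlg (zornBil F) ![1, 0, 0, 0, 0, 0, 0, 1] (zornForm F) (zornConj F) where
  orth := ⟨fun u v => by simp only [zornForm_apply]; ring, fun u h => fin8_ext
    ⟨by simpa [zornForm_apply] using h (Pi.single 7 1),
      by simpa [zornForm_apply] using h (Pi.single 4 1),
      by simpa [zornForm_apply] using h (Pi.single 5 1),
      by simpa [zornForm_apply] using h (Pi.single 6 1),
      by simpa [zornForm_apply] using h (Pi.single 1 1),
      by simpa [zornForm_apply] using h (Pi.single 2 1),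
      by simpa [zornForm_apply] using h (Pi.single 3 1),
      by simpa [zornForm_apply] using h (Pi.single 0 1)⟩⟩
  one_mul x := fin8_ext (by simp [zornBil_apply, zornMul_apply])
  mul_one x := fin8_ext (by simp [zornBil_apply, zornMul_apply])
  conj x := fin8_ext (by simp [zornForm_apply, zornConj_apply])
  bee := by simp [zornForm_apply, one_add_one_eq_two]
  left x y w := fin8_ext (by
    simp only [zornBil_apply, zornMul_apply, zornForm_apply, zornConj_apply, Pi.add_apply,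
      Pi.smul_apply, smul_eq_mul]
    refine ⟨?_, ?_, ?_, ?_, ?_, ?_, ?_, ?_⟩ <;> ring)
  right x y w := fin8_ext (by
    simp only [zornBil_apply, zornMul_apply, zornForm_apply, zornConj_apply, Pi.add_apply,
      Pi.smul_apply, smul_eq_mul]
    refine ⟨?_, ?_, ?_, ?_, ?_, ?_, ?_, ?_⟩ <;> ring)
  adj x y w := by
    simp only [zornBil_apply, zornMul_apply, zornForm_apply, zornConj_apply]
    ring
  conj_mul x y := fin8_ext (by
    simp only [zornBil_apply, zornMul_apply, zornConj_apply]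
    refine ⟨?_, ?_, ?_, ?_, ?_, ?_, ?_, ?_⟩ <;> ring)

theorem sylowEA_G2 [Fintype F] (hF : Odd (Fintype.card F)) : SylowEA 2 (G2 F) := by
  have h2 := two_ne_zero_of_odd_card hF
  let φ : G2 F →* formIsom (zornForm F) :=
    ((glEquivLin (Fin 8) F).toMonoidHom.comp (G2 F).subtype).codRestrict _
      fun g => isCompAlg_zorn.map_mem h2 g.2
  refine SylowEA.of_range (f := φ) (fun g h H => Subtype.ext ((glEquivLin (Fin 8) F).injective
    (congrArg Subtype.val H))) ?_
  suffices h : φ.range = compAut (zornBil F) (zornForm F) from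
    h ▸ isCompAlg_zorn.sylowEA h2 (by simp)
  refine le_antisymm ?_ fun g hg => ?_
  · rintro _ ⟨g, rfl⟩
    exact g.2
  · obtain ⟨g, h⟩ := g
    obtain ⟨g, rfl⟩ := (glEquivLin (Fin 8) F).surjective g
    exact ⟨⟨g, hg⟩, rfl⟩

end Cfsg

set_option linter.all false in
theorem Cfsg.Rz.Grp_Octonion_0 : True := by
  have := @_root_.Cfsg.IsCompAlg.mk.congr_simp.{0, 0}
  have := @_root_.Cfsg.FormBlk.res.eq_def.{0, 0, 0}
  have := @_root_.Cfsg.FormBlk.res.eq_1.{0, 0, 0}
  have := @_root_.Cfsg.FormBlk.res.fun_cases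
  have := @_root_.Cfsg.zornBil.eq_def.{0}
  have := @_root_.Cfsg.zornBil.eq_1.{0}
  have := @_root_.Cfsg.zornBil.fun_cases
  have := @_root_.Cfsg.zornForm.eq_def.{0}
  have := @_root_.Cfsg.zornForm.eq_1.{0}
  have := @_root_.Cfsg.zornForm.fun_cases
  have := @_root_.Cfsg.compAut.eq_def.{0, 0}
  have := @_root_.Cfsg.compAut.eq_1.{0, 0}
  have := @_root_.Cfsg.compAut.fun_cases
  have := @_root_.Cfsg.zornConj.eq_def.{0}
  have := @_root_.Cfsg.zornConj.eq_1.{0}
  have := @_root_.Cfsg.zornConj.fun_cases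
  trivial
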