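import Cfsg.Agent.Grp.TransTwo
import Mathlib.Analysis.SpecialFunctions.Complex.CircleAddChar

/-!
# Linear `p'`-groups with two orbits on nonzero vectors: the orbit lengths
-/

set_option autoImplicit false
set_option linter.unusedSectionVars false

namespace Cfsg.TwoOrb

open scoped Matrix
open Subgroup TransLin

universe u

variable {H : Type u} [Group H] [Finite H] {p : ℕ} [hp : Fact p.Prime] {n : ℕ}

theorem sum_dot (v : Fin n → ZMod p) :
    ∑ y : Fin n → ZMod p, ZMod.stdAddChar (y ⬝ᵥ v) = if v = 0 then (p : ℂ) ^ n else 0 := by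
  split_ifs with h
  · simp [h]
  · obtain ⟨i, hi⟩ := Function.ne_iff.mp h
    let ψ : AddChar (Fin n → ZMod p) ℂ :=
      { toFun := fun y => ZMod.stdAddChar (y ⬝ᵥ v)
        map_zero_eq_one' := by simp
        map_add_eq_mul' := fun a b => by rw [add_dotProduct, AddChar.map_add_eq_mul] }
    refine (AddChar.sum_eq_zero_iff_ne_zero (ψ := ψ)).mpr fun h0 => hi ?_
    have h1 := DFunLike.congr_fun h0 (Pi.single i 1)
    simp only [ψ, AddChar.coe_mk, single_dotProduct, one_mul, AddChar.zero_apply] at h1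
    exact ZMod.injective_stdAddChar (h1.trans (AddChar.map_zero_eq_one _).symm)

/-- The character sum of a set of vectors. -/
noncomputable def chS (O : Finset (Fin n → ZMod p)) (y : Fin n → ZMod p) : ℂ :=
  ∑ v ∈ O, ZMod.stdAddChar (y ⬝ᵥ v)

theorem sum_chS {O : Finset (Fin n → ZMod p)} (h0 : 0 ∉ O) : ∑ y, chS O y = 0 := by
  simp only [chS]
  rw [Finset.sum_comm]
  exact Finset.sum_eq_zero fun v hv => by
    rw [sum_dot, if_neg fun h : v = 0 => h0 (h ▸ hv)]

theorem sum_chS_sq {O : Finset (Fin n → ZMod p)} (hneg : ∀ v ∈ O, -v ∈ O) :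
    ∑ y, chS O y ^ 2 = (p : ℂ) ^ n * O.card := by
  simp only [chS, sq, Finset.sum_mul_sum, ← AddChar.map_add_eq_mul, ← dotProduct_add]
  rw [Finset.sum_comm, mul_comm, ← nsmul_eq_mul, ← Finset.sum_const]
  refine Finset.sum_congr rfl fun v hv => ?_
  rw [Finset.sum_comm]
  simp only [sum_dot, add_eq_zero_iff_neg_eq]
  rw [Finset.sum_ite_eq, if_pos (hneg v hv)]

theorem chS_smul {O : Finset (Fin n → ZMod p)} (hc : ∀ c : ZMod p, c ≠ 0 → ∀ v ∈ O, c • v ∈ O)
    {c : ZMod p} (h : c ≠ 0) (y : Fin n → ZMod p) : chS O (c • y) = chS O y := by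
  refine Finset.sum_nbij' (fun v => c • v) (fun v => c⁻¹ • v) (hc c h) (hc _ (inv_ne_zero h))
    (fun v _ => inv_smul_smul₀ h v) (fun v _ => smul_inv_smul₀ h v) fun v _ => by
      rw [smul_dotProduct, dotProduct_smul]

theorem chS_int {O : Finset (Fin n → ZMod p)} (hc : ∀ c : ZMod p, c ≠ 0 → ∀ v ∈ O, c • v ∈ O)
    (y : Fin n → ZMod p) : ∃ r : ℤ, chS O y = r := by
  have hp1 : (p : ℂ) - 1 ≠ 0 := sub_ne_zero.mpr (by exact_mod_cast hp.out.one_lt.ne')
  have h1 : ∑ c : ZMod p, chS O (c • y) = O.card + ((p : ℂ) - 1) * chS O y := by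
    rw [← Finset.add_sum_erase _ _ (Finset.mem_univ 0), Finset.sum_congr rfl fun c h =>
      chS_smul hc (Finset.ne_of_mem_erase h) y, Finset.sum_const, Finset.card_erase_of_mem
        (Finset.mem_univ _), Finset.card_univ, ZMod.card, nsmul_eq_mul,
      Nat.cast_sub hp.out.one_le]
    simp [chS]
  have h2 : ∑ c : ZMod p, chS O (c • y) = ((∑ v ∈ O, if y ⬝ᵥ v = 0 then p else 0 : ℕ) : ℂ) := by
    simp only [chS]
    rw [Finset.sum_comm, Nat.cast_sum]
    refine Finset.sum_congr rfl fun v _ => ?_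
    simp only [smul_dotProduct, smul_eq_mul]
    rw [AddChar.sum_mulShift _ (ZMod.isPrimitive_stdAddChar p), ZMod.card]
  refine exists_int_of_isIntegral_ratCast (IsIntegral.sum _ fun v _ => ?_)
    (q := ((∑ v ∈ O, if y ⬝ᵥ v = 0 then p else 0 : ℕ) - O.card) / (p - 1)) ?_
  · refine IsIntegral.of_pow hp.out.pos ?_
    rw [← AddChar.map_nsmul_eq_pow, nsmul_eq_mul, ZMod.natCast_self, zero_mul,
      AddChar.map_zero_eq_one]
    exact isIntegral_one
  · rw [Rat.cast_div, Rat.cast_sub, Rat.cast_natCast, ← h2, h1]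
    push_cast
    field_simp
    ring

theorem card_fix_transpose (M : Matrix (Fin n) (Fin n) (ZMod p)) :
    (Finset.univ.filter fun v => Mᵀ *ᵥ v = v).card = (Finset.univ.filter fun v => M *ᵥ v = v).card := by
  have key : ∀ M : Matrix (Fin n) (Fin n) (ZMod p),
      ∑ v : Fin n → ZMod p, ∑ y : Fin n → ZMod p, ZMod.stdAddChar (y ⬝ᵥ (M *ᵥ v - v)) =
        (Finset.univ.filter fun v => M *ᵥ v = v).card * (p : ℂ) ^ n := fun M => by
    simp only [sum_dot, sub_eq_zero]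
    rw [← Finset.sum_filter, Finset.sum_const, nsmul_eq_mul]
  have h1 := key Mᵀ
  rw [Finset.sum_comm, Finset.sum_congr rfl fun v _ => Finset.sum_congr rfl fun y _ =>
    show _ = ZMod.stdAddChar (y ⬝ᵥ (M *ᵥ v - v)) by
      rw [dotProduct_sub, dotProduct_sub, Matrix.mulVec_transpose, Matrix.dotProduct_mulVec,
        dotProduct_comm v, dotProduct_comm v], key] at h1
  exact_mod_cast (mul_right_cancel₀ (pow_ne_zero n (Nat.cast_ne_zero.mpr hp.out.ne_zero)) h1).symm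

variable {R : H →* Matrix (Fin n) (Fin n) (ZMod p)} {v w v₁ v₂ : Fin n → ZMod p}

open Classical in
/-- The orbit of a vector. -/
noncomputable def orb (R : H →* Matrix (Fin n) (Fin n) (ZMod p)) (v : Fin n → ZMod p) :
    Finset (Fin n → ZMod p) := Finset.univ.filter fun w => ∃ h, R h *ᵥ v = w

theorem mem_orb : w ∈ orb R v ↔ ∃ h, R h *ᵥ v = w := by simp [orb]

theorem mulVec_mul (g h : H) (v : Fin n → ZMod p) : R (g * h) *ᵥ v = R g *ᵥ (R h *ᵥ v) := by
  rw [map_mul, Matrix.mulVec_mulVec]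

theorem inv_mulVec (h : H) (v : Fin n → ZMod p) : R h⁻¹ *ᵥ (R h *ᵥ v) = v := by
  rw [← mulVec_mul, inv_mul_cancel, map_one, Matrix.one_mulVec]

theorem self_mem_orb (v : Fin n → ZMod p) : v ∈ orb R v := mem_orb.mpr ⟨1, by simp⟩

theorem mulVec_mem_orb (h : H) (hw : w ∈ orb R v) : R h *ᵥ w ∈ orb R v := by
  obtain ⟨g, rfl⟩ := mem_orb.mp hw
  exact mem_orb.mpr ⟨h * g, mulVec_mul h g v⟩

theorem orb_eq (hw : w ∈ orb R v) : orb R w = orb R v := by
  obtain ⟨g, rfl⟩ := mem_orb.mp hw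
  ext x
  refine ⟨fun hx => ?_, fun hx => ?_⟩
  · obtain ⟨h, rfl⟩ := mem_orb.mp hx
    exact mulVec_mem_orb h hw
  · obtain ⟨h, rfl⟩ := mem_orb.mp hx
    exact mem_orb.mpr ⟨h * g⁻¹, by rw [mulVec_mul, inv_mulVec]⟩

theorem ne_zero_of_mem_orb (hv : v ≠ 0) (hw : w ∈ orb R v) : w ≠ 0 := fun h => by
  obtain ⟨g, hg⟩ := mem_orb.mp (orb_eq hw ▸ self_mem_orb v)
  exact hv (by rw [← hg, h, Matrix.mulVec_zero])

theorem smul_mem_orb {c : ZMod p} (hc : c • v ∈ orb R v₁) (hw : w ∈ orb R v) :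
    c • w ∈ orb R v₁ := by
  obtain ⟨g, rfl⟩ := mem_orb.mp hw
  exact Matrix.mulVec_smul (R g) c v ▸ mulVec_mem_orb g hc

theorem card_orb (v : Fin n → ZMod p) : (orb R v).card = (stab R v).index := by
  have h1 : ∀ g h : H, g⁻¹ * h ∈ stab R v ↔ R g *ᵥ v = R h *ᵥ v := fun g h => by
    rw [mem_stab, mulVec_mul]
    exact ⟨fun e => by conv_lhs => rw [← e, ← mulVec_mul, mul_inv_cancel, map_one,
      Matrix.one_mulVec], fun e => by rw [← e, inv_mulVec]⟩
  rw [← Nat.card_eq_finsetCard]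
  refine (Nat.card_eq_of_bijective (Quotient.lift (fun g => ⟨R g *ᵥ v, mem_orb.mpr ⟨g, rfl⟩⟩)
    fun g h e => Subtype.ext ((h1 g h).mp (QuotientGroup.leftRel_apply.mp e))) ⟨?_, ?_⟩).symm
  · rintro ⟨g⟩ ⟨h⟩ e
    exact Quotient.sound (QuotientGroup.leftRel_apply.mpr ((h1 g h).mpr (congrArg Subtype.val e)))
  · rintro ⟨w, hw⟩
    obtain ⟨h, hh⟩ := mem_orb.mp hw
    exact ⟨⟦h⟧, Subtype.ext hh⟩

theorem sum_orb (T : Finset (Fin n → ZMod p)) (hT : ∀ a ∈ T, ∀ b ∈ T, b ∈ orb R a → a = b) :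
    ∑ v ∈ T.biUnion (orb R), Nat.card (stab R v) = T.card * Nat.card H := by
  rw [Finset.sum_biUnion fun a ha b hb hab => Finset.disjoint_left.mpr fun x h1 h2 =>
    hab (hT a ha b hb (by rw [← orb_eq h1, orb_eq h2]; exact self_mem_orb b)), ← smul_eq_mul,
    ← Finset.sum_const]
  refine Finset.sum_congr rfl fun a _ => ?_
  have h1 : ∀ v ∈ orb R a, Nat.card (stab R v) = Nat.card (stab R a) := fun v hv =>
    Nat.eq_of_mul_eq_mul_left (index_pos (stab R a)) (by
      rw [index_mul_card, ← card_orb, ← orb_eq hv, card_orb, index_mul_card])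
  rw [Finset.sum_congr rfl h1, Finset.sum_const, smul_eq_mul, card_orb, index_mul_card]

/-- The contragredient representation. -/
def dual (R : H →* Matrix (Fin n) (Fin n) (ZMod p)) : H →* Matrix (Fin n) (Fin n) (ZMod p) where
  toFun h := (R h⁻¹)ᵀ
  map_one' := by simp
  map_mul' g h := by rw [mul_inv_rev, map_mul, Matrix.transpose_mul]

theorem dual_dual : dual (dual R) = R := MonoidHom.ext fun h => by simp [dual]

theorem sum_stab_dual : ∑ v, Nat.card (stab (dual R) v) = ∑ v, Nat.card (stab R v) := by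
  classical
  have := Fintype.ofFinite H
  have key : ∀ R : H →* Matrix (Fin n) (Fin n) (ZMod p), ∑ v, Nat.card (stab R v) =
      ∑ h, (Finset.univ.filter fun v => R h *ᵥ v = v).card := fun R => by
    simp only [Finset.card_filter]
    rw [Finset.sum_comm]
    refine Finset.sum_congr rfl fun v _ => ?_
    rw [← Finset.card_filter, Nat.card_eq_fintype_card, Fintype.card_subtype]
    simp only [mem_stab]
  rw [key, key]
  exact Fintype.sum_equiv (Equiv.inv H) _ _ fun h => card_fix_transpose (R h⁻¹)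

/-- Exactly two orbits on nonzero vectors. -/
structure Two (R : H →* Matrix (Fin n) (Fin n) (ZMod p)) (v₁ v₂ : Fin n → ZMod p) : Prop where
  ne₁ : v₁ ≠ 0
  ne₂ : v₂ ≠ 0
  notMem : v₂ ∉ orb R v₁
  cover : ∀ v ≠ 0, v ∈ orb R v₁ ∨ v ∈ orb R v₂

theorem Two.symm (h : Two R v₁ v₂) : Two R v₂ v₁ :=
  ⟨h.ne₂, h.ne₁, fun h1 => h.notMem (orb_eq h1 ▸ self_mem_orb v₂), fun v hv => (h.cover v hv).symm⟩

theorem Two.not_both (h : Two R v₁ v₂) (h1 : v ∈ orb R v₁) : v ∉ orb R v₂ := fun h2 =>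
  h.notMem (by rw [← orb_eq h1, orb_eq h2]; exact self_mem_orb v₂)

theorem Two.sum_eq (h : Two R v₁ v₂) {M : Type*} [AddCommMonoid M] (f : (Fin n → ZMod p) → M) :
    ∑ v, f v = f 0 + (∑ v ∈ orb R v₁, f v + ∑ v ∈ orb R v₂, f v) := by
  rw [← Finset.sum_union (Finset.disjoint_left.mpr fun _ => h.not_both),
    ← Finset.add_sum_erase _ _ (Finset.mem_univ 0)]
  congr 2
  ext v
  simp only [Finset.mem_erase, Finset.mem_univ, and_true, Finset.mem_union]
  exact ⟨h.cover v, fun h1 => h1.elim (ne_zero_of_mem_orb h.ne₁) (ne_zero_of_mem_orb h.ne₂)⟩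

theorem Two.card_add (h : Two R v₁ v₂) : 1 + ((orb R v₁).card + (orb R v₂).card) = p ^ n := by
  simpa using (h.sum_eq fun _ => (1 : ℕ)).symm

theorem Two.exists_dual (h : Two R v₁ v₂) : ∃ y₁ y₂, Two (dual R) y₁ y₂ := by
  have hpos : 0 < Nat.card H := Nat.card_pos
  have h0 : ∀ {R : H →* Matrix (Fin n) (Fin n) (ZMod p)} {a}, a ∈ orb R 0 → a = 0 := fun h => by
    obtain ⟨g, rfl⟩ := mem_orb.mp h
    simp
  have h3 : ∑ v, Nat.card (stab (dual R) v) = 3 * Nat.card H := by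
    have h1 := sum_orb (R := R) {v₁} (by simp)
    have h2 := sum_orb (R := R) {v₂} (by simp)
    rw [Finset.singleton_biUnion, Finset.card_singleton] at h1 h2
    rw [sum_stab_dual, h.sum_eq, h1, h2, show stab R 0 = ⊤ from eq_top_iff.mpr fun g _ => by
      simp [mem_stab], card_top]
    ring
  obtain ⟨y, hy0, hy⟩ : ∃ y ≠ 0, y ∉ orb (dual R) v₁ := by
    by_contra h1
    push Not at h1
    have h2 := sum_orb (R := dual R) {0, v₁} (by
      simp only [Finset.mem_insert, Finset.mem_singleton]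
      rintro a (rfl | rfl) b (rfl | rfl) hab
      exacts [rfl, (h0 hab).symm, absurd rfl (ne_zero_of_mem_orb h.ne₁ hab), rfl])
    rw [Finset.card_pair h.ne₁.symm, Finset.eq_univ_of_forall (s := Finset.biUnion _ _) fun v => by
      by_cases hv : v = 0
      · exact Finset.mem_biUnion.mpr ⟨0, by simp, by rw [hv]; exact self_mem_orb 0⟩
      · exact Finset.mem_biUnion.mpr ⟨v₁, by simp, h1 v hv⟩] at h2
    omega
  refine ⟨v₁, y, h.ne₁, hy0, hy, fun z hz0 => ?_⟩
  by_contra hz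
  push Not at hz
  have hsymm : ∀ {a b}, a ∉ orb (dual R) b → b ∉ orb (dual R) a := fun h1 h2 =>
    h1 (by rw [orb_eq h2]; exact self_mem_orb _)
  have hne : ∀ {a b}, a ∉ orb (dual R) b → b ≠ a := fun h1 h2 =>
    h1 (by rw [h2]; exact self_mem_orb _)
  have h2 := sum_orb (R := dual R) {0, v₁, y, z} (by
    simp only [Finset.mem_insert, Finset.mem_singleton]
    rintro a (rfl | rfl | rfl | rfl) b (rfl | rfl | rfl | rfl) hab
    exacts [rfl, (h0 hab).symm, (h0 hab).symm, (h0 hab).symm,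
      absurd rfl (ne_zero_of_mem_orb h.ne₁ hab), rfl, absurd hab hy, absurd hab hz.1,
      absurd rfl (ne_zero_of_mem_orb hy0 hab), absurd hab (hsymm hy), rfl, absurd hab hz.2,
      absurd rfl (ne_zero_of_mem_orb hz0 hab), absurd hab (hsymm hz.1), absurd hab (hsymm hz.2),
      rfl])
  rw [Finset.card_insert_of_notMem (by simp [h.ne₁.symm, hy0.symm, hz0.symm]),
    Finset.card_insert_of_notMem (by simp [hne hy, hne hz.1]), Finset.card_pair (hne hz.2)] at h2
  have h4 := Finset.sum_le_sum_of_subset (f := fun v => Nat.card (stab (dual R) v))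
    (Finset.subset_univ (({0, v₁, y, z} : Finset _).biUnion (orb (dual R))))
  omega

theorem Two.closed (h : Two R v₁ v₂) (hc : ∀ c : ZMod p, c ≠ 0 → c • v₁ ∈ orb R v₁) {c : ZMod p}
    (h0 : c ≠ 0) (hw : w ∈ orb R v) (hv : v ≠ 0) : c • w ∈ orb R v := by
  refine smul_mem_orb ?_ hw
  rcases h.cover v hv with h1 | h1
  · exact orb_eq h1 ▸ smul_mem_orb (hc c h0) h1
  · rw [orb_eq h1]
    refine (h.cover _ (smul_ne_zero h0 hv)).resolve_left fun h2 => h.not_both ?_ h1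
    exact inv_smul_smul₀ h0 v ▸ smul_mem_orb (hc _ (inv_ne_zero h0)) h2

theorem chS_dual (h : H) (y : Fin n → ZMod p) :
    chS (orb R v) (dual R h *ᵥ y) = chS (orb R v) y := by
  refine Finset.sum_nbij' (fun v => R h⁻¹ *ᵥ v) (fun v => R h *ᵥ v) (fun _ => mulVec_mem_orb _)
    (fun _ => mulVec_mem_orb _) (fun v _ => by simpa using inv_mulVec (R := R) h⁻¹ v)
    (fun v _ => inv_mulVec h v) fun v _ => by
      rw [Matrix.dotProduct_mulVec, ← Matrix.mulVec_transpose]; rfl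

/-- The eigenvalue relations. -/
theorem Two.eigen (h : Two R v₁ v₂) (hc : ∀ c : ZMod p, c ≠ 0 → c • v₁ ∈ orb R v₁)
    {y₁ y₂ : Fin n → ZMod p} (hy : Two (dual R) y₁ y₂) :
    (∀ c : ZMod p, c ≠ 0 → c • y₁ ∈ orb (dual R) y₁) ∧ ∃ r s : ℤ,
      (orb R v₁).card + ((orb (dual R) y₁).card * r + (orb (dual R) y₂).card * s) = 0 ∧
      (orb (dual R) y₁).card * (orb (dual R) y₂).card * (r - s) ^ 2 =
        p ^ n * ((orb R v₁).card * (orb R v₂).card) := by
  have hcl : ∀ c : ZMod p, c ≠ 0 → ∀ v ∈ orb R v₁, c • v ∈ orb R v₁ := fun c h0 v hv =>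
    h.closed hc h0 hv h.ne₁
  obtain ⟨r, hr⟩ := chS_int hcl y₁
  obtain ⟨s, hs⟩ := chS_int hcl y₂
  have hk : ∀ {y z}, z ∈ orb (dual R) y → chS (orb R v₁) z = chS (orb R v₁) y := fun hz => by
    obtain ⟨g, rfl⟩ := mem_orb.mp hz
    exact chS_dual g _
  have h1 := sum_chS (O := orb R v₁) fun h0 => ne_zero_of_mem_orb h.ne₁ h0 rfl
  have h2 := sum_chS_sq (O := orb R v₁) fun v hv =>
    neg_one_smul (ZMod p) v ▸ hcl _ (neg_ne_zero.mpr one_ne_zero) v hv
  have h0 : chS (orb R v₁) 0 = (orb R v₁).card := by simp [chS]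
  rw [hy.sum_eq, Finset.sum_congr rfl fun z hz => (hk hz).trans hr,
    Finset.sum_congr rfl fun z hz => (hk hz).trans hs, h0] at h1
  rw [hy.sum_eq, Finset.sum_congr rfl fun z hz => congrArg (· ^ 2) ((hk hz).trans hr),
    Finset.sum_congr rfl fun z hz => congrArg (· ^ 2) ((hk hz).trans hs), h0] at h2
  simp only [Finset.sum_const, nsmul_eq_mul] at h1 h2
  have h3 := congrArg (Nat.cast : ℕ → ℤ) h.card_add
  have h4 := congrArg (Nat.cast : ℕ → ℤ) hy.card_add
  push_cast at h3 h4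
  have h1' : ((orb R v₁).card : ℤ) + ((orb (dual R) y₁).card * r + (orb (dual R) y₂).card * s) =
    0 := by exact_mod_cast h1
  have h2' : ((orb R v₁).card : ℤ) ^ 2 + ((orb (dual R) y₁).card * r ^ 2 +
    (orb (dual R) y₂).card * s ^ 2) = p ^ n * (orb R v₁).card := by exact_mod_cast h2
  have h5 : ((orb (dual R) y₁).card : ℤ) * (orb (dual R) y₂).card * (r - s) ^ 2 =
      p ^ n * ((orb R v₁).card * (orb R v₂).card) := by
    generalize ((orb R v₁).card : ℤ) = k, ((orb R v₂).card : ℤ) = l,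
      ((orb (dual R) y₁).card : ℤ) = f, ((orb (dual R) y₂).card : ℤ) = g, (p : ℤ) ^ n = q at *
    obtain rfl : l = q - 1 - k := by linarith
    obtain rfl : g = q - 1 - f := by linarith
    linear_combination (q - 1) * h2' - (f * r + (q - 1 - f) * s - k) * h1'
  refine ⟨fun c h6 => (hy.cover _ (smul_ne_zero h6 hy.ne₁)).resolve_right fun h7 => ?_,
    r, s, h1', h5⟩
  have h8 : r = s := by exact_mod_cast hr.symm.trans ((chS_smul hcl h6 y₁).symm.trans
    ((hk h7).trans hs))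
  rw [h8, sub_self, zero_pow two_ne_zero, mul_zero, eq_comm] at h5
  have h9 : ∀ v, ((orb R v).card : ℤ) ≠ 0 := fun v =>
    Nat.cast_ne_zero.mpr (Finset.card_pos.mpr ⟨v, self_mem_orb v⟩).ne'
  exact mul_ne_zero (pow_ne_zero n (Nat.cast_ne_zero.mpr hp.out.ne_zero))
    (mul_ne_zero (h9 _) (h9 _)) h5

theorem coprime_card_orb (hH : ¬ p ∣ Nat.card H) (v : Fin n → ZMod p) :
    p.Coprime (orb R v).card :=
  (Nat.Prime.coprime_iff_not_dvd hp.out).mpr fun h => hH (h.trans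
    ((dvd_of_eq (card_orb v)).trans (index_dvd_card _)))

theorem Two.card_mul (h : Two R v₁ v₂) {w₁ w₂ : Fin n → ZMod p} (h' : Two R w₁ w₂) :
    (orb R w₁).card * (orb R w₂).card = (orb R v₁).card * (orb R v₂).card := by
  have h1 := h.card_add.trans h'.card_add.symm
  rcases h.cover w₁ h'.ne₁ with e | e <;> rw [orb_eq e] at h1 ⊢
  · congr 1; omega
  · rw [mul_comm]; congr 1; omega

/-- Orbit lengths of Latin square or negative Latin square type. -/
theorem Two.exists_half (hH : ¬ p ∣ Nat.card H) (h : Two R v₁ v₂)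
    (hc : ∀ c : ZMod p, c ≠ 0 → c • v₁ ∈ orb R v₁) :
    ∃ a D, n = 2 * a ∧ (D = p ^ a - 1 ∨ D = p ^ a + 1) ∧ ∀ v ≠ 0, D ∣ (stab R v).index := by
  obtain ⟨y₁, y₂, hy⟩ := h.exists_dual
  obtain ⟨hcy, r, s, h1, h2⟩ := h.eigen hc hy
  obtain ⟨-, r', s', -, h3⟩ := hy.eigen hcy (y₁ := v₁) (y₂ := v₂) (by rwa [dual_dual])
  rw [dual_dual] at h3
  have hk := h.card_add
  have hf := hy.card_add
  have c1 := coprime_card_orb (R := R) hH v₁
  have c2 := coprime_card_orb (R := R) hH v₂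
  have c3 := coprime_card_orb (R := dual R) hH y₁
  have c4 := coprime_card_orb (R := dual R) hH y₂
  suffices ∃ a D, n = 2 * a ∧ (D = p ^ a - 1 ∨ D = p ^ a + 1) ∧ D ∣ (orb R v₁).card by
    obtain ⟨a, D, rfl, hD, h4⟩ := this
    refine ⟨a, D, rfl, hD, fun v hv => ?_⟩
    rw [← card_orb]
    rcases h.cover v hv with e | e <;> rw [orb_eq e]
    · exact h4
    refine (Nat.dvd_add_right h4).mp ?_
    rw [show (orb R v₁).card + (orb R v₂).card = (p ^ a) ^ 2 - 1 ^ 2 by
      rw [← pow_mul', ← hk]; simp, Nat.sq_sub_sq]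
    rcases hD with rfl | rfl <;> simp
  generalize (orb R v₁).card = k, (orb R v₂).card = l, (orb (dual R) y₁).card = f,
    (orb (dual R) y₂).card = g at *
  have hp1 := hp.out.one_lt
  have h4 : f * g * (r - s).natAbs ^ 2 = p ^ n * (k * l) := by
    have := congrArg Int.natAbs h2
    simpa [Int.natAbs_mul, Int.natAbs_pow] using this
  have h5 : k * l * (r' - s').natAbs ^ 2 = p ^ n * (f * g) := by
    have := congrArg Int.natAbs h3
    simpa [Int.natAbs_mul, Int.natAbs_pow] using this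
  have hpos : ∀ {m}, p.Coprime m → 0 < m := fun {m} h => Nat.pos_of_ne_zero fun e => by
    simp [e] at h; omega
  have h6 : (r - s).natAbs * (r' - s').natAbs = p ^ n := by
    refine (Nat.pow_left_injective two_ne_zero) (Nat.eq_of_mul_eq_mul_left
      (hpos ((c1.mul_right c2).mul_right (c3.mul_right c4))) ?_)
    calc _ = f * g * (r - s).natAbs ^ 2 * (k * l * (r' - s').natAbs ^ 2) := by ring
      _ = _ := by rw [h4, h5]; ring
  obtain ⟨a, -, ha⟩ := (Nat.dvd_prime_pow hp.out).mp (Dvd.intro _ h6)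
  rw [ha, ← pow_mul] at h4
  have h7 : n = 2 * a := by
    refine le_antisymm ((Nat.pow_dvd_pow_iff_le_right hp1).mp ?_)
      ((Nat.pow_dvd_pow_iff_le_right hp1).mp ?_)
    · exact mul_comm a 2 ▸ ((c3.mul_right c4).pow_left n).dvd_of_dvd_mul_left (Dvd.intro _ h4.symm)
    · exact mul_comm a 2 ▸ ((c1.mul_right c2).pow_left _).dvd_of_dvd_mul_right
        (Dvd.intro_left _ h4)
  subst h7
  rw [mul_comm a 2, mul_comm] at h4
  have h8 := Nat.eq_of_mul_eq_mul_left (pow_pos hp.out.pos _) h4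
  have hN : 1 ≤ p ^ a := Nat.one_le_pow _ _ hp.out.pos
  obtain ⟨ε, hε, t, ht⟩ : ∃ ε : ℤ, (ε = 1 ∨ ε = -1) ∧ ∃ t : ℤ,
      (p ^ a + ε) * k = (p ^ a + ε) * ((p ^ a - ε) * t) := by
    rw [pow_mul'] at hk hf
    have ha' : r - s = p ^ a ∨ r - s = -p ^ a := by
      have := Int.natAbs_eq (r - s)
      rwa [ha, Nat.cast_pow] at this
    have hk' := congrArg (Nat.cast : ℕ → ℤ) hk
    have hf' := congrArg (Nat.cast : ℕ → ℤ) hf
    have h9 := congrArg (Nat.cast : ℕ → ℤ) h8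
    push_cast at hk' hf' h9
    have h10 : ((f : ℤ) - k) * (f - l) = 0 := by
      linear_combination (f : ℤ) * hf' - (f : ℤ) * hk' - h9
    rcases mul_eq_zero.mp h10 with h | h <;> rcases ha' with e | e
    · exact ⟨1, Or.inl rfl, -s, by linear_combination h1 - f * e - s * hf' - (p : ℤ) ^ a * h⟩
    · exact ⟨-1, Or.inr rfl, s, by linear_combination -h1 + f * e + s * hf' - (p : ℤ) ^ a * h⟩
    · exact ⟨-1, Or.inr rfl, s + p ^ a, by
        linear_combination -h1 + f * e + s * hf' + (p : ℤ) ^ a * h + (p : ℤ) ^ a * hk'⟩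
    · exact ⟨1, Or.inl rfl, p ^ a - s, by
        linear_combination h1 - f * e - s * hf' + (p : ℤ) ^ a * h + (p : ℤ) ^ a * hk'⟩
  have ha0 : a ≠ 0 := by
    rintro rfl
    have := hpos c1
    rw [mul_zero, pow_zero] at hk
    omega
  have hN2 : (1 : ℤ) < p ^ a := one_lt_pow₀ (by exact_mod_cast hp1) ha0
  have h9 := mul_left_cancel₀ (by rcases hε with rfl | rfl <;> linarith) ht
  rcases hε with rfl | rfl
  · exact ⟨a, _, rfl, Or.inl rfl, Int.natCast_dvd_natCast.mp ⟨t, by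
      rw [h9, Nat.cast_sub hN]; push_cast; ring⟩⟩
  · exact ⟨a, _, rfl, Or.inr rfl, Int.natCast_dvd_natCast.mp ⟨t, by rw [h9]; push_cast; ring⟩⟩

end Cfsg.TwoOrb

set_option linter.all false in
theorem Cfsg.Rz.Grp_TwoOrbA_0 : True := by
  have := @_root_.Cfsg.TwoOrb.Two.mk.congr_simp.{0}
  have := @_root_.Cfsg.TwoOrb.orb.eq_def.{0}
  have := @_root_.Cfsg.TwoOrb.orb.fun_cases
  have := @_root_.Cfsg.TwoOrb.dual.eq_def.{0}
  have := @_root_.Cfsg.TwoOrb.dual.fun_cases
  have := @_root_.Cfsg.TwoOrb.chS.eq_def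
  have := @_root_.Cfsg.TwoOrb.chS.fun_cases
  trivial
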