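import Cfsg.Agent.Grp.TwoOrbA
import Cfsg.Agent.Alg.CycloTwo
import Cfsg.Agent.Grp.DihSylow

/-!
# Linear `p'`-groups with two orbits on nonzero vectors: counting classes
-/

set_option autoImplicit false
set_option linter.unusedSectionVars false

namespace Cfsg.TwoOrb

open scoped Matrix
open Subgroup TransLin

universe u

variable {H : Type u} [Group H] [Finite H] {p : ℕ} [hp : Fact p.Prime] {n : ℕ}
  {R : H →* Matrix (Fin n) (Fin n) (ZMod p)} {v₁ v₂ : Fin n → ZMod p}

open Classical in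
/-- The classes of nontrivial `π`-elements. -/
noncomputable def cls (H : Type u) [Group H] [Finite H] (π : Set ℕ) : Finset (ConjClasses H) :=
  (Fintype.ofFinite (ConjClasses H)).elems.filter fun c =>
    ∃ g, ConjClasses.mk g = c ∧ g ≠ 1 ∧ IsPiNumber π (orderOf g)

omit hp in
theorem mem_cls {π : Set ℕ} {c : ConjClasses H} :
    c ∈ cls H π ↔ ∃ g, ConjClasses.mk g = c ∧ g ≠ 1 ∧ IsPiNumber π (orderOf g) := by
  simp [cls, Fintype.complete]

omit hp in
theorem disjoint_cls {π σ : Set ℕ} (h : ∀ l, l.Prime → l ∈ π → l ∉ σ) :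
    Disjoint (cls H π) (cls H σ) := Finset.disjoint_left.mpr fun c h1 h2 => by
  obtain ⟨g, rfl, hg, hπ⟩ := mem_cls.mp h1
  obtain ⟨g', e, -, hσ⟩ := mem_cls.mp h2
  obtain ⟨x, rfl⟩ := isConj_iff.mp (ConjClasses.mk_eq_mk_iff_isConj.mp e)
  rw [← MulAut.conj_apply, MulEquiv.orderOf_eq] at hπ
  obtain ⟨l, hl, hd⟩ := Nat.exists_prime_and_dvd (n := orderOf g') fun e => hg (by
    simp [orderOf_eq_one_iff.mp e])
  exact h l hl (hπ l hl hd) (hσ l hl hd)

omit hp in
theorem cls_add_le {π σ τ : Set ℕ} (h1 : ∀ l, l.Prime → l ∈ π → l ∉ σ)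
    (h2 : ∀ l, l.Prime → l ∈ π → l ∉ τ) (h3 : ∀ l, l.Prime → l ∈ σ → l ∉ τ) :
    (cls H π).card + (cls H σ).card + (cls H τ).card + 1 ≤ Nat.card (ConjClasses H) := by
  classical
  have := Fintype.ofFinite (ConjClasses H)
  have h0 : ∀ π, ConjClasses.mk (1 : H) ∉ cls H π := fun π h => by
    obtain ⟨g, e, hg, -⟩ := mem_cls.mp h
    exact hg (isConj_one_left.mp (ConjClasses.mk_eq_mk_iff_isConj.mp e))
  rw [← Finset.card_union_of_disjoint (disjoint_cls h1), ← Finset.card_union_of_disjoint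
    (Finset.disjoint_union_left.mpr ⟨disjoint_cls h2, disjoint_cls h3⟩),
    ← Finset.card_insert_of_notMem (a := ConjClasses.mk 1) (by simp [h0]),
    Nat.card_eq_fintype_card]
  exact Finset.card_le_univ _

omit hp in
theorem cls_le (π : Set ℕ) : (cls H π).card + 1 ≤ Nat.card (ConjClasses H) :=
  le_trans (by omega) (cls_add_le (π := π) (σ := ∅) (τ := ∅) (by simp) (by simp) (by simp))

theorem le_of_hall (hH : ¬ p ∣ Nat.card H) (hn : 0 < n) {σ : Set ℕ} {B : Subgroup H}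
    (hB : IsPiHall σ B) [IsMulCommutative B] {m : ℕ} (hσ : IsPiNumber σ m)
    (hm : ∀ v ≠ 0, m ∣ (stab R v).index) : m ≤ n * (cls H σ).card + 1 := by
  obtain ⟨v, hv, hT⟩ := exists_weight' hH hn R B
  refine (Nat.le_of_dvd (relIndex_pos _ _) ((hσ.coprime hB.isPiNumber_index).dvd_of_dvd_mul_right
    ((hm v hv).trans (index_dvd_mul _ B)))).trans (hT _ fun b hb hb1 => ?_)
  exact mem_cls.mpr ⟨b, rfl, hb1, fun l hl h => hB.isPiGroup l hl (h.trans
    (orderOf_dvd_natCard _ hb))⟩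

theorem le_of_big (hH : ¬ p ∣ Nat.card H) (hn : 0 < n) (hR : Function.Injective R) {σ : Set ℕ}
    (h : ∀ l ∈ σ, n + 1 < l) {m : ℕ} (hσ : IsPiNumber σ m)
    (hm : ∀ v ≠ 0, m ∣ (stab R v).index) : m ≤ n * (cls H σ).card + 1 := by
  obtain ⟨χ, hχ, hdeg, hf, -⟩ := exists_lift_zmod hH R hR
  obtain ⟨A, hA, hA'⟩ := hχ.exists_abelian_isPiHall hf
  have : Group.IsSolvable A := Group.isSolvable_of_comm fun x y => Subtype.ext (hA x x.2 y y.2)
  obtain ⟨B, hB⟩ := (isPiSeparable_of_isSolvable σ A).exists_isPiHallOf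
  have := isMulCommutative_iff_forall.mpr fun x hx y hy => hA x (hB.le hx) y (hB.le hy)
  exact le_of_hall hH hn (hB.isPiHall fun l hl hd hl' => hA'.isPiNumber_index l hl hd
    (hdeg ▸ h l hl')) hσ hm

theorem comm_of_prime (hH : ¬ p ∣ Nat.card H) (hR : Function.Injective R) {r : ℕ}
    [hr : Fact r.Prime] (hn : n < 2 * r) (hrp : ¬ r ∣ p - 1) {S : Subgroup H}
    (hS : IsPGroup r S) : IsMulCommutative S := by
  obtain ⟨χ, hχ, hdeg, hf, hF⟩ := exists_lift_zmod hH R hR
  by_contra hc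
  obtain ⟨z, hz⟩ := exists_prime_orderOf_dvd_card' r (dvd_card_of_isPGroup_of_ne_bot
    (hS.to_subgroup _) (inf_center_ne_bot_of_isPGroup hS (N := commutator S) fun h =>
      hc ((commutator_eq_bot_iff S).mp h)))
  have hψ := hχ.comp S.subtype
  obtain ⟨θ, hθ, hz1⟩ : ∃ θ : IrrCharacter S, ip (χ ∘ S.subtype) θ.1 ≠ 0 ∧ z.1 ∉ charKer θ.1 := by
    by_contra h
    push Not at h
    have h1 := hf _ (hψ.mem_charKer.mp (hψ.mem_charKer_iff_forall.mpr h))
    rw [show z = 1 from Subtype.ext (Subtype.ext h1), orderOf_one] at hz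
    exact hr.out.one_lt.ne hz
  obtain ⟨k, hk⟩ := hS.exists_card_eq
  have hc : p.Coprime (Nat.card S) := (Nat.Prime.coprime_iff_not_dvd hp.out).mpr fun h =>
    hH (h.trans (card_subgroup_dvd_card S))
  have hd : r ≤ charDegree θ.1 := by
    obtain ⟨j, -, hj⟩ := (Nat.dvd_prime_pow hr.out).mp (hk ▸ θ.charDegree_dvd_card)
    rcases j with _ | j
    · exact absurd (θ.commutator_le_charKer_iff.mpr (by simp [θ.apply_one, hj]) z.2.1) hz1
    · exact hj ▸ Nat.le_self_pow j.succ_ne_zero r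
  obtain ⟨σ, hσ, hσ'⟩ := exists_ringEquiv_apply_pow hc
  have h1 : ip (χ ∘ S.subtype) (σ • θ).1 ≠ 0 := by
    have e : (σ : ℂ →+* ℂ) ∘ (χ ∘ S.subtype) = χ ∘ S.subtype :=
      funext fun g => (hσ' _ hψ.isGen g).symm.trans (hF g)
    have h2 := hψ.isGen.ip_map_ringHom θ.isCharacter.isGen (σ : ℂ →+* ℂ)
    rw [e] at h2
    exact fun h => hθ (h2.symm.trans h)
  have h2 : σ • θ ≠ θ := fun h => by
    obtain ⟨f, hf1, hf2⟩ := θ.isCharacter.exists_monoidHom_charCenter
    have h3 : z.1 ^ p = z.1 * z.1 ^ (p - 1) := by rw [← pow_succ', Nat.sub_add_cancel hp.out.one_le]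
    have h4 := hf1 ⟨z.1, θ.center_le_charCenter z.2.2⟩
    have h5 : θ (z.1 * z.1 ^ (p - 1)) = θ (z.1 * 1) := by
      rw [← h3, hσ' _ θ.isCharacter.isGen, mul_one, ← IrrCharacter.gal_smul_apply, h]
    rw [h4, h4, mul_right_inj' (Units.ne_zero _), ← θ.mem_charKer] at h5
    have h6 : z.1 ^ r = 1 := by rw [← hz, ← orderOf_coe, pow_orderOf_eq_one]
    have h7 := (Nat.Prime.coprime_iff_not_dvd hr.out).mpr hrp
    obtain ⟨e, -, he⟩ := Nat.exists_mul_mod_eq_one_of_coprime h7.symm hr.out.one_lt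
    exact hz1 (by
      rw [← pow_one z.1, ← he, ← hz, ← orderOf_coe, pow_mod_orderOf, pow_mul]
      exact pow_mem h5 e)
  have h3 := (hψ.sub_irr θ hθ).charDegree_le_of_ip_ne_zero (σ • θ) (by
    rwa [ip_sub_left, IrrCharacter.ip_of_ne h2.symm, sub_zero])
  have h4 := (hψ.sub_irr θ hθ).charDegree_add_B θ.isCharacter
  rw [sub_add_cancel, show charDegree (χ ∘ S.subtype) = n from
    charDegree_eq_of_apply_one (by simp [hχ.apply_one, hdeg])] at h4
  rw [IrrCharacter.charDegree_gal_smul] at h3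
  omega

theorem le_of_prime (hH : ¬ p ∣ Nat.card H) (hn0 : 0 < n) (hR : Function.Injective R) {r : ℕ}
    (hr : r.Prime) (hn : n < 2 * r) (hrp : ¬ r ∣ p - 1) {m : ℕ} (hσ : IsPiNumber {r} m)
    (hm : ∀ v ≠ 0, m ∣ (stab R v).index) : m ≤ n * (cls H {r}).card + 1 := by
  have : Fact r.Prime := ⟨hr⟩
  obtain ⟨P⟩ : Nonempty (Sylow r H) := inferInstance
  have := comm_of_prime hH hR hn hrp P.isPGroup'
  exact le_of_hall hH hn0 (isPiHall_sylow P) hσ hm

theorem exists_weight_cyc (hH : ¬ p ∣ Nat.card H) (hn : 0 < n) (B : Subgroup H)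
    [IsMulCommutative B] : ∃ v ≠ 0, ∃ y ∈ B, (stab R v).relIndex B ∣ orderOf y := by
  classical
  let k := AlgebraicClosure (ZMod p)
  let f : ZMod p →+* k := algebraMap _ _
  let ρ := matRep (matMap R f)
  have : Nonempty (Fin n) := ⟨⟨0, hn⟩⟩
  obtain ⟨e, he⟩ := Jordan.exists_weight ρ (le_centralizer B)
  obtain ⟨w, hw, hw0⟩ := (Submodule.ne_bot_iff _).mp he
  have hw' : ∀ b : B, ρ b w = e b • w := fun b =>
    Module.End.mem_eigenspace_iff.mp ((Submodule.mem_iInf _).mp hw b)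
  let e' : B →* k :=
    { toFun := e
      map_one' := smul_left_injective k hw0 (by simp [← hw'])
      map_mul' := fun a b => smul_left_injective k hw0 (by
        simp only [← hw', Subgroup.coe_mul, map_mul, Module.End.mul_apply]
        rw [hw' b, map_smul, hw' a, smul_smul, mul_comm]) }
  let K := e'.toHomUnits.ker
  have hK : ∀ b : K, e b = 1 := fun b => congrArg Units.val (MonoidHom.mem_ker.mp b.2)
  have := Fintype.ofFinite K
  obtain ⟨v, hv0, hv⟩ : ∃ v ≠ 0, ∀ b : K, R b *ᵥ v = v := by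
    let E := ∑ b : K, R b
    have hE : E ≠ 0 := fun h => by
      have h1 : ∑ b : K, ρ b w = 0 := by
        have h2 := congrArg (fun M => (f.mapMatrix M) *ᵥ w) h
        simpa [E, map_sum, Matrix.sum_mulVec, ρ, matRep_apply, matMap_apply] using h2
      simp only [hw', hK, one_smul, Finset.sum_const, Finset.card_univ] at h1
      rw [← Nat.cast_smul_eq_nsmul k, smul_eq_zero, CharP.cast_eq_zero_iff k p,
        ← Nat.card_eq_fintype_card] at h1
      exact h1.elim (fun h => hH (h.trans ((card_subgroup_dvd_card K).trans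
        (card_subgroup_dvd_card B)))) hw0
    obtain ⟨u, hu⟩ : ∃ u, E *ᵥ u ≠ 0 := by
      by_contra h
      push Not at h
      exact hE (Matrix.toLin'.injective (LinearMap.ext fun u => by simpa using h u))
    refine ⟨_, hu, fun b => ?_⟩
    rw [Matrix.mulVec_mulVec]
    congr 1
    simp only [E, Finset.mul_sum, ← map_mul]
    exact Fintype.sum_equiv (Equiv.mulLeft b) _ _ fun c => rfl
  have : Finite e'.toHomUnits.range := .of_surjective _ e'.toHomUnits.rangeRestrict_surjective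
  obtain ⟨g, hg⟩ := IsCyclic.exists_ofOrder_eq_natCard (α := e'.toHomUnits.range)
  obtain ⟨y, rfl⟩ := e'.toHomUnits.rangeRestrict_surjective g
  refine ⟨v, hv0, y, y.2, (index_dvd_of_le (H := K) fun b hb => hv ⟨b, hb⟩).trans ?_⟩
  rw [index_ker, ← hg, orderOf_coe]
  exact orderOf_map_dvd _ y

omit hp in
theorem card_conj_zpowers_le {r : ℕ} [hr : Fact r.Prime] {x : H} {d : ℕ} (hx : orderOf x = r ^ d)
    (hc : ¬ r ∣ (centralizer ({x} : Set H)).index) :
    Nat.card {z // IsConj x z ∧ z ∈ zpowers x} ≤ r - 1 := by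
  let N := normalizer ((zpowers x : Subgroup H) : Set H)
  have h1 : (centralizer ({x} : Set H)).relIndex N ∣ r - 1 := by
    have h2 := card_subgroup_dvd_card (normalizerMonoidHom (zpowers x)).range
    rw [← index_ker, normalizerMonoidHom_ker, IsCyclic.card_mulAut, Nat.card_zpowers, hx,
      centralizer_zpowers] at h2
    have h3 : ¬ r ∣ (centralizer ({x} : Set H)).relIndex N := fun h =>
      hc (h.trans (relIndex_dvd_index_of_le (by
        rw [← centralizer_zpowers]; exact centralizer_le_normalizer _)))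
    rcases d with _ | d
    · exact Dvd.dvd.trans (by simpa using h2) (one_dvd _)
    · rw [Nat.totient_prime_pow_succ hr.out] at h2
      exact (((Nat.Prime.coprime_iff_not_dvd hr.out).mpr h3).symm.pow_right d).dvd_of_dvd_mul_left
        h2
  refine le_trans (Nat.card_le_card_of_surjective (fun q : N ⧸ (centralizer {x}).subgroupOf N =>
    (⟨q.out * x * (q.out : H)⁻¹, isConj_iff.mpr ⟨_, rfl⟩,
      (mem_normalizer_iff.mp q.out.2 x).mp (mem_zpowers x)⟩ : {z // IsConj x z ∧ z ∈ zpowers x}))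
    ?_) (Nat.le_of_dvd (Nat.sub_pos_of_lt hr.out.one_lt) h1)
  rintro ⟨z, h2, h3⟩
  obtain ⟨g, rfl⟩ := isConj_iff.mp h2
  have hg : g ∈ N := by
    refine mem_normalizer_iff_map_conj_eq.mpr ?_
    rw [MonoidHom.map_zpowers]
    exact eq_of_le_of_card_ge (zpowers_le.mpr h3) (by
      rw [Nat.card_zpowers, Nat.card_zpowers]; exact (MulEquiv.orderOf_eq (MulAut.conj g) x).ge)
  obtain ⟨c, hc⟩ := QuotientGroup.mk_out_eq_mul ((centralizer {x}).subgroupOf N) ⟨g, hg⟩
  refine ⟨(⟨g, hg⟩ : N), Subtype.ext ?_⟩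
  have h4 := mem_centralizer_singleton_iff.mp (mem_subgroupOf.mp c.2)
  simp only [hc, Subgroup.coe_mul]
  rw [mul_assoc g, h4]; group

omit hp in
theorem orderOf_le_cls {r : ℕ} [hr : Fact r.Prime] (P : Sylow r H)
    (hc : ∀ x ∈ (P : Subgroup H), ∀ y ∈ (P : Subgroup H), x * y = y * x) {y : H}
    (hy : y ∈ (P : Subgroup H)) : orderOf y ≤ (r - 1) * (cls H {r}).card + 1 := by
  classical
  have := Fintype.ofFinite H
  have hP : ∀ x ∈ zpowers y, x ∈ (P : Subgroup H) := zpowers_le.mpr hy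
  obtain ⟨s, hs⟩ : ∃ s : Finset H, ∀ x, x ∈ s ↔ x ≠ 1 ∧ x ∈ zpowers y :=
    ⟨(Finset.univ.filter (· ∈ zpowers y)).erase 1, by simp⟩
  have h3 := Finset.card_le_mul_card_image_of_maps_to (f := ConjClasses.mk)
    (s := s) (t := cls H {r}) (fun x hx => mem_cls.mpr ⟨x, rfl, ((hs x).mp hx).1, fun l hl h =>
      (isPiHall_sylow P).isPiGroup l hl (h.trans (orderOf_dvd_natCard _
        (hP x ((hs x).mp hx).2)))⟩) (r - 1) fun c _ => by
      rcases Finset.eq_empty_or_nonempty (s.filter fun x => ConjClasses.mk x = c) with h | ⟨x, hx⟩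
      · rw [h]; exact Nat.zero_le _
      rw [Finset.mem_filter, hs] at hx
      obtain ⟨d, hd⟩ := isPElt_of_mem P.isPGroup' (hP x hx.1.2)
      refine le_trans ?_ (card_conj_zpowers_le hd fun h => P.not_dvd_index
        (h.trans (index_dvd_of_le fun g hg => mem_centralizer_singleton_iff.mpr
          (hc g hg x (hP x hx.1.2)))))
      rw [← Nat.card_eq_finsetCard]
      refine Nat.card_le_card_of_injective (fun z => ⟨z.1, ?_⟩) fun a b h =>
        Subtype.ext (Subtype.mk.inj h)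
      have hz := z.2
      rw [Finset.mem_filter, hs] at hz
      have h5 := ConjClasses.mk_eq_mk_iff_isConj.mp (hx.2.trans hz.2.symm)
      refine ⟨h5, mem_zpowers_of_orderOf_dvd_of_mem hx.1.2 hz.1.2 ?_⟩
      obtain ⟨g, hg⟩ := isConj_iff.mp h5
      rw [← hg, ← MulAut.conj_apply, MulEquiv.orderOf_eq]
  have h4 : s = (Finset.univ.filter (· ∈ zpowers y)).erase 1 := Finset.ext fun x => by simp [hs]
  rw [h4, Finset.card_erase_of_mem (by simp), ← Fintype.card_subtype, ← Nat.card_eq_fintype_card,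
    Nat.card_zpowers] at h3
  omega

theorem le_of_cyc (hH : ¬ p ∣ Nat.card H) (hn0 : 0 < n) (hR : Function.Injective R) {r : ℕ}
    (hr : r.Prime) (hn : n < 2 * r) (hrp : ¬ r ∣ p - 1) {m : ℕ} (hσ : IsPiNumber {r} m)
    (hm : ∀ v ≠ 0, m ∣ (stab R v).index) : m ≤ (r - 1) * (cls H {r}).card + 1 := by
  have : Fact r.Prime := ⟨hr⟩
  obtain ⟨P⟩ : Nonempty (Sylow r H) := inferInstance
  have hc := comm_of_prime hH hR hn hrp P.isPGroup'
  obtain ⟨v, hv, y, hy, h1⟩ := exists_weight_cyc (R := R) hH hn0 (P : Subgroup H)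
  have h2 : m ∣ (stab R v).relIndex P :=
    (hσ.coprime (isPiHall_sylow P).isPiNumber_index).dvd_of_dvd_mul_right
      ((hm v hv).trans (index_dvd_mul _ _))
  exact (Nat.le_of_dvd (orderOf_pos y) (h2.trans h1)).trans
    (orderOf_le_cls P (isMulCommutative_iff_forall.mp hc) hy)

theorem card_cover_le (h : Two R v₁ v₂) (hc : ∀ c : ZMod p, c ≠ 0 → c • v₁ ∈ orb R v₁) (g : H)
    (T : Finset (ZMod p × Fin 2))
    (hT : ∀ t ∈ T, ∃ v ∈ orb R (![v₁, v₂] t.2), R g *ᵥ v = t.1 • v) : T.card ≤ n := by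
  classical
  have h1 : ∀ t : ZMod p × Fin 2, ∃ v ∈ orb R (![v₁, v₂] t.2), t ∈ T → R g *ᵥ v = t.1 • v :=
    fun t => by
      by_cases ht : t ∈ T
      · obtain ⟨v, h1, h2⟩ := hT t ht
        exact ⟨v, h1, fun _ => h2⟩
      · exact ⟨_, self_mem_orb _, fun h => absurd h ht⟩
  choose w hw hw' using h1
  have h2 : ∀ c, LinearIndependent (ZMod p) fun i => w (c, i) := fun c =>
    linearIndependent_fin2.mpr ⟨ne_zero_of_mem_orb h.ne₂ (hw (c, 1)), fun a ha => by
      by_cases h0 : a = 0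
      · exact ne_zero_of_mem_orb h.ne₁ (hw (c, 0)) (by rw [← ha, h0, zero_smul])
      · exact h.not_both (hw (c, 0)) (ha ▸ h.closed hc h0 (hw (c, 1)) h.ne₂)⟩
  have h3 : ∀ c, Submodule.span (ZMod p) (Set.range fun i : {i // (c, i) ∈ T} => w (c, i)) ≤
      Module.End.eigenspace (Matrix.toLin' (R g)) c := fun c =>
    Submodule.span_le.mpr (by
      rintro _ ⟨i, rfl⟩
      exact Module.End.mem_eigenspace_iff.mpr (hw' _ i.2))
  have h4 := linearIndependent_iUnion_finite (R := ZMod p)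
    (f := fun c (i : {i // (c, i) ∈ T}) => w (c, i))
    (fun c => (h2 c).comp _ Subtype.val_injective) fun c t _ hc =>
      (Module.End.eigenspaces_iSupIndep (Matrix.toLin' (R g)) c).mono (h3 c)
        (iSup₂_le fun j hj => (h3 j).trans (le_iSup₂_of_le j (fun e : j = c => hc (e ▸ hj)) le_rfl))
  have h5 := h4.fintype_card_le_finrank
  rw [Module.finrank_fin_fun] at h5
  refine le_trans ?_ h5
  rw [← Fintype.card_coe]
  exact Fintype.card_le_of_injective (fun t => ⟨t.1.1, t.1.2, t.2⟩) fun a b e =>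
    Subtype.ext (Prod.ext (congrArg Sigma.fst e) (congrArg (fun x => x.2.1) e))

/-- Every scalar occurs as an eigenvalue with an eigenvector in each orbit. -/
theorem cover_le (h : Two R v₁ v₂) (hc : ∀ c : ZMod p, c ≠ 0 → c • v₁ ∈ orb R v₁) :
    2 * (p - 2) ≤ n * (cls H {l | l ∣ p - 1}).card := by
  classical
  let f : ConjClasses H → Finset (ZMod p × Fin 2) := fun K =>
    Finset.univ.filter fun t => ∃ v ∈ orb R (![v₁, v₂] t.2), R K.out *ᵥ v = t.1 • v
  have h1 : ((Finset.univ.erase 0).erase 1) ×ˢ Finset.univ ⊆ (cls H {l | l ∣ p - 1}).biUnion f := by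
    rintro ⟨c, i⟩ ht
    simp only [Finset.mem_product, Finset.mem_erase, Finset.mem_univ, and_true] at ht
    have hv : ![v₁, v₂] i ≠ 0 := by fin_cases i; exacts [h.ne₁, h.ne₂]
    generalize hw : ![v₁, v₂] i = v at hv
    obtain ⟨g, hg⟩ := mem_orb.mp (h.closed hc ht.2 (self_mem_orb v) hv)
    have h2 : ∀ k : ℕ, R (g ^ k) *ᵥ v = c ^ k • v := fun k => by
      induction k with
      | zero => simp
      | succ k ih => rw [pow_succ, mulVec_mul, hg, Matrix.mulVec_smul, ih, smul_smul, pow_succ']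
    obtain ⟨k, hk⟩ := exists_piPart_eq_pow {l | l ∣ p - 1}ᶜ g
    have h3 : c ^ k = 1 := by
      rw [← orderOf_eq_one_iff]
      refine Nat.eq_one_of_dvd_coprimes ((isPiNumber_orderOf_piPart {l | l ∣ p - 1}ᶜ g).coprime
        (n := p - 1) fun l _ h => not_not.mpr h) ?_ (ZMod.orderOf_dvd_card_sub_one
          (pow_ne_zero k ht.2))
      refine orderOf_dvd_of_pow_eq_one (smul_left_injective (ZMod p) hv ?_)
      simp only [← pow_mul, ← h2]
      rw [pow_mul, ← hk, pow_orderOf_eq_one, map_one, Matrix.one_mulVec, one_smul]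
    have h4 : R (piPart {l | l ∣ p - 1} g) *ᵥ v = c • v := by
      rw [← hg]
      conv_rhs => rw [← piPart_mul_piPart_compl {l | l ∣ p - 1} g, mulVec_mul, hk, h2, h3, one_smul]
    refine Finset.mem_biUnion.mpr ⟨ConjClasses.mk (piPart {l | l ∣ p - 1} g), mem_cls.mpr
      ⟨_, rfl, fun e => ht.1 (smul_left_injective (ZMod p) hv ?_), isPiNumber_orderOf_piPart _ g⟩,
      Finset.mem_filter.mpr ⟨Finset.mem_univ _, ?_⟩⟩
    · simp [← h4, e]
    obtain ⟨x, hx⟩ := isConj_iff.mp (ConjClasses.mk_eq_mk_iff_isConj.mp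
      (Quotient.out_eq (ConjClasses.mk (piPart {l | l ∣ p - 1} g))).symm)
    refine ⟨R x *ᵥ v, hw ▸ mulVec_mem_orb x (self_mem_orb _), ?_⟩
    erw [← hx]
    rw [mulVec_mul, inv_mulVec, mulVec_mul, h4, Matrix.mulVec_smul]
  have h2 := (Finset.card_le_card h1).trans (Finset.card_biUnion_le_card_mul _ f n fun K _ =>
    card_cover_le h hc K.out _ fun t ht => (Finset.mem_filter.mp ht).2)
  rw [Finset.card_product, Finset.card_erase_of_mem (by simp), Finset.card_erase_of_mem (by simp),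
    Finset.card_univ, Finset.card_univ, ZMod.card, Fintype.card_fin] at h2
  rw [mul_comm, mul_comm n]
  exact h2

end Cfsg.TwoOrb

set_option linter.all false in
theorem Cfsg.Rz.Grp_TwoOrbB_0 : True := by
  have := @_root_.Cfsg.TwoOrb.cls.eq_def.{0}
  have := @_root_.Cfsg.TwoOrb.cls.fun_cases
  trivial
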