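import Cfsg.Agent.Grp.TwoOrbB

/-!
# Linear `p'`-groups with two orbits on nonzero vectors: the class number is at least `p / 2`
-/

set_option autoImplicit false
set_option linter.unusedSectionVars false

namespace Cfsg.TwoOrb

open scoped Matrix
open Subgroup TransLin CycBig

universe u

variable {H : Type u} [Group H] [Finite H] {p : ℕ} [hp : Fact p.Prime] {n : ℕ}
  {R : H →* Matrix (Fin n) (Fin n) (ZMod p)} {v₁ v₂ : Fin n → ZMod p}

theorem two_parts (hH : ¬ p ∣ Nat.card H) (hn0 : 0 < n) (hR : Function.Injective R) {r E : ℕ}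
    (hr : r.Prime) (hn : n < 2 * r) (hr' : r ≤ n + 1) (hE0 : E ≠ 0)
    (hl : ∀ l, l.Prime → l ∣ E → ¬ l ∣ p - 1 ∧ (l = r ∨ n + 1 < l))
    (hE : ∀ v ≠ 0, E ∣ (stab R v).index) :
    ∃ X Y T₁ T₂, X * Y = E ∧ X ≤ (r - 1) * T₁ + 1 ∧ Y ≤ n * T₂ + 1 ∧
      (cls H {l | l ∣ p - 1}).card + T₁ + T₂ + 1 ≤ Nat.card (ConjClasses H) := by
  have hY := le_of_big hH hn0 hR (σ := {l | n + 1 < l ∧ ¬ l ∣ p - 1}) (fun _ h => h.1)
    (m := natPiPart {r}ᶜ E) (fun l hl' h => ⟨(hl l hl' (h.trans (natPiPart_dvd _ _))).2.resolve_left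
      (isPiNumber_natPiPart _ _ l hl' h), (hl l hl' (h.trans (natPiPart_dvd _ _))).1⟩)
    fun v hv => (natPiPart_dvd _ _).trans (hE v hv)
  by_cases h : r ∣ p - 1
  · refine ⟨_, _, _, _, natPiPart_mul_natPiPart_compl {r} hE0, ?_, hY,
      cls_add_le (σ := ∅) (by simp) (fun l _ h1 h2 => h2.2 h1) (by simp)⟩
    refine le_add_left (le_of_eq ?_)
    by_contra h2
    obtain ⟨l, hl', hlS⟩ := Nat.exists_prime_and_dvd h2
    obtain rfl : l = r := isPiNumber_natPiPart _ _ l hl' hlS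
    exact (hl l hl' (hlS.trans (natPiPart_dvd _ _))).1 h
  · exact ⟨_, _, _, _, natPiPart_mul_natPiPart_compl {r} hE0, le_of_cyc hH hn0 hR hr hn h
      (isPiNumber_natPiPart _ _) fun v hv => (natPiPart_dvd _ _).trans (hE v hv), hY,
      cls_add_le (fun l _ h1 h2 => h (h2 ▸ h1)) (fun l _ h1 h2 => h2.2 h1)
        fun l _ h1 h2 => absurd h2.1 (by rw [show l = r from h1]; omega)⟩

theorem cyc_lt {d e : ℕ} (h7 : 7 ≤ p) (hd : 2 < d) (he : natPiPart {l | l ≤ d} (cyc d p) ≤ e) :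
    (p - 1) ^ d.totient < e * natPiPart {l | l ≤ d}ᶜ (cyc d p) := by
  have h0 := lt_cyc (n := d) (q := p) (by omega) (by omega)
  refine h0.trans_le ?_
  conv_lhs => rw [← natPiPart_mul_natPiPart_compl {l | l ≤ d} (show cyc d p ≠ 0 by omega)]
  exact Nat.mul_le_mul_right _ he

theorem le_of_closed (hH : ¬ p ∣ Nat.card H) (hR : Function.Injective R) (h7 : 7 ≤ p)
    (h : Two R v₁ v₂) (hc : ∀ c : ZMod p, c ≠ 0 → c • v₁ ∈ orb R v₁) :
    p ≤ 2 * Nat.card (ConjClasses H) := by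
  obtain ⟨a, D, rfl, hD, hd⟩ := h.exists_half hH hc
  have h0 := cover_le h hc
  have h1 := cls_le (H := H) {l | l ∣ p - 1}
  have hodd : Odd p := hp.out.odd_of_ne_two (by omega)
  have ha : a ≠ 0 := by
    rintro rfl
    exact h.ne₁ (funext fun i => i.elim0)
  by_contra hcon
  by_cases h5 : 5 ≤ a
  · obtain ⟨m, hm, h2, h3⟩ := exists_good2 hp.out h7 h5 hD
    have key : ∀ σ, ¬ m ≤ 2 * a * (cls H σ).card + 1 := fun σ h4 => by
      have := Nat.mul_le_mul_left a (show 2 * (cls H σ).card ≤ p - 3 by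
        have := cls_le (H := H) σ; omega)
      rw [← mul_assoc, mul_comm a 2] at this
      omega
    rcases h3 with h3 | ⟨r, hr, h3, h4, h6⟩
    · exact key _ (le_of_big hH (by omega) hR (fun _ h => h) h3 fun v hv => hm.trans (hd v hv))
    · exact key _ (le_of_prime hH (by omega) hR hr (by omega) h4 h6
        fun v hv => hm.trans (hd v hv))
  have hs := fun d hd => small_dvd (n := d) (q := p) hd (by omega) hodd
  have hf := fun d l hd => prime_facts (p := p) (d := d) (l := l) (by omega) hd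
  obtain ⟨s, hs'⟩ : ∃ s, p = s + 7 := ⟨p - 7, by omega⟩
  have h6 : ∀ E, (p - 1) ^ 2 < 3 * E → (∀ l, l.Prime → l ∣ E → 3 < l ∧ 3 ∣ l - 1 ∧ ¬ l ∣ p - 1) →
      E ∣ D → a ≠ 3 := fun E h2 h3 h4 => by
    rintro rfl
    obtain ⟨X, Y, T₁, T₂, rfl, e1, e2, e3⟩ := two_parts hH (by omega) hR (r := 7) (E := E)
      (by norm_num) (by omega) (by omega) (by rintro rfl; omega) (fun l hl h => by
        have h4 : l ≠ 4 := fun h => absurd (h ▸ hl) (by norm_num)
        have := h3 l hl h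
        exact ⟨this.2.2, by omega⟩) fun v hv => h4.trans (hd v hv)
    rw [hs', show s + 7 - 1 = s + 6 by omega] at h2
    have e5 : X + Y ≤ s + 4 := by omega
    nlinarith [sq_nonneg ((X : ℤ) - Y), Nat.pow_le_pow_left e5 2]
  obtain rfl | rfl | rfl | rfl : a = 1 ∨ a = 2 ∨ a = 3 ∨ a = 4 := by omega
  · omega
  · omega
  · rcases hD with rfl | rfl
    · exact h6 _ (cyc_lt h7 (by omega) (Nat.le_of_dvd (by omega) (hs 3 (by omega))))
        (fun l => hf 3 l (by omega)) ((natPiPart_dvd _ _).trans (cyc_dvd 3 (by omega))) rfl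
    · refine h6 _ (cyc_lt (d := 6) h7 (by omega) (Nat.le_of_dvd (by omega) ?_)) (fun l hl h => by
        have := hf 6 l (by omega) hl h
        exact ⟨by omega, by omega, this.2.2⟩)
        ((natPiPart_dvd _ _).trans (cyc_two_mul_dvd (a := 3) (by omega) (by omega))) rfl
      refine Nat.Coprime.dvd_of_dvd_mul_left (m := 2) (n := 3) (Nat.Coprime.symm
        ((Nat.Prime.coprime_iff_not_dvd Nat.prime_two).mpr fun h2 => ?_)) (hs 6 (by omega))
      have h3 := h2.trans (natPiPart_dvd _ _)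
      rw [cyc, ← Int.natCast_dvd, Polynomial.cyclotomic_six] at h3
      obtain ⟨t, rfl⟩ := hodd
      simp only [Polynomial.eval_add, Polynomial.eval_sub, Polynomial.eval_pow, Polynomial.eval_X,
        Polynomial.eval_one] at h3
      push_cast at h3
      rw [show (2 * (t : ℤ) + 1) ^ 2 - (2 * t + 1) + 1 = 2 * (2 * t ^ 2 + t) + 1 by ring] at h3
      omega
  · rcases hD with rfl | rfl
    · have h2 := cyc_lt (d := 4) (e := 2) h7 (by omega) (by
        obtain ⟨j, hj, e⟩ := (Nat.dvd_prime_pow Nat.prime_two (m := 2)).mp (hs 4 (by omega))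
        have h3 := not_sq_dvd (n := 4) (q := p) Nat.prime_two (by omega) (by omega) hodd (by omega)
        interval_cases j
        · omega
        · omega
        · exact absurd (e ▸ natPiPart_dvd _ _) h3)
      obtain ⟨X, Y, T₁, T₂, e0, e1, e2, e3⟩ := two_parts hH (by omega) hR (r := 5)
        (by norm_num) (by omega) (by omega) (natPiPart_ne_zero {l | l ≤ 4}ᶜ (cyc 4 p))
        (fun l hl h => by
          have h4 : l ≠ 9 := fun h => absurd (h ▸ hl) (by norm_num)
          have := hf 4 l (by omega) hl h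
          exact ⟨this.2.2, by omega⟩)
        fun v hv => ((natPiPart_dvd _ _).trans (cyc_dvd 4 (by omega))).trans (hd v hv)
      rw [← e0, show Nat.totient 4 = 2 by decide, hs', show s + 7 - 1 = s + 6 by omega] at h2
      have e5 : 2 * X + Y ≤ 2 * (s + 6) := by omega
      nlinarith [sq_nonneg (2 * (X : ℤ) - Y), Nat.pow_le_pow_left e5 2]
    · have h2 := cyc_le (p := p) (d := 8) (by omega) hodd (by omega)
      have h3 := le_of_big hH (by omega) hR (σ := {l | 9 < l}) (fun _ h => h)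
        (m := natPiPart {l | l ≤ 8}ᶜ (cyc 8 p)) (fun l hl h => by
          have h4 : l ≠ 9 := fun h => absurd (h ▸ hl) (by norm_num)
          have := hf 8 l (by omega) hl h
          show 9 < l
          omega)
        fun v hv => ((natPiPart_dvd _ _).trans
          (cyc_two_mul_dvd (a := 4) (by omega) (by omega))).trans (hd v hv)
      have h4 := cls_le (H := H) {l | 9 < l}
      rw [show Nat.totient 8 = 4 by decide, hs', show s + 7 - 1 = s + 6 by omega, ← hs'] at h2
      have h8 : (s + 6) ^ 4 < 32 * (s + 6) := by omega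
      have h9 : 6 ^ 3 * (s + 6) ≤ (s + 6) ^ 4 := by
        rw [pow_succ (s + 6) 3]
        exact Nat.mul_le_mul_right _ (Nat.pow_le_pow_left (by omega) 3)
      omega

theorem Two.xor (h : Two R v₁ v₂) {c : ZMod p} (h0 : c ≠ 0) (hc : c • v₁ ∈ orb R v₂)
    {v w : Fin n → ZMod p} (hv : v ≠ 0) (hw : w ≠ 0) : Xor' (c • w ∈ orb R v) (w ∈ orb R v) := by
  have h1 : ∀ w ∈ orb R v₁, c • w ∈ orb R v₂ := fun w => smul_mem_orb hc
  have h2 : ∀ w ∈ orb R v₂, c • w ∈ orb R v₁ := fun w hw => by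
    refine (h.cover _ (smul_ne_zero h0 (ne_zero_of_mem_orb h.ne₂ hw))).resolve_right fun h3 => ?_
    refine h.not_both (self_mem_orb v₁) ?_
    rw [← smul_inv_smul₀ h0 v₁]
    rcases h.cover _ (smul_ne_zero (inv_ne_zero h0) h.ne₁) with e | e
    · exact h1 _ e
    · exact smul_mem_orb h3 (by rwa [orb_eq hw])
  rcases h.cover v hv with e | e <;> rw [orb_eq e] <;> rcases h.cover w hw with e' | e'
  · exact Or.inr ⟨e', fun h3 => h.not_both h3 (h1 w e')⟩
  · exact Or.inl ⟨h2 w e', fun h3 => h.not_both h3 e'⟩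
  · exact Or.inl ⟨h1 w e', h.not_both e'⟩
  · exact Or.inr ⟨e', h.not_both (h2 w e')⟩

theorem Two.index_eq (h : Two R v₁ v₂) {c : ZMod p} (h0 : c ≠ 0) (hc : c • v₁ ∈ orb R v₂)
    {v : Fin n → ZMod p} (hv : v ≠ 0) : 2 * (stab R v).index = p ^ n - 1 := by
  have key : ∀ {v₁ v₂}, Two R v₁ v₂ → (∀ {v w : Fin n → ZMod p}, v ≠ 0 → w ≠ 0 →
      Xor' (c • w ∈ orb R v) (w ∈ orb R v)) → (orb R v₁).card ≤ (orb R v₂).card := fun h hx =>
    Finset.card_le_card_of_injOn (fun w => c • w) (fun w hw =>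
      ((hx h.ne₂ (ne_zero_of_mem_orb h.ne₁ hw)).resolve_right fun e => h.not_both hw e.1).1)
      (smul_right_injective _ h0).injOn
  have h1 := key h (h.xor h0 hc)
  have h2 := key h.symm (h.xor h0 hc)
  have h3 := h.card_add
  rw [← card_orb]
  rcases h.cover v hv with e | e <;> rw [orb_eq e] <;> omega

theorem exists_borel_half (hH : ¬ p ∣ Nat.card H) {R : H →* Matrix (Fin 2) (Fin 2) (ZMod p)}
    (hR : Function.Injective R) {c : ZMod p} (hc : c ≠ 0)
    (hx : ∀ {v w : Fin 2 → ZMod p}, v ≠ 0 → w ≠ 0 → Xor' (c • w ∈ orb R v) (w ∈ orb R v))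
    (hidx : ∀ {v : Fin 2 → ZMod p}, v ≠ 0 → 2 * (stab R v).index = p ^ 2 - 1) :
    ∃ (B : Subgroup H) (s : ℕ), B.index = p + 1 ∧ 2 * Nat.card B = (p - 1) * s ∧
      ∀ b ∈ B, b ∉ center H → centralizer {b} = B := by
  have hent : ∀ a b : H, ∀ i j, R (a * b) i j = R a i 0 * R b 0 j + R a i 1 * R b 1 j :=
    fun a b i j => by rw [map_mul, Matrix.mul_apply, Fin.sum_univ_two]
  have hone : ∀ a b : H, a * b = 1 → R a 0 0 * R b 0 0 + R a 0 1 * R b 1 0 = 1 ∧
      R a 1 0 * R b 0 0 + R a 1 1 * R b 1 0 = 0 ∧ R a 1 0 * R b 0 1 + R a 1 1 * R b 1 1 = 1 :=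
    fun a b h => by simp only [← hent, h, map_one]; simp
  have hinv : ∀ a : H, R a 1 0 = 0 → R a⁻¹ 1 0 = 0 := fun a ha => by
    obtain ⟨-, h1, h2⟩ := hone a a⁻¹ (mul_inv_cancel a)
    rw [ha] at h1 h2
    linear_combination (R a⁻¹ 1 1) * h1 - (R a⁻¹ 1 0) * h2
  let B : Subgroup H :=
    { carrier := {h | R h 1 0 = 0}
      one_mem' := by simp
      mul_mem' := fun {a b} ha hb => by
        simp only [Set.mem_ofPred_eq] at ha hb ⊢
        rw [hent, ha, hb]; simp
      inv_mem' := fun {a} ha => hinv a ha }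
  have hB : ∀ {h}, h ∈ B ↔ R h 1 0 = 0 := Iff.rfl
  let v : Fin 2 → ZMod p := ![1, 0]
  have hv : v ≠ 0 := fun h => one_ne_zero (congrFun h 0)
  have hRv : ∀ h, R h *ᵥ v = ![R h 0 0, R h 1 0] := fun h => by
    ext i; fin_cases i <;> simp [v, Matrix.mulVec, dotProduct]
  let e : B →* ZMod p :=
    { toFun := fun b => R b 0 0
      map_one' := by simp
      map_mul' := fun a b => by
        simp only [Subgroup.coe_mul]
        rw [hent, hB.mp b.2]; simp }
  have h1 : 2 * (stab R v).relIndex B = p - 1 := by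
    have h2 : (stab R v).subgroupOf B = e.toHomUnits.ker := by
      ext b
      rw [mem_subgroupOf, mem_stab, hRv, hB.mp b.2, MonoidHom.mem_ker, Units.ext_iff]
      exact ⟨fun h => congrFun h 0, fun h => by rw [show R b 0 0 = 1 from h]⟩
    have h3 : ∀ u : (ZMod p)ˣ, u ∈ e.toHomUnits.range ↔ (u : ZMod p) • v ∈ orb R v := fun u => by
      simp only [mem_orb, hRv]
      refine ⟨fun ⟨b, hb⟩ => ⟨b, ?_⟩, fun ⟨h, hh⟩ =>
        ⟨⟨h, hB.mpr (by simpa [v] using congrFun hh 1)⟩, Units.ext (by simpa [v, e] using congrFun hh 0)⟩⟩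
      rw [hB.mp b.2, ← hb]
      ext i; fin_cases i <;> simp [v, e]
    have h4 : e.toHomUnits.range.index = 2 := index_eq_two_iff'.mpr ⟨Units.mk0 c hc, fun u => by
      rw [h3, h3, Units.val_mul, mul_smul]
      exact hx hv (smul_ne_zero u.ne_zero hv)⟩
    rw [relIndex, h2, index_ker, ← h4, index_mul_card, Nat.card_eq_fintype_card, ZMod.card_units]
  have hSB : stab R v ≤ B := fun h hh => congrFun ((hRv h).symm.trans hh) 1
  have h2 := hidx hv
  have hp2 := hp.out.two_le
  have hcomm : ∀ a ∈ B, ∀ b ∈ B, a * b = b * a := fun a ha b hb => by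
    rw [← mul_inv_eq_one]
    set u := a * b * (b * a)⁻¹ with hu
    have hu0 : R u 1 0 = 0 := B.mul_mem (B.mul_mem ha hb) (B.inv_mem (B.mul_mem hb ha))
    have hba := hone _ _ (mul_inv_cancel (b * a))
    have hi : R (b * a)⁻¹ 1 0 = 0 := B.inv_mem (B.mul_mem hb ha)
    have ha' := hB.mp ha
    have hb' := hB.mp hb
    simp only [hent b a, ha', hb', hi] at hba
    have hu1 : R u 0 0 = 1 := by
      rw [hu, hent, hent, hi, hb']; linear_combination hba.1
    have hu2 : R u 1 1 = 1 := by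
      rw [hu, hent, hent, hent, ha', hb']; linear_combination hba.2.2
    have h3 : (R u - 1) ^ 2 = 0 := by
      ext i j
      fin_cases i <;> fin_cases j <;>
        simp [sq, Matrix.mul_apply, Fin.sum_univ_two, hu0, hu1, hu2]
    have h4 : u ^ p = 1 := hR (by
      have h5 := sub_pow_char_of_commute (p := p) (Commute.one_right (R u))
      rw [pow_eq_zero_of_le hp2 h3, one_pow] at h5
      rw [map_pow, map_one, ← sub_eq_zero, ← h5])
    rcases (Nat.dvd_prime hp.out).mp (orderOf_dvd_of_pow_eq_one h4) with h | h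
    · exact orderOf_eq_one_iff.mp h
    · exact absurd (h ▸ orderOf_dvd_natCard u) hH
  refine ⟨B, Nat.card (stab R v), ?_, by rw [← card_mul_relIndex hSB, ← h1]; ring,
    fun b hb hbZ => le_antisymm (fun g hg => ?_) fun g hg =>
      mem_centralizer_singleton_iff.mpr (hcomm g hg b hb)⟩
  · rw [← relIndex_mul_index hSB, ← mul_assoc, h1, ← one_pow 2, Nat.sq_sub_sq, mul_comm] at h2
    exact Nat.eq_of_mul_eq_mul_right (by omega) h2
  · by_contra hg0
    have hb' := hB.mp hb
    have h3 := mem_centralizer_singleton_iff.mp hg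
    have h4 := (hent g b 1 0).symm.trans (h3 ▸ hent b g 1 0)
    have h5 := (hent g b 0 0).symm.trans (h3 ▸ hent b g 0 0)
    rw [hb'] at h4 h5
    have h6 : R b 1 1 = R b 0 0 := mul_left_cancel₀ hg0 (by linear_combination -h4)
    have h7 : R b 0 1 = 0 := mul_left_cancel₀ hg0 (by linear_combination -h5)
    refine hbZ (mem_center_iff.mpr fun x => hR ?_)
    ext i j
    rw [hent, hent]
    fin_cases i <;> fin_cases j <;> simp [hb', h6, h7, mul_comm]

theorem le_of_swap_two (hH : ¬ p ∣ Nat.card H) (h5 : 5 ≤ p)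
    {R : H →* Matrix (Fin 2) (Fin 2) (ZMod p)} (hR : Function.Injective R) {c : ZMod p}
    (hc0 : c ≠ 0)
    (hx : ∀ {v w : Fin 2 → ZMod p}, v ≠ 0 → w ≠ 0 → Xor' (c • w ∈ orb R v) (w ∈ orb R v))
    (hidx : ∀ {v : Fin 2 → ZMod p}, v ≠ 0 → 2 * (stab R v).index = p ^ 2 - 1) :
    p ≤ 2 * Nat.card (ConjClasses H) := by
  obtain ⟨I, _, c, m, f, a, hc, hm, hm2, hf, ha, hs, hk, hac, hcc⟩ := CAClass.exists_classEq
    (fun h hh => (ca_of_two hH R hR hh).1) fun h hh => (ca_of_two hH R hR hh).2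
  obtain ⟨B, s, hB1, hB2, hB4⟩ := exists_borel_half hH hR hc0 hx hidx
  have hHpos : 0 < Nat.card H := Nat.card_pos
  have hBpos : 0 < Nat.card B := Nat.card_pos
  have hs0 : 0 < s := Nat.pos_of_ne_zero fun h => by simp [h] at hB2; omega
  have hzi := card_mul_index (center H)
  have hipos := index_pos (center H)
  by_cases hBZ : B ≤ center H
  · have h1 := Nat.le_mul_of_pos_right (p - 1) hs0
    have h0 := card_le_of_le hBZ
    by_cases hZ : center H = ⊤
    · rw [hZ, index_top] at hk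
      have h2 := Nat.le_of_dvd hHpos (index_dvd_card B)
      omega
    · obtain ⟨x, hx⟩ : ∃ x, x ∉ center H := by
        by_contra h; push Not at h; exact hZ (eq_top_iff.mpr fun x _ => h x)
      have h2 : 0 < a (c ⟨x, hx⟩) := by
        rw [hac]
        exact @Nat.card_pos _ ⟨⟨_, rfl⟩⟩ _
      have h3 := Finset.single_le_sum (f := fun i => a i * m i) (fun i _ => Nat.zero_le _)
        (Finset.mem_univ (c ⟨x, hx⟩))
      have h4 := Nat.mul_pos h2 (show 0 < m (c ⟨x, hx⟩) from by linarith [hm2 (c ⟨x, hx⟩)])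
      have h6 : Nat.card (center H) < Nat.card (ConjClasses H) :=
        Nat.lt_of_mul_lt_mul_right (a := (center H).index) (by omega)
      omega
  obtain ⟨b, hb, hbZ⟩ := SetLike.not_le_iff_exists.mp hBZ
  have hZB : center H ≤ B := hB4 b hb hbZ ▸ center_le_centralizer _
  have h1 : m (c ⟨b, hbZ⟩) = (center H).relIndex B := by rw [hm, hB4 b hb hbZ]
  have h2 : (center H).index = (p + 1) * m (c ⟨b, hbZ⟩) := by
    rw [h1, ← hB1, mul_comm, relIndex_mul_index hZB]
  have hq : ∀ i, (a i : ℚ) * f i * m i = Nat.card H * (m i - 1) := fun i => by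
    have := congrArg (Nat.cast : ℕ → ℚ) (ha i)
    rwa [Nat.cast_mul, Nat.cast_mul, Nat.cast_mul, Nat.cast_sub (by linarith [hm2 i]),
      Nat.cast_one] at this
  have hf0 : ∀ i, (f i : ℚ) ≠ 0 := fun i => by rcases hf i with h | h <;> simp [h]
  have hm0 : ∀ i, (m i : ℚ) ≠ 0 := fun i => by have := hm2 i; positivity
  have hH0 : (Nat.card H : ℚ) ≠ 0 := by positivity
  have hzi' : (Nat.card (center H) : ℚ) * ((p + 1) * m (c ⟨b, hbZ⟩)) = Nat.card H := by
    rw [← hzi, h2]; push_cast; ring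
  have hg0 : ((p + 1 : ℚ) * m (c ⟨b, hbZ⟩)) ≠ 0 := mul_ne_zero (by positivity) (hm0 _)
  rcases CAClass.arith (k := 2 * Nat.card (ConjClasses H)) (z := 2 * Nat.card (center H))
    hm2 hf h5 hs0 (c ⟨b, hbZ⟩) (by rw [h1, mul_assoc, card_mul_relIndex hZB, hB2]) (by
      apply mul_left_cancel₀ hH0
      have h3 := congrArg (Nat.cast : ℕ → ℚ) hs
      push_cast at h3
      rw [Finset.mul_sum, Finset.sum_congr rfl fun i _ => show _ = (a i : ℚ) by
        rw [← mul_div_assoc, ← hq]; field_simp [hf0 i, hm0 i], mul_sub, ← hzi', mul_one_div,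
        mul_div_cancel_right₀ _ hg0]
      linear_combination h3 - hzi') (by
      rw [Nat.cast_mul, Nat.cast_mul, mul_assoc]
      congr 1
      apply mul_right_cancel₀ hg0
      have h3 := congrArg (Nat.cast : ℕ → ℚ) hk
      rw [h2] at h3
      push_cast at h3
      rw [h3, mul_right_comm, hzi', mul_add, mul_one, Finset.mul_sum]
      congr 1
      exact Finset.sum_congr rfl fun i _ => by
        rw [← mul_div_assoc, ← hq]; field_simp [hf0 i]) with h | ⟨-, h3, -⟩ | ⟨-, -, -, h3, -⟩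
  · exact h
  · omega
  · omega

theorem le_of_swap_four (hH : ¬ p ∣ Nat.card H) (h7 : 7 ≤ p)
    {R : H →* Matrix (Fin 4) (Fin 4) (ZMod p)} (hR : Function.Injective R)
    (hidx : ∀ {v : Fin 4 → ZMod p}, v ≠ 0 → 2 * (stab R v).index = p ^ 4 - 1) :
    p ≤ 2 * Nat.card (ConjClasses H) := by
  classical
  have hodd : Odd p := hp.out.odd_of_ne_two (by omega)
  have hdvd : ∀ v ≠ 0, p ^ 2 + 1 ∣ (stab R v).index := fun v hv => by
    have h1 := hidx hv
    obtain ⟨t, ht⟩ : Even (p ^ 2 - 1) := Nat.Odd.sub_odd hodd.pow odd_one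
    rw [show p ^ 4 - 1 = (p ^ 2) ^ 2 - 1 ^ 2 by ring_nf, Nat.sq_sub_sq, ht, ← two_mul,
      mul_left_comm] at h1
    exact Dvd.intro _ (Nat.eq_of_mul_eq_mul_left two_pos h1).symm
  by_contra hcon
  by_cases h : ∃ s, s.Prime ∧ s ≠ 2 ∧ s ≠ 5 ∧ s ∣ p ^ 2 + 1
  swap
  · have h1 : natPiPart {5}ᶜ (p ^ 2 + 1) ∣ 2 := by
      rw [Nat.dvd_iff_prime_pow_dvd_dvd]
      intro l k hl hk
      have key : l ∣ natPiPart {5}ᶜ (p ^ 2 + 1) → l = 2 := fun hd => by
        by_contra h2
        exact h ⟨l, hl, h2, isPiNumber_natPiPart _ _ l hl hd, hd.trans (natPiPart_dvd _ _)⟩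
      rcases k with _ | _ | k
      · simp
      · simp [key (by simpa using hk)]
      · obtain rfl := key ((dvd_pow_self l (by omega)).trans hk)
        have h2 := ((pow_dvd_pow 2 (show 2 ≤ k + 1 + 1 by omega)).trans hk).trans
          (natPiPart_dvd _ _)
        obtain ⟨c, rfl⟩ := hodd
        rw [show (2 * c + 1) ^ 2 + 1 = 4 * (c ^ 2 + c) + 2 by ring] at h2
        omega
    have h2 := natPiPart_mul_natPiPart_compl {5} (show p ^ 2 + 1 ≠ 0 by omega)
    have h3 := Nat.mul_le_mul_left (natPiPart {5} (p ^ 2 + 1)) (Nat.le_of_dvd two_pos h1)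
    obtain ⟨χ, hχ, hdeg, hf, -⟩ := exists_lift_zmod hH R hR
    have : Fact (Nat.Prime 5) := ⟨by norm_num⟩
    obtain ⟨P⟩ : Nonempty (Sylow 5 H) := inferInstance
    have := isMulCommutative_iff_forall.mpr (hχ.comm_of_isPGroup hf (by omega) P.isPGroup')
    have h4 := le_of_hall hH (by omega) (isPiHall_sylow P) (isPiNumber_natPiPart _ _)
      fun v hv => (natPiPart_dvd _ _).trans (hdvd v hv)
    have h5 := cls_le (H := H) {5}
    have h6 : 7 * p ≤ p ^ 2 := by nlinarith
    omega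
  obtain ⟨s, hs, hs2, hs5, hsp⟩ := h
  have h13 : 13 ≤ s := by
    have : Fact s.Prime := ⟨hs⟩
    have h1 := ZMod.mod_four_ne_three_of_sq_eq_neg_one (p := s) (y := p) (by
      have := (ZMod.natCast_eq_zero_iff _ _).mpr hsp
      push_cast at this
      linear_combination this)
    by_contra h2
    have := hs.two_le
    push Not at h2
    interval_cases s <;> first | omega | exact absurd hs (by norm_num)
  obtain ⟨χ, hχ, hdeg, hf, hF⟩ := exists_lift_zmod hH R hR
  obtain ⟨y, δ, h1, h2, h3, h4⟩ := exists_regular hχ hdeg hf hF hs h13 hsp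
    (hsp.trans ((hdvd (fun _ => 1) fun h => one_ne_zero (congrFun h 0)).trans (index_dvd_card _)))
  have := hχ.comm_centralizer_of_injective hf h1 h2 h3
  have h6 : (centralizer ({y} : Set H)).index ≤ 24 := by
    rw [← card_isConj_eq_index_centralizer]
    refine le_trans (Nat.card_congr (Equiv.subtypeEquivRight fun z => ?_)).le
      (hχ.card_conj_le hf h1 h2 h3)
    refine ⟨fun hz => ⟨hz, ?_⟩, And.left⟩
    obtain ⟨g, rfl⟩ := isConj_iff.mp hz
    exact h4 g
  obtain ⟨v, hv, hT⟩ := exists_weight' hH (by norm_num) R (centralizer {y})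
  have := Fintype.ofFinite (ConjClasses H)
  have h9 := hT (Finset.univ.erase (ConjClasses.mk 1)) fun b _ hb => by
    simpa [ConjClasses.mk_eq_mk_iff_isConj] using hb
  rw [Finset.card_erase_of_mem (Finset.mem_univ _), Finset.card_univ,
    ← Nat.card_eq_fintype_card] at h9
  have h8 := (Nat.le_of_dvd (Nat.mul_pos (relIndex_pos _ _) (index_pos _))
    (index_dvd_mul (stab R v) (centralizer {y}))).trans (Nat.mul_le_mul h9 h6)
  have h11 := hidx hv
  have h10 : 343 * p ≤ p ^ 4 := by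
    rw [show p ^ 4 = p ^ 3 * p by ring]
    exact Nat.mul_le_mul_right _ (Nat.pow_le_pow_left h7 3)
  omega

/-- A `p'`-subgroup of `GL(n, p)`, `n ≥ 2`, with two orbits on nonzero vectors has at least `p / 2`
classes. -/
theorem Two.le_card (hH : ¬ p ∣ Nat.card H) (hR : Function.Injective R) (h7 : 7 ≤ p) (hn : 2 ≤ n)
    (h : Two R v₁ v₂) : p ≤ 2 * Nat.card (ConjClasses H) := by
  by_cases hc : ∀ c : ZMod p, c ≠ 0 → c • v₁ ∈ orb R v₁
  · exact le_of_closed hH hR h7 h hc
  push Not at hc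
  obtain ⟨c, h0, hc⟩ := hc
  have hc' := (h.cover _ (smul_ne_zero h0 h.ne₁)).resolve_left hc
  by_cases h2 : n = 2
  · subst h2; exact le_of_swap_two hH (by omega) hR h0 (h.xor h0 hc') (h.index_eq h0 hc')
  by_cases h4 : n = 4
  · subst h4; exact le_of_swap_four hH h7 hR (h.index_eq h0 hc')
  obtain ⟨m, h1, h3, h5⟩ := exists_good hp.out (by omega) (by omega) h4
  have h6 : ∀ v ≠ 0, m ∣ (stab R v).index := fun v hv =>
    Nat.Coprime.dvd_of_dvd_mul_left (Nat.Coprime.symm ((Nat.Prime.coprime_iff_not_dvd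
      Nat.prime_two).mpr fun h2 => by
        rcases h5 with h5 | h5 <;> have := h5 2 Nat.prime_two h2 <;> simp at this <;> omega))
      (h.index_eq h0 hc' hv ▸ h1)
  have key : ∀ σ, m ≤ n * (cls H σ).card + 1 → p ≤ 2 * Nat.card (ConjClasses H) := fun σ h4 => by
    have := Nat.lt_of_mul_lt_mul_left (Nat.lt_of_add_lt_add_right (h3.trans_le h4))
    have := cls_le (H := H) σ
    omega
  rcases h5 with h5 | h5
  · exact key _ (le_of_big hH (by omega) hR (fun _ h => h) h5 h6)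
  · obtain ⟨q, hq, hqm⟩ := Nat.exists_prime_and_dvd (show m ≠ 1 by omega)
    obtain rfl : q = n + 1 := h5 q hq hqm
    obtain ⟨χ, hχ, hdeg, hf, -⟩ := exists_lift_zmod hH R hR
    have : Fact (n + 1).Prime := ⟨hq⟩
    obtain ⟨P⟩ : Nonempty (Sylow (n + 1) H) := inferInstance
    have := isMulCommutative_iff_forall.mpr (hχ.comm_of_isPGroup hf (by omega) P.isPGroup')
    exact key _ (le_of_hall hH (by omega) (isPiHall_sylow P) h5 h6)

end Cfsg.TwoOrb
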