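import Cfsg.Agent.Grp.TwoOrbC
import Cfsg.Agent.S4878

/-!
# `p`-solvable groups with two classes of nontrivial `p`-elements: `p`-regular class numbers
-/

set_option autoImplicit false
set_option linter.unusedSectionVars false

namespace Cfsg.TwoOrb

open scoped Matrix
open Subgroup TransLin OnePClass

universe u

variable {G : Type u} [Group G] [Finite G] {p : ℕ} [hp : Fact p.Prime]

/-- Exactly two classes of nontrivial `p`-elements. -/
def TwoCl (p : ℕ) (G : Type u) [Group G] : Prop :=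
  ∃ x y : G, IsPElt p x ∧ IsPElt p y ∧ x ≠ 1 ∧ y ≠ 1 ∧ ¬ IsConj x y ∧
    ∀ z : G, IsPElt p z → z ≠ 1 → IsConj x z ∨ IsConj y z

theorem twoCl_of_card (h3 : Nat.card {c : ConjClasses G // ∃ g : G, ConjClasses.mk g = c ∧
    ∃ k : ℕ, orderOf g = p ^ k} = 3) : TwoCl p G := by
  classical
  set A := {c : ConjClasses G // ∃ g : G, ConjClasses.mk g = c ∧ ∃ k : ℕ, orderOf g = p ^ k}
  have := Fintype.ofFinite A
  let o : A := ⟨ConjClasses.mk 1, 1, rfl, 0, by simp⟩
  obtain ⟨a, b, hab, h⟩ := Finset.card_eq_two.mp (show (Finset.univ.erase o).card = 2 by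
    rw [Finset.card_erase_of_mem (Finset.mem_univ _), Finset.card_univ,
      ← Nat.card_eq_fintype_card, h3])
  have ha := Finset.ne_of_mem_erase (h.ge (Finset.mem_insert_self a _))
  have hb := Finset.ne_of_mem_erase (h.ge (Finset.mem_insert_of_mem (Finset.mem_singleton_self b)))
  obtain ⟨_, x, rfl, hx⟩ := a
  obtain ⟨_, y, rfl, hy⟩ := b
  refine ⟨x, y, hx, hy, fun e => ha (by subst e; rfl), fun e => hb (by subst e; rfl),
    fun e => hab (Subtype.ext (ConjClasses.mk_eq_mk_iff_isConj.mpr e)), fun z hz h1 => ?_⟩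
  have h2 := h.le (Finset.mem_erase.mpr ⟨show (⟨ConjClasses.mk z, z, rfl, hz⟩ : A) ≠ o from
    fun e => h1 (isConj_one_left.mp (ConjClasses.mk_eq_mk_iff_isConj.mp
      (congrArg Subtype.val e))), Finset.mem_univ _⟩)
  simp only [Finset.mem_insert, Finset.mem_singleton, A, Subtype.mk.injEq,
    ConjClasses.mk_eq_mk_iff_isConj] at h2
  exact h2.imp IsConj.symm IsConj.symm

theorem isConj_of_quot {N : Subgroup G} [N.Normal] (hN : ¬ p ∣ Nat.card N) {x y : G}
    (hx : IsPElt p x) (hy : IsPElt p y) (h : IsConj (x : G ⧸ N) y) : IsConj x y := by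
  obtain ⟨g, hg⟩ := isConj_iff.mp h
  obtain ⟨g, rfl⟩ := QuotientGroup.mk_surjective g
  have h0 : IsConj x (g * x * g⁻¹) := isConj_iff.mpr ⟨g, rfl⟩
  have hx' := (isPElt_iff_of_isConj h0).mp hx
  refine h0.trans ?_
  rw [← QuotientGroup.mk_inv, ← QuotientGroup.mk_mul, ← QuotientGroup.mk_mul] at hg
  generalize g * x * g⁻¹ = w at hg hx'
  have hc : ∀ {z : G}, IsPElt p z → (Nat.card N).Coprime (Nat.card (zpowers z)) :=
    fun ⟨k, hk⟩ => by
      rw [Nat.card_zpowers, hk]
      exact ((Nat.Prime.coprime_iff_not_dvd hp.out).mpr hN).symm.pow_right k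
  obtain ⟨m, hm, h1⟩ := exists_map_conj_le_of_coprime (N := N) (hc hx') (hc hy)
    (zpowers_le.mpr (by
      rw [← mul_inv_cancel_left w y]
      exact mul_mem (mem_sup_left (mem_zpowers w)) (mem_sup_right (QuotientGroup.eq.mp hg))))
    (Or.inr inferInstance)
  have h2 : m * y * m⁻¹ ∈ zpowers w := h1 ⟨y, mem_zpowers y, rfl⟩
  have h3 : w⁻¹ * (m * y * m⁻¹) ∈ N ⊓ zpowers w := mem_inf.mpr ⟨by
    rw [← QuotientGroup.eq, hg, QuotientGroup.mk_mul, QuotientGroup.mk_mul, QuotientGroup.mk_inv,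
      (QuotientGroup.eq_one_iff m).mpr hm]; simp, mul_mem (inv_mem (mem_zpowers w)) h2⟩
  rw [inf_eq_bot_of_coprime (hc hx'), mem_bot, inv_mul_eq_one] at h3
  exact (isConj_iff.mpr ⟨m, h3.symm⟩).symm

theorem TwoCl.quot (h : TwoCl p G) {N : Subgroup G} [N.Normal] (hN : ¬ p ∣ Nat.card N) :
    TwoCl p (G ⧸ N) := by
  obtain ⟨x, y, hx, hy, hx1, hy1, hxy, h⟩ := h
  have h1 : ∀ {z : G}, IsPElt p z → z ≠ 1 → (z : G ⧸ N) ≠ 1 := fun hz h1 e =>
    h1 (isConj_one_left.mp (isConj_of_quot hN hz ⟨0, by simp⟩ (e ▸ IsConj.refl _)))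
  refine ⟨x, y, hx.map (QuotientGroup.mk' N), hy.map (QuotientGroup.mk' N), h1 hx hx1, h1 hy hy1,
    fun e => hxy (isConj_of_quot hN hx hy e), fun z hz hz1 => ?_⟩
  obtain ⟨z, hz', rfl⟩ := hz.exists_lift (QuotientGroup.mk'_surjective N)
  exact (h z hz' fun e => hz1 (e ▸ rfl)).imp (QuotientGroup.mk' N).map_isConj
    (QuotientGroup.mk' N).map_isConj

theorem card_reg_quot_le (N : Subgroup G) [N.Normal] :
    Nat.card {c : ConjClasses (G ⧸ N) // ∃ g, ConjClasses.mk g = c ∧ ¬ p ∣ orderOf g} ≤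
      Nat.card {c : ConjClasses G // ∃ g : G, ConjClasses.mk g = c ∧ ¬ p ∣ orderOf g} := by
  refine Nat.card_le_card_of_surjective (fun c => ⟨ConjClasses.map (QuotientGroup.mk' N) c.1, by
    obtain ⟨g, h1, h2⟩ := c.2
    exact ⟨g, h1 ▸ rfl, fun h => h2 (h.trans (orderOf_map_dvd (QuotientGroup.mk' N) g))⟩⟩) ?_
  rintro ⟨_, g, rfl, hg⟩
  obtain ⟨x, hx, rfl⟩ := IsPRegular.exists_lift (QuotientGroup.mk'_surjective N) hg
  exact ⟨⟨ConjClasses.mk x, x, rfl, hx⟩, rfl⟩

theorem exists_inj_affine {P K : Subgroup G} [P.Normal] (hi : P ⊓ K = ⊥) (hs : K ⊔ P = ⊤)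
    (hC : centralizer (P : Set G) ≤ P) (e : P ≃ (Fin 1 → ZMod p))
    (R : G →* Matrix (Fin 1) (Fin 1) (ZMod p)) (he : ∀ x y, e (x * y) = e x + e y)
    (hR : ∀ g (x : P), e (MulAut.conjNormal g x) = R g *ᵥ e x) :
    ∃ f : G →* affineGroup (ZMod p), Function.Injective f := by
  obtain ⟨π, hπ, hk⟩ := exists_proj hi hs
  let e' : P ≃ ZMod p := e.trans (Equiv.funUnique _ _)
  have hm : ∀ (g : G) (x : P), g * x * (π g : G)⁻¹ ∈ P := fun g x => by
    rw [← hk, map_mul, map_mul, map_inv, hπ, (hk x).mpr x.2]; simp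
  letI : MulAction G P :=
    { smul := fun g x => ⟨_, hm g x⟩
      one_smul := fun x => Subtype.ext (show 1 * (x : G) * (π 1 : G)⁻¹ = x by simp)
      mul_smul := fun g h x => Subtype.ext (show g * h * (x : G) * (π (g * h) : G)⁻¹ =
        g * (h * (x : G) * (π h : G)⁻¹) * (π g : G)⁻¹ by simp [mul_assoc]) }
  have hsm : ∀ (g : G) (x : P), ((g • x : P) : G) = g * x * (π g : G)⁻¹ := fun _ _ => rfl
  let θ : G →* Equiv.Perm (ZMod p) := e'.permCongrHom.toMonoidHom.comp (MulAction.toPermHom G P)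
  have hθ : ∀ g x, θ g x = R g 0 0 * x + e' (g • 1) := fun g x => by
    obtain ⟨x, rfl⟩ := e'.surjective x
    have h1 : g • x = MulAut.conjNormal g x * g • (1 : P) :=
      Subtype.ext (by simp [hsm, mul_assoc])
    have h2 : θ g (e' x) = e' (g • x) := by simp [θ]
    rw [h2, h1]
    simp [e', he, hR, Matrix.mulVec, dotProduct]
  have hu : ∀ g, R g 0 0 * R g⁻¹ 0 0 = 1 := fun g => by
    have := congrFun (congrFun ((map_mul R g g⁻¹).symm.trans (by rw [mul_inv_cancel, map_one])) 0) 0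
    simpa [Matrix.mul_apply] using this
  refine ⟨θ.codRestrict (affineGroup (ZMod p)) fun g => ⟨Units.mkOfMulEqOne _ _ (hu g), _, hθ g⟩,
    (injective_iff_map_eq_one _).mpr fun g hg => ?_⟩
  have h1 : ∀ x : P, g * x * (π g : G)⁻¹ = x := fun x => by
    have h2 : θ g (e' x) = e' x := by rw [show θ g = 1 from congrArg Subtype.val hg]; rfl
    simp only [θ, MonoidHom.comp_apply, MulEquiv.coe_toMonoidHom, Equiv.permCongrHom_coe,
      Equiv.permCongr_apply, Equiv.symm_apply_apply, EmbeddingLike.apply_eq_iff_eq] at h2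
    exact congrArg Subtype.val h2
  have h2 : g = π g := by simpa [mul_inv_eq_one] using h1 1
  have h3 : g ∈ P := hC (mem_centralizer_iff.mpr fun x hx => by
    have := h1 ⟨x, hx⟩
    rw [← h2, mul_inv_eq_iff_eq_mul] at this
    exact this.symm)
  rw [h2, (hk g).mpr h3, OneMemClass.coe_one]

theorem card_reg_le_of_affine (h2 : p ≠ 2) (hG : 2 * Nat.card G = p * (p - 1))
    {f : G →* affineGroup (ZMod p)} (hf : Function.Injective f) :
    2 * Nat.card {c : ConjClasses G // ∃ g : G, ConjClasses.mk g = c ∧ ¬ p ∣ orderOf g} ≤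
      p - 1 := by
  have h0 : ∀ (g : G) x, (f g).1 x = ((f g).1 1 - (f g).1 0) * x + (f g).1 0 := fun g x => by
    obtain ⟨a, b, h⟩ := (f g).2
    simp [h]
  let l : G →* ZMod p :=
    { toFun := fun g => (f g).1 1 - (f g).1 0
      map_one' := by simp
      map_mul' := fun g h => by
        simp only [map_mul, Subgroup.coe_mul, Equiv.Perm.coe_mul, Function.comp_apply]
        rw [h0 g ((f h).1 1), h0 g ((f h).1 0)]; ring }
  let P := l.toHomUnits.ker
  have h1 : ∀ g : P, ∀ x, (f g).1 x = x + (f g).1 0 := fun g x => by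
    rw [h0, show (f g).1 1 - (f g).1 0 = 1 from congrArg Units.val (MonoidHom.mem_ker.mp g.2),
      one_mul]
  let t : P →* Multiplicative (ZMod p) :=
    { toFun := fun g => Multiplicative.ofAdd ((f g).1 0)
      map_one' := by simp
      map_mul' := fun g h => by
        simp only [map_mul, Subgroup.coe_mul, Equiv.Perm.coe_mul, Function.comp_apply]
        rw [h1 g, add_comm, ofAdd_add] }
  have h3 : Nat.card P ∣ p := by
    have := card_dvd_of_injective t ((injective_iff_map_eq_one _).mpr fun g hg =>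
      Subtype.ext (hf (Subtype.ext (Equiv.ext fun x => by
        rw [h1, show (f g).1 0 = 0 from hg]; simp))))
    simpa using this
  have h4 : ¬ p ∣ P.index := fun h => by
    have h5 := h.trans ((dvd_of_eq (index_ker _)).trans
      (card_subgroup_dvd_card l.toHomUnits.range))
    rw [Nat.card_eq_fintype_card, ZMod.card_units] at h5
    have := hp.out.two_le
    have := Nat.le_of_dvd (by omega) h5
    omega
  have h5 : Nat.card P = p := ((Nat.dvd_prime hp.out).mp h3).resolve_left fun h => by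
    have h6 := (hp.out.dvd_mul.mp (Dvd.intro _ hG.symm)).resolve_left fun h =>
      h2 ((Nat.prime_dvd_prime_iff_eq hp.out Nat.prime_two).mp h)
    rw [← card_mul_index P, h, one_mul] at h6
    exact h4 h6
  obtain ⟨K, hi, hs, hK⟩ := exists_complement_of_coprime (N := P)
    (h5 ▸ (Nat.Prime.coprime_iff_not_dvd hp.out).mpr h4)
  rw [card_reg_eq (IsPGroup.of_card (n := 1) (by simpa using h5)) (hK ▸ h4) hi hs]
  rw [← card_mul_index P, h5, ← hK, mul_left_comm] at hG
  rw [← Nat.eq_of_mul_eq_mul_left hp.out.pos hG]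
  exact Nat.mul_le_mul_left 2 (Nat.card_le_card_of_surjective _ ConjClasses.mk_surjective)

/-- The case `O_{p'}(G) = 1`. -/
theorem core (hsolv : IsPSolvable p G) (h0 : pPrimeCore p G = ⊥) (h : TwoCl p G) :
    p ≤ 2 * Nat.card {c : ConjClasses G // ∃ g : G, ConjClasses.mk g = c ∧ ¬ p ∣ orderOf g} ∨
    (2 * Nat.card {c : ConjClasses G // ∃ g : G, ConjClasses.mk g = c ∧ ¬ p ∣ orderOf g} = p - 1 ∧
      p ≠ 2 ∧ 2 * Nat.card G = p * (p - 1) ∧
        ∃ f : G →* affineGroup (ZMod p), Function.Injective f) := by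
  obtain ⟨x, y, hx, hy, hx1, hy1, hxy, h⟩ := h
  have hp2 := hp.out.two_le
  have hC := hsolv.centralizer_pCore_le h0
  have hP := isPGroup_pCore p G
  set P := pCore p G
  let V : Subgroup G :=
    { carrier := {v | v ^ p = 1 ∧ v ∈ P ⊓ centralizer (P : Set G)}
      one_mem' := ⟨one_pow p, one_mem _⟩
      mul_mem' := fun {a b} ha hb => ⟨by
        rw [Commute.mul_pow (mem_centralizer_iff.mp hb.2.2 a ha.2.1), ha.1, hb.1, one_mul],
        mul_mem ha.2 hb.2⟩
      inv_mem' := fun {a} ha => ⟨by rw [inv_pow, ha.1, inv_one], inv_mem ha.2⟩ }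
  have hVn : V.Normal := ⟨fun v hv g => ⟨by rw [conj_pow, hv.1]; simp,
    Normal.conj_mem inferInstance v hv.2 g⟩⟩
  have hVc : ∀ {a b : G}, IsConj a b → a ∈ V → b ∈ V := fun hab ha => by
    obtain ⟨g, rfl⟩ := isConj_iff.mp hab
    exact hVn.conj_mem _ ha g
  have hP0 : P ≠ ⊥ := fun h => by
    rw [h, coe_bot, centralizer_eq_top_iff_subset.mpr (by simp)] at hC
    exact hx1 (hC (mem_top x))
  obtain ⟨z, hz⟩ := exists_prime_orderOf_dvd_card' p (dvd_card_of_isPGroup_of_ne_bot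
    (hP.to_subgroup _) (inf_center_ne_bot_of_isPGroup hP (N := ⊤) (by
      rwa [Ne, ← card_eq_one, card_top, card_eq_one])))
  have hz1 : orderOf (z.1 : G) = p := by rw [orderOf_coe, orderOf_coe, hz]
  have hzV : (z.1 : G) ∈ V := ⟨by rw [← hz1, pow_orderOf_eq_one], z.1.2,
    mem_centralizer_iff.mpr fun y hy => congrArg Subtype.val (mem_center_iff.mp z.2.2 ⟨y, hy⟩)⟩
  have hz2 := h z.1 ⟨1, by simp [hz1]⟩ fun h => hp.out.one_lt.ne (by simp [← hz1, h])
  by_cases hall : ¬ (x ∈ V ∧ y ∈ V)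
  · obtain ⟨w, hw, hwV, hw'⟩ : ∃ w, IsPElt p w ∧ w ∉ V ∧
        ∀ a, IsPElt p a → a ∉ V → IsConj w a := by
      have h1 : ∀ a, IsPElt p a → a ∉ V → IsConj x a ∨ IsConj y a := fun a ha haV =>
        h a ha fun e => haV (e ▸ one_mem V)
      rcases hz2 with e | e
      · have h2 := hVc e.symm hzV
        exact ⟨y, hy, fun h3 => hall ⟨h2, h3⟩, fun a ha haV =>
          (h1 a ha haV).resolve_left fun e => haV (hVc e h2)⟩
      · have h2 := hVc e.symm hzV
        exact ⟨x, hx, fun h3 => hall ⟨h3, h2⟩, fun a ha haV =>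
          (h1 a ha haV).resolve_right fun e => haV (hVc e h2)⟩
    have h1 := card_reg_quot_le (p := p) V
    obtain ⟨k, hk⟩ := hw.map (QuotientGroup.mk' V)
    left
    rcases Agent.S4878.result p (hsolv.to_quotient V) (by
      refine Dvd.dvd.trans ?_ (orderOf_dvd_natCard (QuotientGroup.mk' V w))
      rcases k with _ | k
      · exact absurd ((QuotientGroup.eq_one_iff w).mp (orderOf_eq_one_iff.mp hk)) hwV
      · exact hk ▸ dvd_pow_self p k.succ_ne_zero) (fun a b ha hb ha' hb' => by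
      obtain ⟨a, ha2, rfl⟩ := IsPElt.exists_lift (QuotientGroup.mk'_surjective V) ha'
      obtain ⟨b, hb2, rfl⟩ := IsPElt.exists_lift (QuotientGroup.mk'_surjective V) hb'
      exact (QuotientGroup.mk' V).map_isConj
        ((hw' a ha2 fun e => ha ((QuotientGroup.eq_one_iff a).mpr e)).symm.trans
          (hw' b hb2 fun e => hb ((QuotientGroup.eq_one_iff b).mpr e)))) with
      h2 | ⟨h2, -⟩ | ⟨h2, h3, -⟩ <;> omega
  push Not at hall
  have hall' : ∀ a : G, IsPElt p a → a ^ p = 1 ∧ a ∈ P ⊓ centralizer (P : Set G) := fun a ha => by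
    by_cases h1 : a = 1
    · rw [h1]; exact V.one_mem
    · exact (h a ha h1).elim (hVc · hall.1) (hVc · hall.2)
  have hCP : P ≤ centralizer (P : Set G) := fun a ha => (hall' a (isPElt_of_mem hP ha)).2.2
  have : IsMulCommutative P := le_centralizer_iff_isMulCommutative.mp hCP
  have hidx : ¬ p ∣ P.index := fun h => by
    obtain ⟨y, hy⟩ := exists_prime_orderOf_dvd_card' (G := G ⧸ P) p h
    obtain ⟨x, hx, rfl⟩ := IsPElt.exists_lift (QuotientGroup.mk'_surjective P)
      (show IsPElt p y from ⟨1, by simp [hy]⟩)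
    rw [QuotientGroup.mk'_apply, (QuotientGroup.eq_one_iff _).mpr (hall' x hx).2.1] at hy
    exact hp.out.one_lt.ne (by simp [← hy])
  obtain ⟨a, ha⟩ := hP.exists_card_eq
  obtain ⟨K, hi, hs, hK⟩ := exists_complement_of_coprime (N := P)
    (ha ▸ ((Nat.Prime.coprime_iff_not_dvd hp.out).mpr hidx).pow_left a)
  rw [← hK] at hidx
  rw [card_reg_eq hP hidx hi hs]
  obtain ⟨π, hπ, hk⟩ := exists_proj hi hs
  obtain ⟨n, e, R, he, hR⟩ := exists_coords (p := p) P fun x hx => (hall' x (isPElt_of_mem hP hx)).1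
  have he1 : e 1 = 0 := by simpa using he 1 1
  have he0 : ∀ x : P, e x = 0 ↔ x = 1 := fun x => by rw [← he1, e.apply_eq_iff_eq]
  have hRi : Function.Injective (R.comp K.subtype) :=
    (injective_iff_map_eq_one _).mpr fun k hk => Subtype.ext (hi.le ⟨hC
      (mem_centralizer_iff.mpr fun x hx => by
        have h1 := hR k ⟨x, hx⟩
        rw [show R k = 1 from hk, Matrix.one_mulVec, e.apply_eq_iff_eq] at h1
        exact (mul_inv_eq_iff_eq_mul.mp (congrArg Subtype.val h1)).symm), k.2⟩)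
  have horb : ∀ x y : P, e y ∈ orb (R.comp K.subtype) (e x) ↔ IsConj (x : G) y := fun x y => by
    rw [mem_orb, isConj_iff]
    refine ⟨fun ⟨g, hg⟩ => ⟨g, congrArg Subtype.val (e.injective ((hR g x).trans hg))⟩,
      fun ⟨g, hg⟩ => ⟨π g, (hR _ x).symm.trans (congrArg e (Subtype.ext ?_))⟩⟩
    have h1 := mem_centralizer_iff.mp (hCP ((hk ((π g : G)⁻¹ * g)).mp (by simp [hπ]))) x x.2
    rw [← hg, MulAut.conjNormal_apply, coe_subtype]
    calc _ = (π g : G) * (x * ((π g : G)⁻¹ * g)) * g⁻¹ := by group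
      _ = _ := by rw [h1]; group
  have hT : Two (R.comp K.subtype) (e ⟨x, hall.1.2.1⟩) (e ⟨y, hall.2.2.1⟩) :=
    ⟨fun h => hx1 (congrArg Subtype.val ((he0 _).mp h)),
      fun h => hy1 (congrArg Subtype.val ((he0 _).mp h)), fun h => hxy ((horb _ _).mp h),
      fun v hv => by
        obtain ⟨v, rfl⟩ := e.surjective v
        rw [horb, horb]
        exact h v (isPElt_of_mem hP v.2) fun h1 => hv ((he0 v).mpr (Subtype.ext h1))⟩
  have hcP : Nat.card P = p ^ n := by rw [Nat.card_congr e]; simp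
  have hn0 : n ≠ 0 := fun h => hP0 (card_eq_one.mp (by rw [hcP, h, pow_zero]))
  have h3 := hT.card_add
  rw [card_orb, card_orb] at h3
  by_cases hn1 : n = 1
  · subst hn1
    have h1 : ∀ v ≠ 0, stab (R.comp K.subtype) v = ⊥ := fun v hv => eq_bot_iff.mpr fun k hk =>
      hRi (by
        ext i j
        rw [Subsingleton.elim i 0, Subsingleton.elim j 0]
        have h2 : v 0 ≠ 0 := fun h => hv (funext fun i => by rw [Subsingleton.elim i 0, h]; rfl)
        simpa [Matrix.mulVec, dotProduct, h2] using congrFun hk 0)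
    rw [h1 _ hT.ne₁, h1 _ hT.ne₂, index_bot, pow_one] at h3
    have h2 : Nat.card K = Nat.card (ConjClasses K) :=
      Nat.card_eq_of_bijective ConjClasses.mk ⟨fun k l h => by
        obtain ⟨c, rfl⟩ := isConj_iff.mp (ConjClasses.mk_eq_mk_iff_isConj.mp h)
        rw [eq_mul_inv_iff_mul_eq]
        apply hRi
        ext i j
        rw [map_mul, map_mul, Subsingleton.elim i j]
        simp [Matrix.mul_apply, Subsingleton.elim j 0, mul_comm], ConjClasses.mk_surjective⟩
    refine Or.inr ⟨by omega, by omega, ?_, exists_inj_affine hi hs hC e R he hR⟩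
    rw [← card_mul_index P, hcP, pow_one, ← hK, mul_left_comm]
    congr 1
    omega
  left
  by_cases h7 : 7 ≤ p
  · exact hT.le_card hidx hRi h7 (by omega)
  have h1 := fun v => Nat.le_of_dvd Nat.card_pos (index_dvd_card (stab (R.comp K.subtype) v))
  have h4 := h1 (e ⟨x, hall.1.2.1⟩)
  have h5 := h1 (e ⟨y, hall.2.2.1⟩)
  by_cases h2 : p = 2
  · have : 0 < Nat.card (ConjClasses K) := Nat.card_pos
    omega
  have h6 := (Nat.pow_le_pow_left (show 3 ≤ p by omega) 2).trans
    (Nat.pow_le_pow_right hp.out.pos (show 2 ≤ n by omega))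
  have := three_le_card_conjClasses (G := K) (by omega)
  omega

end Cfsg.TwoOrb

set_option linter.all false in
theorem Cfsg.Rz.Grp_TwoPClass_0 : True := by
  have := @_root_.Cfsg.TwoOrb.TwoCl.eq_def.{0}
  have := @_root_.Cfsg.TwoOrb.TwoCl.eq_1.{0}
  have := @_root_.Cfsg.TwoOrb.TwoCl.fun_cases
  trivial
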